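import Cfsg.Agent.Lib.ThG2.Main

/-!
# Choosing a good block for the Levi subgroup of `³D₄`
-/

set_option autoImplicit false
set_option linter.unusedSectionVars false
set_option linter.unusedVariables false
set_option linter.unusedSimpArgs false
set_option maxRecDepth 100000

namespace Cfsg.Agent.Lib.Th3D4

open Matrix
open Cfsg.Agent.Lib.ThSp4 (M2 Good)
open Cfsg.Agent.Lib.ThG2 (E12 E21 dG detU detU_val E12_val E21_val dG_val detU_E12 detU_E21 detU_mul det_ne not_scalar_of_off good_one)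

variable {F : Type*} [Field F]

/-- The Weyl element in `GL₂`. -/
noncomputable def Mb : GL (Fin 2) F := E12 1 * E21 (-1) * E12 1

theorem Mb_val : (Mb : GL (Fin 2) F).1 = !![0, 1; -1, 0] := by
  rw [Mb, Units.val_mul, Units.val_mul, E12_val, E21_val]
  ext i j
  fin_cases i <;> fin_cases j <;> simp [Matrix.mul_apply, Fin.sum_univ_two]

theorem detU_Mb : detU (Mb : GL (Fin 2) F) = 1 := by
  rw [Mb, detU_mul, detU_mul, detU_E12, detU_E21]
  simp

theorem E12_inv (t : F) : (E12 t : GL (Fin 2) F)⁻¹ = E12 (-t) := by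
  apply inv_eq_of_mul_eq_one_right
  apply Units.ext
  rw [Units.val_mul, E12_val, E12_val, Units.val_one]
  ext i j
  fin_cases i <;> fin_cases j <;> simp [Matrix.mul_apply, Fin.sum_univ_two]

theorem E21_inv (t : F) : (E21 t : GL (Fin 2) F)⁻¹ = E21 (-t) := by
  apply inv_eq_of_mul_eq_one_right
  apply Units.ext
  rw [Units.val_mul, E21_val, E21_val, Units.val_one]
  ext i j
  fin_cases i <;> fin_cases j <;> simp [Matrix.mul_apply, Fin.sum_univ_two]

theorem Mb_inv_val : ((Mb : GL (Fin 2) F)⁻¹).1 = !![0, -1; 1, 0] := by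
  have e : (Mb : GL (Fin 2) F)⁻¹ = E12 (-1) * E21 1 * E12 (-1) := by
    rw [Mb, _root_.mul_inv_rev, _root_.mul_inv_rev, E12_inv, E21_inv, neg_neg, mul_assoc]
  rw [e, Units.val_mul, Units.val_mul, E12_val, E21_val]
  ext i j
  fin_cases i <;> fin_cases j <;> simp [Matrix.mul_apply, Fin.sum_univ_two]

theorem detU_inv_one {S : GL (Fin 2) F} (h : detU S = 1) : detU (S⁻¹) = 1 := by
  have h3 := detU_mul S S⁻¹
  rw [mul_inv_cancel, h, one_mul] at h3
  rw [← h3]
  simp [detU]

theorem Good_det {δ : F} {A : M2 F} (h : Good δ A) : A.det = δ ^ 2 := by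
  rcases h with rfl | h
  · simp [Matrix.det_fin_two, sq]
  · exact h.1

/-- Entries of a product of two-by-two matrices. -/
theorem val_mul_eq (A B : GL (Fin 2) F) : (A * B).1 =
    !![A.1 0 0 * B.1 0 0 + A.1 0 1 * B.1 1 0, A.1 0 0 * B.1 0 1 + A.1 0 1 * B.1 1 1;
       A.1 1 0 * B.1 0 0 + A.1 1 1 * B.1 1 0, A.1 1 0 * B.1 0 1 + A.1 1 1 * B.1 1 1] := by
  rw [Units.val_mul]
  ext i j
  fin_cases i <;> fin_cases j <;> simp [Matrix.mul_apply, Fin.sum_univ_two]

theorem dG_Mb_val (c₂ : Fˣ) : ((dG 1 c₂ : GL (Fin 2) F) * Mb).1 = !![0, 1; -(c₂ : F), 0] := by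
  rw [Units.val_mul, Mb_val, dG_val]
  ext i j
  fin_cases i <;> fin_cases j <;> simp [Matrix.mul_apply, Fin.sum_univ_two]

/-- The entries of the block of the double coset of the second kind. -/
theorem block2_val (c₂ : Fˣ) (v : F) (A : GL (Fin 2) F) :
    ((dG 1 c₂ : GL (Fin 2) F) * Mb * E12 v * A).1 =
      !![A.1 1 0, A.1 1 1; -(c₂ : F) * (A.1 0 0 + v * A.1 1 0), -(c₂ : F) * (A.1 0 1 + v * A.1 1 1)] := by
  rw [Units.val_mul, Units.val_mul, dG_Mb_val, E12_val]
  ext i j
  fin_cases i <;> fin_cases j <;> simp [Matrix.mul_apply, Fin.sum_univ_two] <;> ring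

/-- An upper triangular matrix making a product good, for the second double coset. -/
theorem good_two (δ : Fˣ) (A : GL (Fin 2) F) :
    ∃ (c₂ : Fˣ) (v : F), Good (δ : F) ((dG 1 c₂ : GL (Fin 2) F) * Mb * E12 v * A).1 := by
  have hdet := det_ne A
  have hδ : (δ : F) ≠ 0 := δ.ne_zero
  set a := A.1 0 0 with ha
  set b := A.1 0 1 with hb
  set c := A.1 1 0 with hc
  set d := A.1 1 1 with hd
  set D := a * d - b * c with hD
  have hμ : (δ : F) ^ 2 / D ≠ 0 := div_ne_zero (pow_ne_zero 2 hδ) hdet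
  have hμD : (δ : F) ^ 2 / D * D = (δ : F) ^ 2 := div_mul_cancel₀ _ hdet
  set μ := (δ : F) ^ 2 / D with hμd
  have hdetB : ∀ v : F, (!![c, d; -μ * (a + v * c), -μ * (b + v * d)] : M2 F).det = (δ : F) ^ 2 := by
    intro v
    rw [Matrix.det_fin_two_of, ← hμD, hD]
    ring
  have htrB : ∀ v : F, (!![c, d; -μ * (a + v * c), -μ * (b + v * d)] : M2 F).trace = c + -μ * (b + v * d) := by
    intro v
    rw [Matrix.trace_fin_two_of]
  by_cases hd0 : d = 0
  · have hc0 : c ≠ 0 := by
      intro h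
      apply hdet
      rw [hD, hd0, h]
      ring
    by_cases htr : c + -μ * b = 2 * (δ : F)
    · have h1 : (c - (δ : F)) ^ 2 = 0 := by
        have h2 : (δ : F) ^ 2 = μ * D := hμD.symm
        rw [hD, hd0] at h2
        have h3 : (c - (δ : F)) ^ 2 = c * (c + -μ * b) - 2 * (δ : F) * c + (δ : F) ^ 2 + μ * (b * c) := by ring
        rw [h3, htr, h2]
        ring
      have h2 : c = δ := sub_eq_zero.1 ((pow_eq_zero_iff two_ne_zero).1 h1)
      have h3 : -μ * b = δ := by
        rw [h2] at htr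
        linear_combination htr
      refine ⟨Units.mk0 _ hμ, -a / c, Or.inl ?_⟩
      rw [block2_val, ← ha, ← hb, ← hc, ← hd, hd0, h2]
      have h4 : a + -a / (δ : F) * δ = 0 := by
        field_simp
        ring
      ext i j
      fin_cases i <;> fin_cases j <;> simp [Matrix.one_apply, h4, h3]
    · refine ⟨Units.mk0 _ hμ, (1 - a) / c, Or.inr ?_⟩
      rw [block2_val, ← ha, ← hb, ← hc, ← hd]
      simp only [Units.val_mk0]
      refine ⟨hdetB _, ?_, not_scalar_of_off ?_⟩
      · rw [htrB, hd0]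
        intro h
        apply htr
        linear_combination h
      · right
        have h1 : a + (1 - a) / c * c = 1 := by
          field_simp
          ring
        simp [h1, hμ]
  · by_cases htr : c + -μ * b = 2 * (δ : F)
    · refine ⟨Units.mk0 _ hμ, 1, Or.inr ?_⟩
      rw [block2_val, ← ha, ← hb, ← hc, ← hd]
      simp only [Units.val_mk0]
      refine ⟨hdetB _, ?_, not_scalar_of_off ?_⟩
      · rw [htrB]
        intro h
        apply mul_ne_zero hμ hd0
        linear_combination htr - h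
      · left
        simpa using hd0
    · refine ⟨Units.mk0 _ hμ, 0, Or.inr ?_⟩
      rw [block2_val, ← ha, ← hb, ← hc, ← hd]
      simp only [Units.val_mk0]
      refine ⟨hdetB _, ?_, not_scalar_of_off ?_⟩
      · rw [htrB]
        intro h
        apply htr
        linear_combination h
      · left
        simpa using hd0

/-! ### The third double coset -/

/-- A nonscalar matrix is conjugate to one with a non-zero lower left entry. -/
theorem exists_conj_c (X : GL (Fin 2) F) (hX : ¬ ∃ s : F, X.1 = s • 1) :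
    ∃ S : GL (Fin 2) F, detU S = 1 ∧ (S * X * S⁻¹).1 1 0 ≠ 0 := by
  by_cases hc : X.1 1 0 = 0
  · by_cases hb : X.1 0 1 = 0
    · refine ⟨E21 1, detU_E21 1, ?_⟩
      rw [E21_inv, val_mul_eq, val_mul_eq, E21_val, E21_val]
      simp [hb, hc]
      intro h
      apply hX
      refine ⟨X.1 0 0, ?_⟩
      have h1 : X.1 1 1 = X.1 0 0 := by linear_combination -h
      ext i j
      fin_cases i <;> fin_cases j <;> simp [hb, hc, h1]
    · refine ⟨Mb, detU_Mb, ?_⟩
      rw [val_mul_eq, val_mul_eq, Mb_val, Mb_inv_val]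
      simpa using hb
  · exact ⟨1, by simp [detU], by simpa using hc⟩

/-- Conjugation by an upper triangular matrix. -/
theorem E12_conj_val (e : F) (X : GL (Fin 2) F) : (E12 e * X * (E12 e)⁻¹).1 =
    !![X.1 0 0 + e * X.1 1 0, X.1 0 1 + e * (X.1 1 1 - X.1 0 0) - e ^ 2 * X.1 1 0; X.1 1 0, X.1 1 1 - e * X.1 1 0] := by
  rw [E12_inv, val_mul_eq, val_mul_eq, E12_val, E12_val]
  ext i j
  fin_cases i <;> fin_cases j <;> simp <;> ring

/-- A nonscalar matrix is conjugate to one with zero upper left entry. -/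
theorem exists_conj_a (X : GL (Fin 2) F) (hX : ¬ ∃ s : F, X.1 = s • 1) :
    ∃ S : GL (Fin 2) F, detU S = 1 ∧ (S * X * S⁻¹).1 0 0 = 0 := by
  obtain ⟨S₀, hS₀, hc⟩ := exists_conj_c X hX
  set Y := S₀ * X * S₀⁻¹ with hY
  refine ⟨E12 (-(Y.1 0 0 / Y.1 1 0)) * S₀, by rw [detU_mul, detU_E12, hS₀, one_mul], ?_⟩
  have e : E12 (-(Y.1 0 0 / Y.1 1 0)) * S₀ * X * (E12 (-(Y.1 0 0 / Y.1 1 0)) * S₀)⁻¹ =
      E12 (-(Y.1 0 0 / Y.1 1 0)) * Y * (E12 (-(Y.1 0 0 / Y.1 1 0)))⁻¹ := by
    rw [hY]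
    group
  rw [e, E12_conj_val]
  simp only [Matrix.of_apply, Matrix.cons_val', Matrix.cons_val_zero, Matrix.cons_val_fin_one]
  field_simp
  ring

/-- The block for an element with zero upper left entry. -/
theorem block3_val (c₂ : Fˣ) (X : GL (Fin 2) F) :
    ((dG 1 c₂ : GL (Fin 2) F) * Mb * X).1 =
      !![X.1 1 0, X.1 1 1; -(c₂ : F) * X.1 0 0, -(c₂ : F) * X.1 0 1] := by
  rw [Units.val_mul, dG_Mb_val]
  ext i j
  fin_cases i <;> fin_cases j <;> simp [Matrix.mul_apply, Fin.sum_univ_two]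

/-- When the upper left entry vanishes, the block is triangular. -/
theorem block3_good {δ : F} (hδ : δ ≠ 0) (c₂ : Fˣ) (X : GL (Fin 2) F) (ha : X.1 0 0 = 0)
    (hdet : (c₂ : F) * (X.1 0 0 * X.1 1 1 - X.1 0 1 * X.1 1 0) = δ ^ 2)
    (h : (X.1 1 0 ≠ δ ∧ (X.1 1 1 ≠ 0 ∨ (X.1 1 0) ^ 2 ≠ δ ^ 2)) ∨ (X.1 1 0 = δ ∧ X.1 1 1 = 0)) :
    Good δ ((dG 1 c₂ : GL (Fin 2) F) * Mb * X).1 := by
  rw [block3_val, ha]
  set b := X.1 0 1 with hb
  set c := X.1 1 0 with hc
  set T := X.1 1 1 with hT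
  rw [ha] at hdet
  have hprod : c * (-(c₂ : F) * b) = δ ^ 2 := by linear_combination hdet
  have hc0 : c ≠ 0 := by
    rintro h0
    rw [h0, zero_mul] at hprod
    exact pow_ne_zero 2 hδ hprod.symm
  rcases h with ⟨h1, h2⟩ | ⟨h1, h2⟩
  · right
    refine ⟨?_, ?_, ?_⟩
    · rw [Matrix.det_fin_two_of]
      linear_combination hprod
    · rw [Matrix.trace_fin_two_of]
      intro htr
      apply h1
      have h3 : (c - δ) ^ 2 = 0 := by
        have : (c - δ) ^ 2 = c * (c + -(c₂ : F) * b) - 2 * δ * c + δ ^ 2 - c * (-(c₂ : F) * b) := by ring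
        rw [this, htr, hprod]
        ring
      exact sub_eq_zero.1 ((pow_eq_zero_iff two_ne_zero).1 h3)
    · rintro ⟨s, hs⟩
      have e00 := congrFun (congrFun hs 0) 0
      have e01 := congrFun (congrFun hs 0) 1
      have e11 := congrFun (congrFun hs 1) 1
      simp at e00 e01 e11
      rcases h2 with h2 | h2
      · exact h2 e01
      · apply h2
        have e11' : -(c₂ : F) * b = s := by linear_combination e11
        rw [← hprod, e11', e00]
        ring
  · left
    have h3 : -(c₂ : F) * b = δ := by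
      rw [h1] at hprod
      apply mul_left_cancel₀ hδ
      linear_combination hprod
    rw [h1, h2, h3]
    ext i j
    fin_cases i <;> fin_cases j <;> simp [Matrix.one_apply]

/-- The choice of a conjugate, for the third double coset, first kind. -/
theorem good_three {δ : F} (hδ : δ ≠ 0) (c₂ : Fˣ) (X : GL (Fin 2) F) (hX : ¬ ∃ s : F, X.1 = s • 1)
    (hdet : (c₂ : F) * X.1.det = δ ^ 2)
    (hcase : ((2 : F) = 0 ∧ X.1.trace = 0) ∨ ((2 : F) ≠ 0 ∧ X.1.det ≠ δ ^ 2)) :
    ∃ S : GL (Fin 2) F, detU S = 1 ∧ Good δ ((dG 1 c₂ : GL (Fin 2) F) * Mb * (S * X * S⁻¹)).1 := by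
  obtain ⟨S, hS, ha⟩ := exists_conj_a X hX
  set Y := S * X * S⁻¹ with hY
  have hYdet : Y.1.det = X.1.det := by
    have h1 := detU_mul (S * X) S⁻¹
    have h2 : detU (S * X * S⁻¹) = detU X := by
      rw [detU_mul, detU_mul, hS, one_mul]
      rw [detU_inv_one hS, mul_one]
    rw [hY]
    exact congrArg Units.val h2
  have hYtr : Y.1.trace = X.1.trace := by
    rw [hY, Units.val_mul, Units.val_mul, Matrix.trace_mul_comm, ← Matrix.mul_assoc, ← Units.val_mul]
    simp
  have hYd : (c₂ : F) * (Y.1 0 0 * Y.1 1 1 - Y.1 0 1 * Y.1 1 0) = δ ^ 2 := by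
    rw [← Matrix.det_fin_two, hYdet, hdet]
  have hYT : Y.1 1 1 = X.1.trace := by
    rw [← hYtr, Matrix.trace_fin_two, ha, zero_add]
  have hYD : Y.1 0 1 * Y.1 1 0 = - X.1.det := by
    rw [← hYdet, Matrix.det_fin_two, ha]
    ring
  have hc0 : Y.1 1 0 ≠ 0 := by
    intro h
    rw [h, mul_zero] at hYd
    rw [ha, zero_mul, zero_sub, ] at hYd
    exact pow_ne_zero 2 hδ (by rw [← hYd]; ring)
  by_cases hgood : (Y.1 1 0 ≠ δ ∧ (Y.1 1 1 ≠ 0 ∨ (Y.1 1 0) ^ 2 ≠ δ ^ 2)) ∨ (Y.1 1 0 = δ ∧ Y.1 1 1 = 0)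
  · exact ⟨S, hS, block3_good hδ c₂ Y ha hYd hgood⟩
  · -- the second conjugation
    push Not at hgood
    obtain ⟨hg1, hg2⟩ := hgood
    rcases hcase with ⟨h2, hT⟩ | ⟨h2, hD⟩
    · exfalso
      have hT0 : Y.1 1 1 = 0 := by rw [hYT, hT]
      by_cases hcd : Y.1 1 0 = δ
      · exact hg2 hcd hT0
      · have h3 := (hg1 hcd).2
        have h4 : (Y.1 1 0 - δ) ^ 2 = 0 := by
          have : (Y.1 1 0 - δ) ^ 2 = (Y.1 1 0) ^ 2 - δ ^ 2 + 2 * (δ ^ 2 - δ * Y.1 1 0) := by ring
          rw [this, h3, h2]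
          ring
        exact hcd (sub_eq_zero.1 ((pow_eq_zero_iff two_ne_zero).1 h4))
    · -- conjugate by the Weyl element
      have hX0 : X.1.det ≠ 0 := by
        intro h5
        rw [h5, mul_zero] at hdet
        exact pow_ne_zero 2 hδ hdet.symm
      have hb0 : Y.1 0 1 ≠ 0 := by
        intro h
        rw [h, zero_mul] at hYD
        exact hX0 (by linear_combination hYD)
      set M₁ : GL (Fin 2) F := E12 (Y.1 1 1 / Y.1 0 1) * Mb with hM₁
      have hM₁d : detU M₁ = 1 := by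
        rw [hM₁, detU_mul, detU_E12, detU_Mb, one_mul]
      set Z := Mb * Y * Mb⁻¹ with hZ
      have hZv : Z.1 = !![Y.1 1 1, -Y.1 1 0; -Y.1 0 1, Y.1 0 0] := by
        rw [hZ, val_mul_eq, val_mul_eq, Mb_val, Mb_inv_val]
        ext i j
        fin_cases i <;> fin_cases j <;> simp
      set Y₂ := E12 (Y.1 1 1 / Y.1 0 1) * Z * (E12 (Y.1 1 1 / Y.1 0 1))⁻¹ with hY₂
      have hY₂e : M₁ * Y * M₁⁻¹ = Y₂ := by
        rw [hM₁, hY₂, hZ]
        group
      have hY₂v := E12_conj_val (Y.1 1 1 / Y.1 0 1) Z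
      rw [← hY₂, hZv] at hY₂v
      simp only [Matrix.of_apply, Matrix.cons_val', Matrix.cons_val_zero, Matrix.cons_val_one, Matrix.cons_val_fin_one] at hY₂v
      have e00 : Y₂.1 0 0 = 0 := by
        rw [hY₂v]
        simp
        field_simp
        ring
      have e10 : Y₂.1 1 0 = - Y.1 0 1 := by
        rw [hY₂v]
        simp
      have e11 : Y₂.1 1 1 = Y.1 1 1 := by
        rw [hY₂v, ha]
        simp
        field_simp
      have hY₂det : Y₂.1.det = X.1.det := by
        rw [← hYdet, ← hY₂e]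
        have h2 : detU (M₁ * Y * M₁⁻¹) = detU Y := by
          rw [detU_mul, detU_mul, hM₁d, one_mul, detU_inv_one hM₁d, mul_one]
        exact congrArg Units.val h2
      have hYd₂ : (c₂ : F) * (Y₂.1 0 0 * Y₂.1 1 1 - Y₂.1 0 1 * Y₂.1 1 0) = δ ^ 2 := by
        rw [← Matrix.det_fin_two, hY₂det, hdet]
      refine ⟨M₁ * S, by rw [detU_mul, hM₁d, hS, one_mul], ?_⟩
      have e : M₁ * S * X * (M₁ * S)⁻¹ = Y₂ := by
        rw [← hY₂e, hY]
        group
      rw [e]
      apply block3_good hδ c₂ Y₂ e00 hYd₂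
      -- the old entry was bad
      have hc₁ : Y.1 1 0 * (- Y.1 0 1) = X.1.det := by linear_combination -hYD
      rw [e10, e11]
      by_cases hcd : Y.1 1 0 = δ
      · have hT : Y.1 1 1 ≠ 0 := fun h => hg2 hcd h
        left
        refine ⟨?_, Or.inl hT⟩
        intro h3
        apply hD
        rw [← hc₁, hcd, h3]
        ring
      · have hT0 : Y.1 1 1 = 0 := (hg1 hcd).1
        have hsq : (Y.1 1 0) ^ 2 = δ ^ 2 := (hg1 hcd).2
        by_cases h3 : - Y.1 0 1 = δ
        · right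
          exact ⟨h3, hT0⟩
        · left
          refine ⟨h3, Or.inr ?_⟩
          intro h4
          apply hD
          have h5 : (Y.1 1 0) ^ 2 * (- Y.1 0 1) ^ 2 = δ ^ 2 * δ ^ 2 := by rw [hsq, h4]
          have h6 : (X.1.det) ^ 2 = (δ ^ 2) ^ 2 := by
            rw [← hc₁]
            linear_combination h5
          -- the two signs
          have h7 : (X.1.det - δ ^ 2) * (X.1.det + δ ^ 2) = 0 := by linear_combination h6
          rcases mul_eq_zero.1 h7 with h8 | h8
          · exact sub_eq_zero.1 h8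
          · exfalso
            -- then `c = -δ`, and `-b = δ`
            have hcm : Y.1 1 0 = -δ := by
              have h9 : (Y.1 1 0 - δ) * (Y.1 1 0 + δ) = 0 := by linear_combination hsq
              rcases mul_eq_zero.1 h9 with h10 | h10
              · exact absurd (sub_eq_zero.1 h10) hcd
              · linear_combination h10
            have hbm : (- Y.1 0 1) ^ 2 = δ ^ 2 := h4
            have h9 : (- Y.1 0 1 - δ) * (- Y.1 0 1 + δ) = 0 := by linear_combination hbm
            rcases mul_eq_zero.1 h9 with h10 | h10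
            · exact h3 (sub_eq_zero.1 h10)
            · have hb' : - Y.1 0 1 = -δ := by linear_combination h10
              have h11 : X.1.det = δ ^ 2 := by
                rw [← hc₁, hcm, hb']
                ring
              exact hD h11

/-- Scalar multiples of a matrix. -/
theorem good_scalar {δ ρ : F} (hδ : δ ≠ 0) (X : GL (Fin 2) F) (hdet : ρ ^ 2 * X.1.det = δ ^ 2)
    (h : (ρ • X.1 = δ • 1) ∨ ((¬ ∃ s : F, X.1 = s • 1) ∧ ρ * X.1.trace ≠ 2 * δ)) :
    Good δ (ρ • X.1) := by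
  rcases h with h | ⟨h1, h2⟩
  · exact Or.inl h
  · have hρ : ρ ≠ 0 := by
      rintro rfl
      have h0 : δ ^ 2 = 0 := by
        rw [← hdet]
        ring
      exact hδ ((pow_eq_zero_iff two_ne_zero).1 h0)
    refine Or.inr ⟨?_, ?_, ?_⟩
    · rw [Matrix.det_smul]
      simpa using hdet
    · rw [Matrix.trace_smul]
      exact h2
    · rintro ⟨s, hs⟩
      apply h1
      refine ⟨ρ⁻¹ * s, ?_⟩
      rw [mul_smul, ← hs, smul_smul, inv_mul_cancel₀ hρ, one_smul]

end Cfsg.Agent.Lib.Th3D4
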