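import Cfsg.Agent.Lib.Chev.TwD4P
import Cfsg.Agent.Lib.Th3D4.Good

/-!
# Root elements and Weyl elements of `D₄`, and the rank one subgroups
-/

set_option autoImplicit false
set_option linter.unusedSectionVars false
set_option linter.unusedVariables false
set_option linter.unusedSimpArgs false
set_option maxRecDepth 100000

namespace Cfsg.Agent.Lib.Th3D4

open Cfsg Cfsg.Lie Cfsg.Agent.Lib.Chev Cfsg.Agent.Lib.Chev.SL2 Matrix
open Cfsg.Agent.Lib.Chev.TwD4 (hF τ sc cU)

variable {K : Type*} [Field K]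

/-- Root elements. -/
noncomputable abbrev xx (r : ℕ) (t : K) : GL chevD4.Idx K := hF.c.xG r t

theorem xx_add (r : ℕ) (s t : K) : xx r s * xx r t = xx r (s + t) := hF.c.xG_add r s t
theorem xx_inv (r : ℕ) (t : K) : (xx r t)⁻¹ = xx r (-t) := hF.c.xG_inv r t
theorem xx_zero (r : ℕ) : xx r (0 : K) = 1 := hF.c.xG_zero r

theorem cN {r s : ℕ} (h : r < chevD4.nroots ∧ s < chevD4.nroots ∧ s ≠ r ∧ s ≠ chevD4.neg r ∧ chevD4.commTerms r s = [])
    (u t : K) : xx s u * xx r t = xx r t * xx s u := by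
  obtain ⟨h1, h2, h3, h4, h5⟩ := h
  rw [hF.xG_comm (F := K) h1 h2 h3 h4 t u]
  simp [ChevalleyDatum.commWord, h5, Checks.wordG]

theorem cO {r s k : ℕ} {C : ℤ} (h : r < chevD4.nroots ∧ s < chevD4.nroots ∧ s ≠ r ∧ s ≠ chevD4.neg r ∧
    chevD4.commTerms r s = [(k, C, 1, 1)]) (u t : K) :
    xx s u * xx r t = xx r t * xx s u * xx k ((C : K) * (-t) * u) := by
  obtain ⟨h1, h2, h3, h4, h5⟩ := h
  rw [hF.xG_comm (F := K) h1 h2 h3 h4 t u]
  simp [ChevalleyDatum.commWord, h5, Checks.wordG]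

/-! ### Words in the Weyl elements -/

/-- Words in the `n_i`. -/
noncomputable abbrev wn (L : List ℕ) : GL chevD4.Idx K := hF.wordN (F := K) L

/-- The sign of a word on a root. -/
noncomputable def etaW : List ℕ → ℕ → ℤ
  | [], _ => 1
  | i :: L, r => TabD4.X.eta i (wAct TabD4.X L r) * etaW L r

theorem wAct_cons (i : ℕ) (L : List ℕ) (r : ℕ) : wAct TabD4.X (i :: L) r = TabD4.X.wf i (wAct TabD4.X L r) := rfl

theorem wAct_lt (L : List ℕ) (hL : ∀ i ∈ L, i < chevD4.rank) {r : ℕ} (hr : r < chevD4.nroots) :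
    wAct TabD4.X L r < chevD4.nroots := by
  induction L with
  | nil => exact hr
  | cons i L ih =>
    rw [wAct_cons]
    exact hF.wf_lt (hL i (by simp)) (ih (fun j hj => hL j (by simp [hj])))

theorem wn_conj (L : List ℕ) (hL : ∀ i ∈ L, i < chevD4.rank) {r : ℕ} (hr : r < chevD4.nroots) (t : K) :
    wn L * xx r t * (wn L)⁻¹ = xx (wAct TabD4.X L r) (((etaW L r : ℤ) : K) * t) := by
  induction L with
  | nil =>
    have : wn (K := K) [] = 1 := by simp [wn, Full.wordN]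
    rw [this]
    simp [etaW, wAct]
  | cons i L ih =>
    have hi := hL i (by simp)
    have ih' := ih (fun j hj => hL j (by simp [hj]))
    rw [wn, hF.wordN_cons, wAct_cons]
    have e : hF.nS i * hF.wordN L * xx r t * (hF.nS i * hF.wordN L)⁻¹ =
        hF.nS i * (wn L * xx r t * (wn L)⁻¹) * (hF.nS i)⁻¹ := by
      group
    rw [e, ih', hF.nS_conj_xG hi (wAct_lt L (fun j hj => hL j (by simp [hj])) hr)]
    congr 1
    simp only [etaW]
    push_cast
    ring

/-- Conjugation by a word, from the tables. -/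
theorem wc {L : List ℕ} {r r' : ℕ} {e : ℤ} (h : (∀ i ∈ L, i < chevD4.rank) ∧ r < chevD4.nroots ∧
    wAct TabD4.X L r = r' ∧ etaW L r = e) (t : K) :
    wn L * xx r t * (wn L)⁻¹ = xx r' ((e : K) * t) := by
  obtain ⟨h1, h2, h3, h4⟩ := h
  rw [wn_conj L h1 h2, h3, h4]

theorem wcP {L : List ℕ} {r r' : ℕ} (h : (∀ i ∈ L, i < chevD4.rank) ∧ r < chevD4.nroots ∧
    wAct TabD4.X L r = r' ∧ etaW L r = 1) (t : K) :
    wn L * xx r t * (wn L)⁻¹ = xx r' t := by
  rw [wc h]
  simp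

theorem wcM {L : List ℕ} {r r' : ℕ} (h : (∀ i ∈ L, i < chevD4.rank) ∧ r < chevD4.nroots ∧
    wAct TabD4.X L r = r' ∧ etaW L r = -1) (t : K) :
    wn L * xx r t * (wn L)⁻¹ = xx r' (-t) := by
  rw [wc h]
  simp

theorem wiP {L : List ℕ} {r r' : ℕ} (h : (∀ i ∈ L, i < chevD4.rank) ∧ r < chevD4.nroots ∧
    wAct TabD4.X L r = r' ∧ etaW L r = 1) (t : K) :
    (wn L)⁻¹ * xx r' t * wn L = xx r t := by
  rw [← wcP h t]
  group

theorem wiM {L : List ℕ} {r r' : ℕ} (h : (∀ i ∈ L, i < chevD4.rank) ∧ r < chevD4.nroots ∧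
    wAct TabD4.X L r = r' ∧ etaW L r = -1) (t : K) :
    (wn L)⁻¹ * xx r' t * wn L = xx r (-t) := by
  have := wcM h (-t)
  rw [neg_neg] at this
  rw [← this]
  group

/-- Two words with the same action are equal. -/
theorem wn_eq {L₁ L₂ : List ℕ} (h₁ : ∀ i ∈ L₁, i < chevD4.rank) (h₂ : ∀ i ∈ L₂, i < chevD4.rank)
    (h : ∀ r < chevD4.nroots, wAct TabD4.X L₁ r = wAct TabD4.X L₂ r ∧ etaW L₁ r = etaW L₂ r) :
    wn (K := K) L₁ = wn L₂ := by
  obtain ⟨σ₁, u₁, a₁, b₁⟩ := hF.exists_rootAct_word (F := K) L₁ h₁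
  obtain ⟨σ₂, u₂, a₂, b₂⟩ := hF.exists_rootAct_word (F := K) L₂ h₂
  let m₁ : ↥(chevD4.monomialSubgroup K) := ⟨wn L₁, hF.wordN_mem_monomial L₁ h₁⟩
  let m₂ : ↥(chevD4.monomialSubgroup K) := ⟨wn L₂, hF.wordN_mem_monomial L₂ h₂⟩
  have e₁ : hF.rhoN K m₁ = σ₁ := hF.rhoN_eq a₁
  have e₂ : hF.rhoN K m₂ = σ₂ := hF.rhoN_eq a₂
  have hσ : σ₁ = σ₂ := by
    ext s
    rw [b₁, b₂]
    exact (h s s.2).1
  have h1 : hF.rhoN K (m₂⁻¹ * m₁) = 1 := by
    rw [map_mul, map_inv, e₁, e₂, hσ, inv_mul_cancel]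
  have h2 : (wn L₂)⁻¹ * wn L₁ ∈ chevD4.diagonalSubgroup K := hF.mem_diagonal_of_rhoN_eq_one h1
  obtain ⟨c, hc⟩ := (hF.mem_diagonal_iff).1 h2
  have h3 : tor RootD4T.R chevD4 c = (1 : GL chevD4.Idx K) := by
    rw [hF.tor_eq, diagG_eq_one_iff]
    intro s hs
    have h4 := hF.tor_conj_xG c hs (1 : K)
    rw [← hc] at h4
    have h5 : ((wn L₂)⁻¹ * wn L₁) * xx s (1 : K) * ((wn L₂)⁻¹ * wn L₁)⁻¹ =
        (wn L₂)⁻¹ * (wn L₁ * xx s 1 * (wn L₁)⁻¹) * wn L₂ := by
      group
    rw [h5, wn_conj L₁ h₁ hs, (h s hs).1, (h s hs).2, ← wn_conj L₂ h₂ hs] at h4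
    have h6 : (wn L₂)⁻¹ * (wn L₂ * xx s (1 : K) * (wn L₂)⁻¹) * wn L₂ = xx s 1 := by
      group
    rw [h6] at h4
    have h7 := hF.xG_param_inj hs h4
    apply Units.ext
    rw [Units.val_one]
    rw [mul_one] at h7
    exact h7.symm
  have h4 : (wn (K := K) L₂)⁻¹ * wn L₁ = 1 := by rw [hc, h3]
  exact (inv_mul_eq_one.1 h4).symm

/-! ### The rank one subgroups -/

theorem r0 : 0 < chevD4.rank := by decide
theorem r1 : 1 < chevD4.rank := by decide
theorem r2 : 2 < chevD4.rank := by decide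
theorem r3 : 3 < chevD4.rank := by decide

theorem sim0 : chevD4.simple 0 = 18 := by decide +kernel
theorem sim1 : chevD4.simple 1 = 14 := by decide +kernel
theorem sim2 : chevD4.simple 2 = 13 := by decide +kernel
theorem sim3 : chevD4.simple 3 = 12 := by decide +kernel
theorem neg18 : chevD4.neg 18 = 5 := by decide +kernel
theorem neg14 : chevD4.neg 14 = 9 := by decide +kernel
theorem neg13 : chevD4.neg 13 = 10 := by decide +kernel
theorem neg12 : chevD4.neg 12 = 11 := by decide +kernel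

theorem exists_psi {i : ℕ} (hi : i < chevD4.rank) : ∃ ψ : SpecialLinearGroup (Fin 2) K →* GL chevD4.Idx K,
    (∀ t, ψ (x0 t) = xx (chevD4.simple i) t) ∧ (∀ t, ψ (y0 t) = xx (chevD4.neg (chevD4.simple i)) t) :=
  exists_hom (hF.rankOne (F := K) hi)

/-- The homomorphism of a fundamental root. -/
noncomputable def psi {i : ℕ} (hi : i < chevD4.rank) : SpecialLinearGroup (Fin 2) K →* GL chevD4.Idx K :=
  Classical.choose (exists_psi hi)

theorem psi_x0 {i : ℕ} (hi : i < chevD4.rank) (t : K) : psi hi (x0 t) = xx (chevD4.simple i) t :=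
  (Classical.choose_spec (exists_psi (K := K) hi)).1 t
theorem psi_y0 {i : ℕ} (hi : i < chevD4.rank) (t : K) : psi hi (y0 t) = xx (chevD4.neg (chevD4.simple i)) t :=
  (Classical.choose_spec (exists_psi (K := K) hi)).2 t

theorem n0_eq : (n0 : SpecialLinearGroup (Fin 2) K) = x0 1 * y0 (-1) * x0 1 := by
  apply Subtype.ext
  show n0.1 = (x0 1).1 * (y0 (-1)).1 * (x0 1).1
  simp only [n0, x0, y0]
  ext i j
  fin_cases i <;> fin_cases j <;> simp [Matrix.mul_apply, Fin.sum_univ_two]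

theorem psi_n0 {i : ℕ} (hi : i < chevD4.rank) : psi hi (n0 : SpecialLinearGroup (Fin 2) K) = hF.nS i := by
  rw [n0_eq, map_mul, map_mul, psi_x0, psi_y0]
  show _ = hF.c.nG (chevD4.simple i) 1
  rw [Checks.nG, inv_one]

theorem psi_D0 {i : ℕ} (hi : i < chevD4.rank) (c : Kˣ) : psi hi (D0 c) = hF.hS K hi c := by
  have hR := hF.rankOne (F := K) hi
  have h1 := hR.nt c
  have h2 := hR.nt 1
  simp only [Units.val_one, inv_one, map_one, one_mul] at h1 h2
  have e : (D0 c : SpecialLinearGroup (Fin 2) K) =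
      x0 (c : K) * y0 (-(c : K)⁻¹) * x0 (c : K) * (x0 1 * y0 (-1) * x0 1)⁻¹ := by
    have hc : (c : K) ≠ 0 := c.ne_zero
    rw [eq_mul_inv_iff_mul_eq]
    apply Subtype.ext
    show (D0 c).1 * ((x0 1).1 * (y0 (-1)).1 * (x0 1).1) = (x0 (c : K)).1 * (y0 (-(c : K)⁻¹)).1 * (x0 (c : K)).1
    simp only [D0, x0, y0]
    ext i j
    fin_cases i <;> fin_cases j <;> simp [Matrix.mul_apply, Fin.sum_univ_two, hc]
  rw [e, map_mul, map_inv, map_mul, map_mul, map_mul, map_mul, psi_x0, psi_y0, psi_x0, psi_y0, h1, h2]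
  group

/-- Two homomorphisms from `SL₂` commuting on the generators commute. -/
theorem commute_of_gens {H : Type*} [Group H] (ψ ψ' : SpecialLinearGroup (Fin 2) K →* H)
    (h1 : ∀ s t : K, Commute (ψ (x0 s)) (ψ' (x0 t))) (h2 : ∀ s t : K, Commute (ψ (x0 s)) (ψ' (y0 t)))
    (h3 : ∀ s t : K, Commute (ψ (y0 s)) (ψ' (x0 t))) (h4 : ∀ s t : K, Commute (ψ (y0 s)) (ψ' (y0 t)))
    (A B : SpecialLinearGroup (Fin 2) K) : Commute (ψ A) (ψ' B) := by
  have key : ∀ B : SpecialLinearGroup (Fin 2) K, (∀ s : K, Commute (ψ (x0 s)) (ψ' B)) ∧ (∀ s : K, Commute (ψ (y0 s)) (ψ' B)) := by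
    intro B
    have hB := mem_closure_elementary B
    induction hB using Subgroup.closure_induction with
    | mem g hg =>
      rcases hg with ⟨t, rfl⟩ | ⟨t, rfl⟩
      · exact ⟨fun s => h1 s t, fun s => h3 s t⟩
      · exact ⟨fun s => h2 s t, fun s => h4 s t⟩
    | one => simp
    | mul a b _ _ ha hb =>
      rw [map_mul]
      exact ⟨fun s => (ha.1 s).mul_right (hb.1 s), fun s => (ha.2 s).mul_right (hb.2 s)⟩
    | inv a _ ha =>
      rw [map_inv]
      exact ⟨fun s => (ha.1 s).inv_right, fun s => (ha.2 s).inv_right⟩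
  have hA := mem_closure_elementary A
  induction hA using Subgroup.closure_induction with
  | mem g hg =>
    rcases hg with ⟨t, rfl⟩ | ⟨t, rfl⟩
    · exact (key B).1 t
    · exact (key B).2 t
  | one => simp
  | mul a b _ _ ha hb =>
    rw [map_mul]
    exact ha.mul_left hb
  | inv a _ ha =>
    rw [map_inv]
    exact ha.inv_left

theorem tC {r s : ℕ} (h : r < chevD4.nroots ∧ s < chevD4.nroots ∧ s ≠ r ∧ s ≠ chevD4.neg r ∧ chevD4.commTerms r s = [])
    (u t : K) : Commute (xx r t) (xx s u) := (cN h u t).symm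

theorem c02 (A B : SpecialLinearGroup (Fin 2) K) : Commute (psi r0 A) (psi r2 B) := by
  apply commute_of_gens
  · intro s t
    rw [psi_x0, psi_x0, sim0, sim2]
    exact tC (by decide +kernel) t s
  · intro s t
    rw [psi_x0, psi_y0, sim0, sim2, neg13]
    exact tC (by decide +kernel) t s
  · intro s t
    rw [psi_y0, psi_x0, sim0, sim2, neg18]
    exact tC (by decide +kernel) t s
  · intro s t
    rw [psi_y0, psi_y0, sim0, sim2, neg18, neg13]
    exact tC (by decide +kernel) t s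

theorem c03 (A B : SpecialLinearGroup (Fin 2) K) : Commute (psi r0 A) (psi r3 B) := by
  apply commute_of_gens
  · intro s t
    rw [psi_x0, psi_x0, sim0, sim3]
    exact tC (by decide +kernel) t s
  · intro s t
    rw [psi_x0, psi_y0, sim0, sim3, neg12]
    exact tC (by decide +kernel) t s
  · intro s t
    rw [psi_y0, psi_x0, sim0, sim3, neg18]
    exact tC (by decide +kernel) t s
  · intro s t
    rw [psi_y0, psi_y0, sim0, sim3, neg18, neg12]
    exact tC (by decide +kernel) t s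

theorem c23 (A B : SpecialLinearGroup (Fin 2) K) : Commute (psi r2 A) (psi r3 B) := by
  apply commute_of_gens
  · intro s t
    rw [psi_x0, psi_x0, sim2, sim3]
    exact tC (by decide +kernel) t s
  · intro s t
    rw [psi_x0, psi_y0, sim2, sim3, neg12]
    exact tC (by decide +kernel) t s
  · intro s t
    rw [psi_y0, psi_x0, sim2, sim3, neg13]
    exact tC (by decide +kernel) t s
  · intro s t
    rw [psi_y0, psi_y0, sim2, sim3, neg13, neg12]
    exact tC (by decide +kernel) t s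

/-- The action of the field automorphism on `SL₂`. -/
noncomputable def mapf (f : K ≃+* K) : SpecialLinearGroup (Fin 2) K →* SpecialLinearGroup (Fin 2) K :=
  SpecialLinearGroup.map (f : K →+* K)

theorem map_x0 {L M : Type*} [Field L] [Field M] (g : L →+* M) (t : L) :
    SpecialLinearGroup.map g (x0 t) = x0 (g t) := by
  apply Subtype.ext
  show (g.mapMatrix (x0 t).1) = (x0 (g t)).1
  simp only [x0]
  ext i j
  fin_cases i <;> fin_cases j <;> simp

theorem map_y0 {L M : Type*} [Field L] [Field M] (g : L →+* M) (t : L) :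
    SpecialLinearGroup.map g (y0 t) = y0 (g t) := by
  apply Subtype.ext
  show (g.mapMatrix (y0 t).1) = (y0 (g t)).1
  simp only [y0]
  ext i j
  fin_cases i <;> fin_cases j <;> simp

theorem mapf_x0 (f : K ≃+* K) (t : K) : mapf f (x0 t) = x0 (f t) := map_x0 _ t
theorem mapf_y0 (f : K ≃+* K) (t : K) : mapf f (y0 t) = y0 (f t) := map_y0 _ t
theorem mapf_n0 (f : K ≃+* K) : mapf f (n0 : SpecialLinearGroup (Fin 2) K) = n0 := by
  rw [n0_eq, map_mul, map_mul, mapf_x0, mapf_y0]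
  simp

theorem mapf_D0 (f : K ≃+* K) (c : Kˣ) : mapf f (D0 c) = D0 (unitsF f c) := by
  apply Subtype.ext
  show ((f : K →+* K).mapMatrix (D0 c).1) = (D0 (unitsF f c)).1
  simp only [D0]
  ext i j
  fin_cases i <;> fin_cases j <;> simp [unitsF_val]

/-- The homomorphism of the short root. -/
noncomputable def psiA (f : K ≃+* K) : SpecialLinearGroup (Fin 2) K →* GL chevD4.Idx K :=
  MonoidHom.mk' (fun A => psi r0 A * psi r2 (mapf f A) * psi r3 (mapf f (mapf f A))) (by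
    intro A B
    simp only [map_mul]
    have h1 := (c02 B (mapf f A)).eq
    have h2 := (c03 B (mapf f (mapf f A))).eq
    have h3 := (c23 (mapf f B) (mapf f (mapf f A))).eq
    calc psi r0 A * psi r0 B * (psi r2 (mapf f A) * psi r2 (mapf f B)) * (psi r3 (mapf f (mapf f A)) * psi r3 (mapf f (mapf f B)))
        = psi r0 A * (psi r0 B * psi r2 (mapf f A)) * psi r2 (mapf f B) * psi r3 (mapf f (mapf f A)) * psi r3 (mapf f (mapf f B)) := by group
      _ = psi r0 A * psi r2 (mapf f A) * psi r0 B * (psi r2 (mapf f B) * psi r3 (mapf f (mapf f A))) * psi r3 (mapf f (mapf f B)) := by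
          rw [h1]; group
      _ = psi r0 A * psi r2 (mapf f A) * (psi r0 B * psi r3 (mapf f (mapf f A))) * psi r2 (mapf f B) * psi r3 (mapf f (mapf f B)) := by
          rw [h3]; group
      _ = _ := by
          rw [h2]; group)

theorem psiA_apply (f : K ≃+* K) (A : SpecialLinearGroup (Fin 2) K) :
    psiA f A = psi r0 A * psi r2 (mapf f A) * psi r3 (mapf f (mapf f A)) := rfl

/-- The root element of the short root. -/
noncomputable def xa (f : K ≃+* K) (t : K) : GL chevD4.Idx K := xx 18 t * xx 13 (f t) * xx 12 (f (f t))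
/-- The root element of the negative of the short root. -/
noncomputable def ya (f : K ≃+* K) (t : K) : GL chevD4.Idx K := xx 5 t * xx 10 (f t) * xx 11 (f (f t))

theorem psiA_x0 (f : K ≃+* K) (t : K) : psiA f (x0 t) = xa f t := by
  rw [psiA_apply, mapf_x0, mapf_x0, psi_x0, psi_x0, psi_x0, sim0, sim2, sim3, xa]

theorem psiA_y0 (f : K ≃+* K) (t : K) : psiA f (y0 t) = ya f t := by
  rw [psiA_apply, mapf_y0, mapf_y0, psi_y0, psi_y0, psi_y0, sim0, sim2, sim3, neg18, neg13, neg12, ya]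

/-- The Weyl element of the short root. -/
noncomputable abbrev na : GL chevD4.Idx K := wn [0, 2, 3]

theorem na_eq : (na : GL chevD4.Idx K) = hF.nS 0 * hF.nS 2 * hF.nS 3 := by
  simp [wn, Full.wordN, mul_assoc]

theorem nb_eq : wn (K := K) [1] = hF.nS 1 := by
  simp [wn, Full.wordN]

theorem psiA_n0 (f : K ≃+* K) : psiA f n0 = na := by
  rw [psiA_apply, mapf_n0, mapf_n0, psi_n0, psi_n0, psi_n0, na_eq]

/-- The torus element of the short root. -/
noncomputable def hc (f : K ≃+* K) (c : Kˣ) : GL chevD4.Idx K := tor RootD4T.R chevD4 (cU f c)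

theorem cU_eq (f : K ≃+* K) (c : Kˣ) : cU f c = Pi.mulSingle ⟨0, r0⟩ c * Pi.mulSingle ⟨2, r2⟩ (unitsF f c) *
    Pi.mulSingle ⟨3, r3⟩ (unitsF f (unitsF f c)) := by
  funext j
  revert j
  apply TwD4.fin4_cases
  · simp [cU, Pi.mul_apply, Pi.mulSingle_apply]
  · simp [cU, Pi.mul_apply, Pi.mulSingle_apply]
  · simp [cU, Pi.mul_apply, Pi.mulSingle_apply]
  · simp [cU, Pi.mul_apply, Pi.mulSingle_apply]

theorem psiA_D0 (f : K ≃+* K) (c : Kˣ) : psiA f (D0 c) = hc f c := by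
  rw [psiA_apply, mapf_D0, mapf_D0, psi_D0, psi_D0, psi_D0, hc, cU_eq, ← tor_mul, ← tor_mul, Full.hS_apply, Full.hS_apply, Full.hS_apply]

theorem hc_mul (f : K ≃+* K) (c d : Kˣ) : hc f (c * d) = hc f c * hc f d := by
  rw [← psiA_D0, ← psiA_D0, ← psiA_D0, ← map_mul]
  congr 1
  apply Subtype.ext
  show (D0 (c * d)).1 = (D0 c).1 * (D0 d).1
  simp only [D0]
  ext i j
  fin_cases i <;> fin_cases j <;> simp [Matrix.mul_apply, Fin.sum_univ_two, mul_comm]

theorem hc_one (f : K ≃+* K) : hc f 1 = 1 := by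
  have := hc_mul f 1 1
  rw [mul_one] at this
  exact left_eq_mul.1 this

theorem hc_inv (f : K ≃+* K) (c : Kˣ) : hc f c⁻¹ = (hc f c)⁻¹ := by
  rw [eq_inv_iff_mul_eq_one, ← hc_mul, inv_mul_cancel, hc_one]

/-- The Gauss decomposition of the Weyl element of the short root. -/
theorem gauss (f : K ≃+* K) (s : Kˣ) :
    xa f (-(s : K)) * na = ya f (-(s : K)⁻¹) * hc f s * xa f ((s : K)⁻¹) := by
  have hs : (s : K) ≠ 0 := s.ne_zero
  have e : x0 (-(s : K)) * n0 = y0 (-(s : K)⁻¹) * D0 s * x0 ((s : K)⁻¹) := by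
    apply Subtype.ext
    show (x0 (-(s : K))).1 * n0.1 = (y0 (-(s : K)⁻¹)).1 * (D0 s).1 * (x0 ((s : K)⁻¹)).1
    simp only [x0, y0, D0, n0]
    ext i j
    fin_cases i <;> fin_cases j <;> simp [Matrix.mul_apply, Fin.sum_univ_two, hs]
  have h := congrArg (psiA f) e
  rw [map_mul, map_mul, map_mul, psiA_x0, psiA_n0, psiA_y0, psiA_D0, psiA_x0] at h
  exact h

theorem gauss1 (f : K ≃+* K) : xa f (-1) * na = ya f (-1) * xa f 1 := by
  have h := gauss f 1
  simpa [hc_one] using h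

/-- The homomorphism of the long root. -/
noncomputable abbrev psiB : SpecialLinearGroup (Fin 2) K →* GL chevD4.Idx K := psi r1

theorem psiB_x0 (t : K) : psiB (x0 t) = xx 14 t := by
  rw [psi_x0, sim1]
theorem psiB_y0 (t : K) : psiB (y0 t) = xx 9 t := by
  rw [psi_y0, sim1, neg14]
theorem psiB_n0 : psiB (n0 : SpecialLinearGroup (Fin 2) K) = wn [1] := by
  rw [psi_n0, nb_eq]

/-! ### The action of the torus -/

theorem chiT_expand (z : Fin chevD4.rank → Kˣ) (s : ℕ) :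
    chiT chevD4 z s = z ⟨0, r0⟩ ^ chevD4.cartan 0 s * z ⟨1, r1⟩ ^ chevD4.cartan 1 s * z ⟨2, r2⟩ ^ chevD4.cartan 2 s *
      z ⟨3, r3⟩ ^ chevD4.cartan 3 s := by
  exact Fin.prod_univ_four (fun i : Fin 4 => z i ^ chevD4.cartan i s)

theorem hc_conj (f : K ≃+* K) (c : Kˣ) {s : ℕ} (hs : s < chevD4.nroots) (t : K) :
    hc f c * xx s t * (hc f c)⁻¹ = xx s (((c ^ chevD4.cartan 0 s * (unitsF f c) ^ chevD4.cartan 2 s *
      (unitsF f (unitsF f c)) ^ chevD4.cartan 3 s : Kˣ) : K) * t) := by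
  rw [hc, hF.tor_conj_xG _ hs, chiT_expand]
  simp [cU]

end Cfsg.Agent.Lib.Th3D4
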