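import Cfsg.Agent.Lib.Th3D4.Fix
import Cfsg.Agent.Lib.Chev.TwD4BN

/-!
# Double cosets of the long root parabolic of `³D₄`
-/

set_option autoImplicit false
set_option linter.unusedSectionVars false
set_option linter.unusedVariables false
set_option linter.unusedSimpArgs false
set_option maxRecDepth 100000

namespace Cfsg.Agent.Lib.Th3D4

open Cfsg Cfsg.Lie Cfsg.Agent.Lib.Chev Cfsg.Agent.Lib.Chev.SL2 Matrix Equiv
open Cfsg.Agent.Lib.Chev.TwD4 (hF τ sc cU)
open Cfsg.Agent.Lib.ThG2 (toS toS_mul detU detU_mul detU_val E12 E21 dG E12_val E21_val dG_val detU_E12 detU_E21 detU_dG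
  toS_E12 toS_E21 toS_dG_one toS_dG_inv)

variable {K F : Type*} [Field K] [Field F] [Fintype K] (D : Fr K F)

/-- The long root parabolic subgroup of the twisted group. -/
noncomputable def PP : Subgroup (GL chevD4.Idx K) where
  carrier := {g | ∃ p : LL D, ∃ u ∈ Up D, g = phi D p * u}
  mul_mem' := by
    rintro _ _ ⟨A, u, hu, rfl⟩ ⟨B, v, hv, rfl⟩
    refine ⟨A * B, (phi D B)⁻¹ * u * phi D B * v, (Up D).mul_mem (conj_inv_mem_p D B hu) hv, ?_⟩
    rw [map_mul]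
    group
  one_mem' := ⟨1, 1, (Up D).one_mem, by simp⟩
  inv_mem' := by
    rintro _ ⟨A, u, hu, rfl⟩
    refine ⟨A⁻¹, phi D A * u⁻¹ * (phi D A)⁻¹, conj_mem_p D A ((Up D).inv_mem hu), ?_⟩
    rw [map_inv]
    group

theorem mem_PP {g : GL chevD4.Idx K} : g ∈ PP D ↔ ∃ p : LL D, ∃ u ∈ Up D, g = phi D p * u := Iff.rfl

theorem phi_mem_PP (p : LL D) : phi D p ∈ PP D := ⟨p, 1, (Up D).one_mem, by simp⟩

theorem Up_le_PP : Up D ≤ PP D := fun u hu => ⟨1, u, hu, by simp⟩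

theorem PP_le_G : PP D ≤ GG D := by
  rintro _ ⟨A, u, hu, rfl⟩
  exact (GG D).mul_mem (phi_mem D A) (Up_le_G D hu)

theorem PP_conj {g u : GL chevD4.Idx K} (hg : g ∈ PP D) (hu : u ∈ Up D) : g * u * g⁻¹ ∈ Up D := by
  obtain ⟨A, v, hv, rfl⟩ := hg
  have h1 := conj_mem_p D A ((Up D).mul_mem ((Up D).mul_mem hv hu) ((Up D).inv_mem hv))
  have e : phi D A * v * u * (phi D A * v)⁻¹ = phi D A * (v * u * v⁻¹) * (phi D A)⁻¹ := by group
  rw [e]
  exact h1

/-! ### Units of the fixed field -/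

theorem exists_fixed_unit {e : Kˣ} (he : unitsF D.f e = e) : ∃ d : Fˣ, D.ιU d = e := by
  have h1 : D.f (e : K) = e := by
    have := congrArg (fun u : Kˣ => (u : K)) he
    simpa [unitsF] using this
  obtain ⟨a, ha⟩ := D.surj _ h1
  have ha0 : a ≠ 0 := by
    rintro rfl
    rw [map_zero] at ha
    exact e.ne_zero ha.symm
  refine ⟨Units.mk0 a ha0, Units.ext ?_⟩
  simpa using ha

theorem nmU_fixed (c : Kˣ) : unitsF D.f (nmU D.f c) = nmU D.f c := by
  apply Units.ext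
  show D.f ((nmU D.f c : Kˣ) : K) = ((nmU D.f c : Kˣ) : K)
  rw [nmU_val, map_mul, map_mul, D.f3]
  ring

theorem exists_norm_root (c : Kˣ) : ∃ d : Fˣ, D.ιU d = nmU D.f c := exists_fixed_unit D (nmU_fixed D c)

theorem toS_dG (a b : Fˣ) : toS (dG a b : GL (Fin 2) F) = D0 a := by
  apply Subtype.ext
  show !![(dG a b : GL (Fin 2) F).1 0 0, (dG a b : GL (Fin 2) F).1 0 1 * ((detU (dG a b : GL (Fin 2) F))⁻¹ : Fˣ);
    (dG a b : GL (Fin 2) F).1 1 0, (dG a b : GL (Fin 2) F).1 1 1 * ((detU (dG a b : GL (Fin 2) F))⁻¹ : Fˣ)] =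
      !![(a : F), 0; 0, ((a⁻¹ : Fˣ) : F)]
  rw [detU_dG, dG_val]
  ext i j
  fin_cases i <;> fin_cases j <;> simp

theorem map_D0 (a : Fˣ) : SpecialLinearGroup.map D.ι (D0 a) = D0 (D.ιU a) := by
  apply Subtype.ext
  show (D.ι : F →+* K).mapMatrix (D0 a).1 = (D0 (D.ιU a)).1
  simp only [D0]
  ext i j
  fin_cases i <;> fin_cases j <;> simp

theorem psiF_D0 (a : Fˣ) : psiF D (D0 a) = hF.hS K r1 (D.ιU a) := by
  show psiB (SpecialLinearGroup.map D.ι (D0 a)) = _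
  rw [map_D0]
  exact psi_D0 r1 _

/-- Elements of the torus fixed by the twist come from the Levi. -/
theorem tor_fixed_eq_phi {z : Fin chevD4.rank → Kˣ} (hz : (sc D.f).FTh z = z) :
    ∃ p : LL D, tor RootD4T.R chevD4 z = phi D p := by
  obtain ⟨e2, e1, e3, e0⟩ := (TwD4.fixed_iff z).1 hz
  obtain ⟨a, ha⟩ := exists_fixed_unit D e1.symm
  obtain ⟨d, hd⟩ := exists_norm_root D (z ⟨0, r0⟩)
  refine ⟨⟨(dG a (a⁻¹ * d), z ⟨0, r0⟩), ?_⟩, ?_⟩
  · show D.ιU (detU (dG a (a⁻¹ * d))) = nmU D.f (z ⟨0, r0⟩)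
    rw [detU_dG, mul_inv_cancel_left, hd]
  · rw [phi_apply]
    show tor RootD4T.R chevD4 z = psiF D (toS (dG a (a⁻¹ * d))) * hc D.f (z ⟨0, r0⟩)
    rw [toS_dG, psiF_D0, ha, Full.hS_apply, hc, tor_mul]
    congr 1
    funext j
    revert j
    apply TwD4.fin4_cases
    · simp [cU, Pi.mul_apply, Pi.mulSingle_apply]
    · simp [cU, Pi.mul_apply, Pi.mulSingle_apply]
    · simp [cU, Pi.mul_apply, Pi.mulSingle_apply, e2]
    · simp [cU, Pi.mul_apply, Pi.mulSingle_apply, e3, e2]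

/-- The torus of the twisted group lies in the image of the Levi. -/
theorem diag_eq_phi {h : GL chevD4.Idx K} (h1 : h ∈ chevD4.diagonalSubgroup K) (h2 : h ∈ GG D) :
    ∃ p : LL D, h = phi D p := by
  obtain ⟨z, rfl⟩ := (hF.mem_diagonal_iff).1 h1
  have hfix := ((sc D.f).twG).G1_fix _ h2
  rw [(sc D.f).s_tor] at hfix
  obtain ⟨z', hz', e⟩ := TwD4.hκ D.f3' z hfix
  rw [← e]
  exact tor_fixed_eq_phi D hz'

/-! ### The unipotent part -/

theorem pos_cases : ∀ r < chevD4.nroots, chevD4.IsPosRoot r → r = 14 ∨ Qp r := by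
  have : ∀ r < chevD4.nroots, chevD4.IsPosRoot r → r = 14 ∨ r ∈ qpL := by decide +kernel
  exact this
theorem Qp_pos : ∀ r, Qp r → chevD4.IsPosRoot r := by
  have : ∀ r ∈ qpL, chevD4.IsPosRoot r := by decide +kernel
  exact this

theorem U_decomp {u : GL chevD4.Idx K} (hu : u ∈ chevD4.posUnipotent K) : ∃ v : K, ∃ q ∈ QU K, u = xx 14 v * q := by
  rw [ChevalleyDatum.posUnipotent] at hu
  induction hu using Subgroup.closure_induction with
  | mem g hg =>
    obtain ⟨r, t, hr, hg⟩ := hg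
    rw [hF.c.eq_xG hg]
    rcases pos_cases r hr.1 hr with rfl | h
    · exact ⟨t, 1, Subgroup.one_mem _, by simp⟩
    · exact ⟨0, _, xx_mem_QU h t, by rw [xx_zero, one_mul]⟩
  | one => exact ⟨0, 1, Subgroup.one_mem _, by simp [xx_zero]⟩
  | mul a b _ _ h1 h2 =>
    obtain ⟨v, q, hq, rfl⟩ := h1
    obtain ⟨v', q', hq', rfl⟩ := h2
    refine ⟨v + v', (xx 14 v')⁻¹ * q * xx 14 v' * q', ?_, ?_⟩
    · refine Subgroup.mul_mem _ ?_ hq'
      have h3 := (Subgroup.mem_normalizer_iff.1 (x14_norm_p (K := K) (-v')) q).1 hq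
      rw [xx_inv] at *
      simpa [xx_inv] using h3
    · rw [← xx_add]
      group
  | inv a _ h1 =>
    obtain ⟨v, q, hq, rfl⟩ := h1
    refine ⟨-v, xx 14 v * q⁻¹ * (xx 14 v)⁻¹, ?_, ?_⟩
    · exact (Subgroup.mem_normalizer_iff.1 (x14_norm_p (K := K) v) _).1 (Subgroup.inv_mem _ hq)
    · rw [← xx_inv]
      group

theorem QU_le_group : QU K ≤ chevD4.group K := by
  unfold QU Full.rootClosure
  rw [Subgroup.closure_le]
  rintro g ⟨s, t, hs, hg⟩
  rw [SetLike.mem_coe, hF.c.eq_xG hg]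
  exact hF.c.xG_mem_group (Qp_lt s hs) t

theorem s_xx (f : K ≃+* K) {r : ℕ} (hr : r < chevD4.nroots) (t : K) : (τ f).s (xx r t) =
    xx (TwTabD4.S.r r) (((Trie.find (Int.ofNat 1) TwTabD4.g r : ℤ) : K) * f t) :=
  TwTabD4.ok.signTw_s hF TwTabD4.sign_ok TwTabD4.sq_ok TwTabD4.unit_ok TwTabD4.neg_ok f hr t

theorem s_QU (f : K ≃+* K) {q : GL chevD4.Idx K} (hq : q ∈ QU K) : (τ f).s q ∈ QU K := by
  refine rc_ind (Q := Qp) (P := fun q => (τ f).s q ∈ QU K) ?_ ?_ hq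
  · rw [Tw.s_one]
    exact Subgroup.one_mem _
  · intro c hc r hr a ih
    rw [(τ f).s_mul (QU_le_group hc) (QU_le_group (xx_mem_QU hr a)), s_xx f (Qp_lt r hr)]
    have h1 : ∀ s ∈ qpL, TwTabD4.S.r s ∈ qpL := by decide +kernel
    exact Subgroup.mul_mem _ ih (xx_mem_QU (h1 r hr) _)

theorem x14_mem_QU_zero {w : K} (h : xx 14 w ∈ QU K) : w = 0 := by
  have h1 := coord14 h
  have h2 : ∀ e ∈ rawEx chevD4 14 (ee 18), e.2.2 = 1 := by decide +kernel
  rw [cd_xx (by decide +kernel) (by decide) h2 w] at h1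
  have h3 : eE 19 18 14 = 1 ∨ eE 19 18 14 = -1 := by decide +kernel
  have h4 : ((eE 19 18 14 : ℤ) : K) ≠ 0 := by rcases h3 with e | e <;> rw [e] <;> simp
  exact (mul_eq_zero.1 h1).resolve_left h4

theorem U_fix_mem_PP {u : GL chevD4.Idx K} (hu : u ∈ chevD4.posUnipotent K) (huG : u ∈ GG D) : u ∈ PP D := by
  obtain ⟨v, q, hq, rfl⟩ := U_decomp hu
  have hfix := ((sc D.f).twG).G1_fix _ huG
  have hx : xx 14 v ∈ chevD4.group K := hF.c.xG_mem_group (by decide +kernel) v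
  rw [(τ D.f).s_mul hx (QU_le_group hq), s_xx D.f (by decide +kernel)] at hfix
  have t1 : TwTabD4.S.r 14 = 14 ∧ Trie.find (Int.ofNat 1) TwTabD4.g 14 = 1 := by decide +kernel
  rw [t1.1, t1.2] at hfix
  have hfix' : xx 14 (D.f v) * (τ D.f).s q = xx 14 v * q := by
    simpa using hfix
  have h1 : xx 14 (-v + D.f v) = q * ((τ D.f).s q)⁻¹ := by
    have e : xx 14 (D.f v) = xx 14 v * q * ((τ D.f).s q)⁻¹ := by
      rw [← hfix']
      group
    rw [← xx_add, ← xx_inv, e]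
    group
  have h2 : -v + D.f v = 0 := x14_mem_QU_zero (by
    rw [h1]
    exact Subgroup.mul_mem _ hq (Subgroup.inv_mem _ (s_QU D.f hq)))
  have h3 : D.f v = v := by linear_combination h2
  obtain ⟨a, rfl⟩ := D.surj v h3
  have h4 : xx 14 (D.ι a) ∈ GG D := x14_mem D (D.fix a)
  have hqG : q ∈ GG D := by
    have := (GG D).mul_mem ((GG D).inv_mem h4) huG
    simpa using this
  refine ⟨lS D (E12 a) (detU_E12 a), q, ⟨hq, hqG⟩, ?_⟩
  rw [phi_E12]

theorem borel_le_PP {b : GL chevD4.Idx K} (hb : b ∈ chevD4.borelSubgroup K) (hG : b ∈ GG D) : b ∈ PP D := by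
  obtain ⟨u, hu, h, hh, rfl⟩ := ((sc D.f).twG).borel_split hb hG
  obtain ⟨p, hp⟩ := diag_eq_phi D hh.1 hh.2
  rw [hp]
  exact (PP D).mul_mem (U_fix_mem_PP D hu.1 hu.2) (phi_mem_PP D p)

theorem Up_le_borel : Up D ≤ chevD4.borelSubgroup K := by
  refine le_trans (Up_le_QU D) ?_
  unfold QU Full.rootClosure
  rw [Subgroup.closure_le]
  rintro g ⟨s, t, hs, hg⟩
  exact hF.c.posUnipotent_le_borel (Subgroup.subset_closure ⟨s, t, Qp_pos s hs, hg⟩)

instance decQp (s : ℕ) : Decidable (Qp s) := inferInstanceAs (Decidable (s ∈ qpL))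
instance decQn (s : ℕ) : Decidable (Qn s) := inferInstanceAs (Decidable (s ∈ qnL))

theorem xa_mem_Up (t : K) : xa D.f t ∈ Up D := by
  refine ⟨?_, xa_mem D t⟩
  unfold xa
  exact Subgroup.mul_mem _ (Subgroup.mul_mem _ (xx_mem_QU (by decide) _) (xx_mem_QU (by decide) _)) (xx_mem_QU (by decide) _)

theorem ya_mem_Un (t : K) : ya D.f t ∈ Un D := by
  refine ⟨?_, ya_mem D t⟩
  unfold ya
  exact Subgroup.mul_mem _ (Subgroup.mul_mem _ (xx_mem_QV (by decide) _) (xx_mem_QV (by decide) _)) (xx_mem_QV (by decide) _)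

theorem xa_one_ne (f : K ≃+* K) : xa f 1 ≠ 1 := by
  intro h
  have h1 := crd1914.add (g := xx 18 1 * xx 13 (f 1)) (g' := xx 12 (f (f 1)))
    (Subgroup.mul_mem _ (xx_mem_QU (by decide) _) (xx_mem_QU (by decide) _)) (xx_mem_QU (by decide) _)
  rw [crd1914.add (xx_mem_QU (by decide) _) (xx_mem_QU (by decide) _), crd1914.x (by decide), crd1914.x (by decide),
    crd1914.x (by decide)] at h1
  have h2 : xx 18 1 * xx 13 (f 1) * xx 12 (f (f 1)) = 1 := h
  rw [h2, cd_one (by decide)] at h1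
  have t1 : eE 19 14 13 = 0 ∧ eE 19 14 12 = 0 ∧ (eE 19 14 18 = 1 ∨ eE 19 14 18 = -1) := by decide +kernel
  rw [t1.1, t1.2.1] at h1
  rcases t1.2.2 with e | e <;> rw [e] at h1 <;> simp at h1

/-- Every nontrivial element has a conjugate outside the parabolic subgroup. -/
theorem exists_conj_not_mem (hS : IsSimpleGroup ↥(GG D)) {g : GL chevD4.Idx K} (hg : g ∈ GG D)
    (hg1 : g ≠ 1) : ∃ h ∈ GG D, h * g * h⁻¹ ∉ PP D := by
  by_contra hcon
  push Not at hcon
  let Pg : Subgroup ↥(GG D) := (PP D).subgroupOf (GG D)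
  have hcore : (⟨g, hg⟩ : ↥(GG D)) ∈ Pg.normalCore := by
    intro b
    exact Subgroup.mem_subgroupOf.2 (hcon b.1 b.2)
  rcases (Subgroup.normalCore_normal Pg).eq_bot_or_eq_top with h | h
  · rw [h, Subgroup.mem_bot] at hcore
    exact hg1 (congrArg Subtype.val hcore)
  · have hall : ∀ b ∈ GG D, b ∈ PP D := by
      intro b hb
      have h1 : (⟨b, hb⟩ : ↥(GG D)) ∈ Pg.normalCore := by
        rw [h]
        exact Subgroup.mem_top _
      exact Subgroup.mem_subgroupOf.1 (Subgroup.normalCore_le _ h1)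
    have hx : (⟨xa D.f 1, xa_mem D 1⟩ : ↥(GG D)) ∈
        ((chevD4.borelSubgroup K ⊓ GG D).subgroupOf (GG D)).normalCore := by
      intro b
      have h2 := PP_conj D (hall b.1 b.2) (xa_mem_Up D 1)
      exact Subgroup.mem_subgroupOf.2 ⟨Up_le_borel D h2, Up_le_G D h2⟩
    rw [(sc D.f).normalCore, Subgroup.mem_bot] at hx
    exact xa_one_ne D.f (congrArg Subtype.val hx)

/-! ### The Weyl group -/

/-- The words of the double coset representatives. -/
def wordL : Fin 4 → List ℕ := ![[], [0, 2, 3], [0, 2, 3, 1, 0, 2, 3], [0, 2, 3, 1, 0, 2, 3, 1, 0, 2, 3, 1, 1]]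

/-- The permutation of a word. -/
noncomputable def wpL (L : List ℕ) : Perm (Fin chevD4.nroots) := (L.map hF.wPt).prod

/-- Permutations of the double coset representatives. -/
noncomputable def kP (k : Fin 4) : Perm (Fin chevD4.nroots) := wpL (wordL k)

/-- Optional reflection. -/
noncomputable def ep (b : Bool) : Perm (Fin chevD4.nroots) := if b then wpL [1] else 1

/-- The reflection of the class of outer nodes. -/
noncomputable def wa : Perm (Fin chevD4.nroots) := wpL [0, 2, 3]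
/-- The reflection of the central node. -/
noncomputable def wb : Perm (Fin chevD4.nroots) := wpL [1]

set_option maxHeartbeats 8000000 in
theorem W_step : ∀ (e₁ : Bool) (k : Fin 4) (e₂ : Bool) (j : Bool), ∃ (e₁' : Bool) (k' : Fin 4) (e₂' : Bool),
    ep e₁ * kP k * ep e₂ * (if j then wa else wb) = ep e₁' * kP k' * ep e₂' := by
  decide +kernel


/-- A word in the monomial group. -/
noncomputable def wN (L : List ℕ) : ↥(chevD4.monomialSubgroup K) := (L.map (hF.nNt K)).prod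

theorem wN_coe {L : List ℕ} (h : ∀ j ∈ L, j < chevD4.rank) :
    ((wN L : ↥(chevD4.monomialSubgroup K)) : GL chevD4.Idx K) = wn L := hF.coe_prod_nNt h

theorem rhoN_wN (L : List ℕ) : hF.rhoN K (wN L) = wpL L := hF.rhoN_prod_nNt L

/-- The double coset representatives in the monomial group. -/
noncomputable def nuN (k : Fin 4) : ↥(chevD4.monomialSubgroup K) := wN (wordL k)
/-- The double coset representatives. -/
noncomputable def nuK (k : Fin 4) : GL chevD4.Idx K := wn (wordL k)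

theorem wordL_lt : ∀ k, ∀ j ∈ wordL k, j < chevD4.rank := by decide +kernel

theorem nuN_val (k : Fin 4) : ((nuN k : ↥(chevD4.monomialSubgroup K)) : GL chevD4.Idx K) = nuK k := wN_coe (wordL_lt k)

theorem rhoN_nuN (k : Fin 4) : hF.rhoN K (nuN k) = kP k := rhoN_wN _

/-- Optional reflection in the monomial group. -/
noncomputable def epN (b : Bool) : ↥(chevD4.monomialSubgroup K) := if b then wN [1] else 1

theorem rhoN_epN (b : Bool) : hF.rhoN K (epN b) = ep b := by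
  cases b
  · simp [epN, ep]
  · simp [epN, ep, rhoN_wN]

theorem epN_val (b : Bool) : ∃ A : LL D, ((epN b : ↥(chevD4.monomialSubgroup K)) : GL chevD4.Idx K) = phi D A := by
  cases b
  · exact ⟨1, by simp [epN]⟩
  · refine ⟨lS D Mb detU_Mb, ?_⟩
    rw [phi_Mb]
    exact wN_coe (by decide +kernel)

theorem wn_append (L₁ L₂ : List ℕ) : wn (K := K) (L₁ ++ L₂) = wn L₁ * wn L₂ := by
  simp [wn, Full.wordN]

theorem wna_mem : wn (K := K) [0, 2, 3] ∈ GG D := by
  have := (sc D.f).nC_mem (i := 0) (by decide)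
  have e : TwD4.J 0 = [0, 2, 3] := by decide +kernel
  rw [e] at this
  exact this

theorem wnb_mem : wn (K := K) [1] ∈ GG D := by
  have := (sc D.f).nC_mem (i := 1) (by decide)
  have e : TwD4.J 1 = [1] := by decide +kernel
  rw [e] at this
  exact this

theorem wW_mem : wn (K := K) [0, 2, 3, 1] ∈ GG D := by
  rw [show ([0, 2, 3, 1] : List ℕ) = [0, 2, 3] ++ [1] from rfl, wn_append]
  exact (GG D).mul_mem (wna_mem D) (wnb_mem D)

theorem wWp_mem : wn (K := K) [1, 0, 2, 3] ∈ GG D := by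
  rw [show ([1, 0, 2, 3] : List ℕ) = [1] ++ [0, 2, 3] from rfl, wn_append]
  exact (GG D).mul_mem (wnb_mem D) (wna_mem D)

theorem nu2_mem : wn (K := K) [0, 2, 3, 1, 0, 2, 3] ∈ GG D := by
  rw [show ([0, 2, 3, 1, 0, 2, 3] : List ℕ) = [0, 2, 3, 1] ++ [0, 2, 3] from rfl, wn_append]
  exact (GG D).mul_mem (wW_mem D) (wna_mem D)

theorem w0_mem : (w0 : GL chevD4.Idx K) ∈ GG D := by
  rw [w0, show ([0, 2, 3, 1, 0, 2, 3, 1, 0, 2, 3, 1] : List ℕ) = [0, 2, 3, 1] ++ ([0, 2, 3, 1] ++ [0, 2, 3, 1]) from rfl,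
    wn_append, wn_append]
  exact (GG D).mul_mem (wW_mem D) ((GG D).mul_mem (wW_mem D) (wW_mem D))

theorem nu3_mem : wn (K := K) [0, 2, 3, 1, 0, 2, 3, 1, 0, 2, 3, 1, 1] ∈ GG D := by
  rw [show ([0, 2, 3, 1, 0, 2, 3, 1, 0, 2, 3, 1, 1] : List ℕ) = [0, 2, 3, 1, 0, 2, 3, 1, 0, 2, 3, 1] ++ [1] from rfl, wn_append]
  exact (GG D).mul_mem (w0_mem D) (wnb_mem D)

theorem nuK_mem (k : Fin 4) : nuK k ∈ GG D := by
  fin_cases k
  · have : nuK (K := K) 0 = 1 := by simp [nuK, wordL, wn, Full.wordN]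
    exact this ▸ (GG D).one_mem
  · exact wna_mem D
  · exact nu2_mem D
  · exact nu3_mem D

theorem rho_all (n : ↥(chevD4.monomialSubgroup K)) (hn : n.1 ∈ GG D) :
    ∃ (e₁ : Bool) (k : Fin 4) (e₂ : Bool), hF.rhoN K n = ep e₁ * kP k * ep e₂ := by
  obtain ⟨L, h, hL, hh, hhG, e⟩ := ((sc D.f).twG).N1_induction _ n hn rfl
  set A := (sc D.f).twG with hA
  let m : ↥(chevD4.monomialSubgroup K) := (L.map A.nC).prod
  have hm' : ∀ L' : List ℕ, (((L'.map A.nC).prod : ↥(chevD4.monomialSubgroup K)) : GL chevD4.Idx K) =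
      (L'.map fun i => (A.nC i).1).prod := by
    intro L'
    induction L' with
    | nil => simp
    | cons a L' ih => simp only [List.map_cons, List.prod_cons, Subgroup.coe_mul, ih]
  have hm : m.1 = (L.map fun i => (A.nC i).1).prod := hm' L
  have h1 : (n * m⁻¹).1 = h := by
    show n.1 * m.1⁻¹ = h
    rw [e, hm]
    group
  have h2 : hF.rhoN K (n * m⁻¹) = 1 := hF.rhoN_of_mem_diagonal _ (h1 ▸ hh)
  have h3 : hF.rhoN K n = hF.rhoN K m := by
    rw [map_mul, map_inv] at h2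
    exact mul_inv_eq_one.1 h2
  rw [h3]
  have hnC : ∀ i, hF.rhoN K (A.nC i) = wpL (TwD4.J i) := fun i => hF.rhoN_prod_nNt (TwD4.J i)
  have h4 : ∀ L' : List ℕ, (∀ i ∈ L', i < chevD4.rank) → ∃ (e₁ : Bool) (k : Fin 4) (e₂ : Bool),
      hF.rhoN K (L'.map A.nC).prod = ep e₁ * kP k * ep e₂ := by
    intro L'
    induction L' using List.reverseRecOn with
    | nil =>
      intro _
      refine ⟨false, 0, false, ?_⟩
      simp [ep, kP, wpL, wordL]
    | append_singleton L' a ih =>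
      intro hL'
      obtain ⟨e₁, k, e₂, he⟩ := ih (fun i hi => hL' i (by simp [hi]))
      have ha : a < 4 := hL' a (by simp)
      rw [List.map_append, List.prod_append, map_mul, he]
      simp only [List.map_cons, List.map_nil, List.prod_cons, List.prod_nil, mul_one]
      rw [hnC]
      interval_cases a
      · exact W_step e₁ k e₂ true
      · exact W_step e₁ k e₂ false
      · exact W_step e₁ k e₂ true
      · exact W_step e₁ k e₂ true
  exact h4 L hL

/-- Every monomial element lies in a double coset of the Levi subgroup with a representative in our list. -/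
theorem mono_decomp {n : GL chevD4.Idx K} (hn : n ∈ chevD4.monomialSubgroup K) (hnG : n ∈ GG D) :
    ∃ (A B : LL D) (k : Fin 4), n = phi D A * nuK k * phi D B := by
  let n' : ↥(chevD4.monomialSubgroup K) := ⟨n, hn⟩
  obtain ⟨e₁, k, e₂, hσ⟩ := rho_all D n' hnG
  let m : ↥(chevD4.monomialSubgroup K) := epN e₁ * nuN k * epN e₂
  have hm : hF.rhoN K m = hF.rhoN K n' := by
    rw [hσ, map_mul, map_mul, rhoN_epN, rhoN_epN, rhoN_nuN]
  have h1 : hF.rhoN K (m⁻¹ * n') = 1 := by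
    rw [map_mul, map_inv, hm, inv_mul_cancel]
  have h2 : (m⁻¹ * n').1 ∈ chevD4.diagonalSubgroup K := hF.mem_diagonal_of_rhoN_eq_one h1
  obtain ⟨A, hA⟩ := epN_val D e₁
  obtain ⟨B, hB⟩ := epN_val D e₂
  have hmG : m.1 ∈ GG D := by
    show (epN e₁).1 * (nuN k).1 * (epN e₂).1 ∈ GG D
    rw [hA, hB, nuN_val]
    exact (GG D).mul_mem ((GG D).mul_mem (phi_mem D A) (nuK_mem D k)) (phi_mem D B)
  have h4 : (m⁻¹ * n').1 ∈ GG D := (GG D).mul_mem ((GG D).inv_mem hmG) hnG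
  obtain ⟨p, hp⟩ := diag_eq_phi D h2 h4
  refine ⟨A, B * p, k, ?_⟩
  have e : n = m.1 * (m⁻¹ * n').1 := by
    have : m * (m⁻¹ * n') = n' := by group
    exact (congrArg Subtype.val this).symm
  rw [e, hp, map_mul]
  show (epN e₁).1 * (nuN k).1 * (epN e₂).1 * _ = _
  rw [hA, hB, nuN_val]
  group

/-- Every element outside the parabolic is conjugate into a coset of a representative. -/
theorem exists_conj_nu {g : GL chevD4.Idx K} (hg : g ∈ GG D) (hgP : g ∉ PP D) :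
    ∃ h ∈ GG D, ∃ k : Fin 4, k ≠ 0 ∧ ∃ A : LL D, ∃ u ∈ Up D, h * g * h⁻¹ = nuK k * phi D A * u := by
  obtain ⟨P, hPB, hPN⟩ := (sc D.f).exists_bn TwD4.hJJ
  obtain ⟨n, hn, hgn⟩ := Cfsg.Agent.Lib.BNPair.exists_mem_dc (P := P) ⟨g, hg⟩
  rw [hPN] at hn
  have hn' := Subgroup.mem_subgroupOf.1 hn
  obtain ⟨b₁, hb₁, b₂, hb₂, e⟩ := Cfsg.Agent.Lib.BNPair.mem_dc.1 hgn
  rw [hPB] at hb₁ hb₂
  have hb₁' := Subgroup.mem_subgroupOf.1 hb₁
  have hb₂' := Subgroup.mem_subgroupOf.1 hb₂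
  have e1 : g = b₁.1 * n.1 * b₂.1 := congrArg Subtype.val e
  obtain ⟨A, B, k, hk⟩ := mono_decomp D hn'.1 hn'.2
  set p₁ := b₁.1 * phi D A with hp₁
  set p₂ := phi D B * b₂.1 with hp₂
  have hp₁P : p₁ ∈ PP D := (PP D).mul_mem (borel_le_PP D hb₁'.1 hb₁'.2) (phi_mem_PP D A)
  have hp₂P : p₂ ∈ PP D := (PP D).mul_mem (phi_mem_PP D B) (borel_le_PP D hb₂'.1 hb₂'.2)
  have e2 : g = p₁ * nuK k * p₂ := by
    rw [e1, hk, hp₁, hp₂]
    group
  have hk0 : k ≠ 0 := by
    rintro rfl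
    apply hgP
    have : nuK (K := K) (0 : Fin 4) = 1 := by simp [nuK, wordL, wn, Full.wordN]
    rw [e2, this, mul_one]
    exact (PP D).mul_mem hp₁P hp₂P
  obtain ⟨A', u, hu, e3⟩ := (PP D).mul_mem hp₂P hp₁P
  refine ⟨p₁⁻¹, (GG D).inv_mem (PP_le_G D hp₁P), k, hk0, A', u, hu, ?_⟩
  have e4 : p₁⁻¹ * g * p₁⁻¹⁻¹ = nuK k * (p₂ * p₁) := by
    rw [e2]
    group
  rw [e4, e3]
  group

end Cfsg.Agent.Lib.Th3D4
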