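import Cfsg.Agent.Lib.Th3D4.Bruhat

/-!
# Gauss decompositions of the Weyl group representatives of `³D₄`
-/

set_option autoImplicit false
set_option linter.unusedSectionVars false
set_option linter.unusedVariables false
set_option linter.unusedSimpArgs false
set_option maxRecDepth 100000

namespace Cfsg.Agent.Lib.Th3D4

open Cfsg Cfsg.Lie Cfsg.Agent.Lib.Chev Cfsg.Agent.Lib.Chev.SL2 Matrix Equiv
open Cfsg.Agent.Lib.Chev.TwD4 (hF τ sc cU)
open Cfsg.Agent.Lib.ThG2 (toS toS_mul detU detU_mul detU_val E12 E21 dG E12_val E21_val dG_val detU_E12 detU_E21 detU_dG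
  toS_E12 toS_E21 toS_dG_one toS_dG_inv)

variable {K F : Type*} [Field K] [Field F] [Fintype K] (D : Fr K F)

/-- The property of being reachable by left multiplication. -/
def Cov (ν : GL chevD4.Idx K) (C : LL D) : Prop :=
  ∃ y ∈ Up D, ∃ y' ∈ Un D, ∃ w ∈ Up D, y * ν = y' * phi D C * w

/-- The consequence of `Cov` for an element of the coset. -/
theorem cov_conj {ν : GL chevD4.Idx K} {C : LL D} (h : Cov D ν C) (A : LL D) {u : GL chevD4.Idx K}
    (hu : u ∈ Up D) : ∃ y ∈ Up D, ∃ y' ∈ Un D, ∃ w ∈ Up D,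
      y * (ν * phi D A * u) * y⁻¹ = y' * phi D (C * A) * w := by
  obtain ⟨y, hy, y', hy', w, hw, e⟩ := h
  refine ⟨y, hy, y', hy', (phi D A)⁻¹ * w * phi D A * u * y⁻¹,
    (Up D).mul_mem ((Up D).mul_mem (conj_inv_mem_p D A hw) hu) ((Up D).inv_mem hy), ?_⟩
  have e1 : y * (ν * phi D A * u) * y⁻¹ = (y * ν) * phi D A * u * y⁻¹ := by group
  rw [e1, e, map_mul]
  group

/-! ### Root elements over the fixed field -/

theorem xx22_mem {t : K} (ht : D.f t = t) : xx 22 t ∈ GG D := by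
  have h1 := wcM (K := K) (L := [0, 2, 3]) (r := 14) (r' := 22) (by decide +kernel) (-t)
  rw [neg_neg] at h1
  rw [← h1]
  have ht' : D.f (-t) = -t := by rw [map_neg, ht]
  exact (GG D).mul_mem ((GG D).mul_mem (wna_mem D) (x14_mem D ht')) ((GG D).inv_mem (wna_mem D))

theorem xx23_mem {t : K} (ht : D.f t = t) : xx 23 t ∈ GG D := by
  have h1 := wcM (K := K) (L := [0, 2, 3, 1, 0, 2, 3]) (r := 14) (r' := 23) (by decide +kernel) (-t)
  rw [neg_neg] at h1
  rw [← h1]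
  have ht' : D.f (-t) = -t := by rw [map_neg, ht]
  exact (GG D).mul_mem ((GG D).mul_mem (nu2_mem D) (x14_mem D ht')) ((GG D).inv_mem (nu2_mem D))

theorem xx0_mem {t : K} (ht : D.f t = t) : xx 0 t ∈ GG D := by
  have h1 := wcM (K := K) (L := [0, 2, 3, 1, 0, 2, 3]) (r := 9) (r' := 0) (by decide +kernel) (-t)
  rw [neg_neg] at h1
  rw [← h1]
  have ht' : D.f (-t) = -t := by rw [map_neg, ht]
  exact (GG D).mul_mem ((GG D).mul_mem (nu2_mem D) (x9_mem D ht')) ((GG D).inv_mem (nu2_mem D))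

theorem conj14_mem {e : K} (he : D.f e = e) {w : GL chevD4.Idx K} (hw : w ∈ Up D) : xx 14 e * w * xx 14 (-e) ∈ Up D := by
  obtain ⟨a, rfl⟩ := D.surj e he
  have := conj_mem_p D (lS D (E12 a) (detU_E12 a)) hw
  rwa [phi_E12, xx_inv] at this

theorem nb_conj_n {w : GL chevD4.Idx K} (hw : w ∈ Un D) : wn [1] * w * (wn [1])⁻¹ ∈ Un D := by
  have := conj_mem_n D (lS D Mb detU_Mb) hw
  rwa [phi_Mb] at this

theorem nb_inv_conj_p {w : GL chevD4.Idx K} (hw : w ∈ Up D) : (wn [1])⁻¹ * w * wn [1] ∈ Up D := by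
  have := conj_inv_mem_p D (lS D Mb detU_Mb) hw
  rwa [phi_Mb] at this

theorem hc_conj_n (s : Kˣ) {w : GL chevD4.Idx K} (hw : w ∈ Un D) : hc D.f s * w * (hc D.f s)⁻¹ ∈ Un D := by
  obtain ⟨μ, hμ⟩ := exists_norm_root D s
  have := conj_mem_n D (lD D μ s hμ) hw
  rwa [phi_lD] at this

/-! ### The first representative -/

theorem cov1 (s : Kˣ) (μ : Fˣ) (hμ : D.ιU μ = nmU D.f s) (v : F) :
    Cov D (nuK 1) (lD D μ s hμ * lS D (E12 v) (detU_E12 v)) := by
  have e0 : nuK (K := K) 1 = na := rfl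
  refine ⟨xa D.f (-(s : K)) * xx 22 (-(D.ι v)), (Up D).mul_mem (xa_mem_Up D _)
      ⟨xx_mem_QU (by decide) _, xx22_mem D (by rw [map_neg, D.fix])⟩,
    ya D.f (-(s : K)⁻¹), ya_mem_Un D _, (xx 14 (D.ι v))⁻¹ * xa D.f ((s : K)⁻¹) * xx 14 (D.ι v), ?_, ?_⟩
  · have := conj_inv_mem_p D (lS D (E12 v) (detU_E12 v)) (xa_mem_Up D ((s : K)⁻¹))
    rwa [phi_E12] at this
  · rw [map_mul, phi_lD, phi_E12, e0]
    have h1 : xx 22 (-(D.ι v)) * na = na * xx 14 (D.ι v) := by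
      have := wiM (K := K) (L := [0, 2, 3]) (r := 14) (r' := 22) (by decide +kernel) (-(D.ι v))
      rw [neg_neg] at this
      rw [← this]
      group
    calc xa D.f (-(s : K)) * xx 22 (-(D.ι v)) * na = xa D.f (-(s : K)) * (xx 22 (-(D.ι v)) * na) := by group
      _ = (xa D.f (-(s : K)) * na) * xx 14 (D.ι v) := by rw [h1]; group
      _ = _ := by rw [gauss]; group

/-! ### The second representative -/

/-- The product of the two Weyl elements. -/
noncomputable abbrev wW : GL chevD4.Idx K := wn [0, 2, 3, 1]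
/-- The Weyl element of the long root. -/
noncomputable abbrev nb : GL chevD4.Idx K := wn [1]
/-- The second representative. -/
noncomputable abbrev nu2 : GL chevD4.Idx K := wn [0, 2, 3, 1, 0, 2, 3]

theorem wW_eq : wW (K := K) = na * nb := wn_append [0, 2, 3] [1]

theorem nu2_eq : nu2 (K := K) = wW * na := wn_append [0, 2, 3, 1] [0, 2, 3]

theorem wW_xa (f : K ≃+* K) (t : K) : wW * xa f t * wW⁻¹ = xx 17 t * xx 20 (-f t) * xx 21 (-f (f t)) := by
  have e : wW * (xx 18 t * xx 13 (f t) * xx 12 (f (f t))) * wW⁻¹ =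
      (wW * xx 18 t * wW⁻¹) * (wW * xx 13 (f t) * wW⁻¹) * (wW * xx 12 (f (f t)) * wW⁻¹) := by group
  rw [xa, e, wcP (L := [0, 2, 3, 1]) (r := 18) (r' := 17) (by decide +kernel),
    wcM (L := [0, 2, 3, 1]) (r := 13) (r' := 20) (by decide +kernel),
    wcM (L := [0, 2, 3, 1]) (r := 12) (r' := 21) (by decide +kernel)]

theorem wW_ya (f : K ≃+* K) (t : K) : wW * ya f t * wW⁻¹ = xx 6 t * xx 3 (-f t) * xx 2 (-f (f t)) := by
  have e : wW * (xx 5 t * xx 10 (f t) * xx 11 (f (f t))) * wW⁻¹ =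
      (wW * xx 5 t * wW⁻¹) * (wW * xx 10 (f t) * wW⁻¹) * (wW * xx 11 (f (f t)) * wW⁻¹) := by group
  rw [ya, e, wcP (L := [0, 2, 3, 1]) (r := 5) (r' := 6) (by decide +kernel),
    wcM (L := [0, 2, 3, 1]) (r := 10) (r' := 3) (by decide +kernel),
    wcM (L := [0, 2, 3, 1]) (r := 11) (r' := 2) (by decide +kernel)]

theorem wW_xa_mem (t : K) : wW * xa D.f t * wW⁻¹ ∈ Up D := by
  refine ⟨?_, (GG D).mul_mem ((GG D).mul_mem (wW_mem D) (xa_mem D t)) ((GG D).inv_mem (wW_mem D))⟩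
  rw [wW_xa]
  exact Subgroup.mul_mem _ (Subgroup.mul_mem _ (xx_mem_QU (by decide) _) (xx_mem_QU (by decide) _)) (xx_mem_QU (by decide) _)

theorem wW_ya_mem (t : K) : wW * ya D.f t * wW⁻¹ ∈ Un D := by
  refine ⟨?_, (GG D).mul_mem ((GG D).mul_mem (wW_mem D) (ya_mem D t)) ((GG D).inv_mem (wW_mem D))⟩
  rw [wW_ya]
  exact Subgroup.mul_mem _ (Subgroup.mul_mem _ (xx_mem_QV (by decide) _) (xx_mem_QV (by decide) _)) (xx_mem_QV (by decide) _)

theorem nb_inv_xa (f : K ≃+* K) (t : K) : nb⁻¹ * xa f t * nb = TwD4.wP f (-t) := by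
  have e : nb⁻¹ * (xx 18 t * xx 13 (f t) * xx 12 (f (f t))) * nb =
      (nb⁻¹ * xx 18 t * nb) * (nb⁻¹ * xx 13 (f t) * nb) * (nb⁻¹ * xx 12 (f (f t)) * nb) := by group
  rw [xa, e, wiM (L := [1]) (r := 19) (r' := 18) (by decide +kernel), wiP (L := [1]) (r := 16) (r' := 13) (by decide +kernel),
    wiP (L := [1]) (r := 15) (r' := 12) (by decide +kernel)]
  simp [TwD4.wP, Checks.wordG_cons, Checks.wordG_nil, mul_assoc]

theorem ya_add (f : K ≃+* K) (s t : K) : ya f s * ya f t = ya f (s + t) := by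
  rw [← psiA_y0, ← psiA_y0, ← psiA_y0, ← map_mul]
  congr 1
  apply Subtype.ext
  show (y0 s).1 * (y0 t).1 = (y0 (s + t)).1
  simp only [y0]
  ext i j
  fin_cases i <;> fin_cases j <;> simp [Matrix.mul_apply, Fin.sum_univ_two]

theorem ya_inv (f : K ≃+* K) (t : K) : (ya f t)⁻¹ = ya f (-t) := by
  apply inv_eq_of_mul_eq_one_right
  rw [ya_add, add_neg_cancel, ← psiA_y0]
  have : (y0 (0 : K)) = 1 := by
    apply Subtype.ext
    simp [y0]
    ext i j
    fin_cases i <;> fin_cases j <;> simp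
  rw [this, map_one]

theorem central_ya (f : K ≃+* K) (r : K) :
    TwD4.wP f r * ya f (-1) = ya f (-1) * xx 14 (-(r + f r + f (f r))) * TwD4.wP f r := by
  have h := TwD4.central_comm f r
  have e : hF.c.wordG [((5 : ℕ), (1 : K)), (10, 1), (11, 1)] = ya f 1 := by
    simp [ya, Checks.wordG_cons, Checks.wordG_nil, mul_assoc]
  rw [e] at h
  have h' : xx 14 (-(r + f r + f (f r))) = ya f 1 * TwD4.wP f r * (ya f 1)⁻¹ * (TwD4.wP f r)⁻¹ := h
  rw [h', ← ya_inv]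
  group

theorem wP_mem_Up (r : K) : TwD4.wP D.f r ∈ Up D := by
  refine ⟨?_, TwD4.wP_mem D.f D.f3' r⟩
  have e : TwD4.wP D.f r = xx 19 r * (xx 16 (-D.f r) * xx 15 (-D.f (D.f r))) := by
    simp [TwD4.wP, Checks.wordG_cons, Checks.wordG_nil]
  rw [e]
  exact Subgroup.mul_mem _ (xx_mem_QU (by decide) _) (Subgroup.mul_mem _ (xx_mem_QU (by decide) _) (xx_mem_QU (by decide) _))

theorem cov2 (s : Kˣ) (μ : Fˣ) (hμ : D.ιU μ = nmU D.f s) (v : F) :
    Cov D (nuK 2) (lD D μ s hμ * lS D Mb detU_Mb * lS D (E12 v) (detU_E12 v)) := by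
  have e0 : nuK (K := K) 2 = nu2 := rfl
  set r : K := -(s : K)⁻¹ with hr
  set T : K := r + D.f r + D.f (D.f r) with hT
  have hTf : D.f T = T := by
    rw [hT, map_add, map_add, D.f3]
    ring
  set e : K := -T - D.ι v with he
  have hef : D.f e = e := by
    rw [he, map_sub, map_neg, hTf, D.fix]
  refine ⟨(xa D.f (-(s : K)) * (wW * xa D.f (-1) * wW⁻¹)) * xx 23 e,
    (Up D).mul_mem ((Up D).mul_mem (xa_mem_Up D _) (wW_xa_mem D _)) ⟨xx_mem_QU (by decide) _, xx23_mem D hef⟩,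
    ya D.f r * (hc D.f s * (nb * ya D.f (-1) * nb⁻¹) * (hc D.f s)⁻¹),
    (Un D).mul_mem (ya_mem_Un D _) (hc_conj_n D s (nb_conj_n D (ya_mem_Un D _))),
    xx 14 e * (TwD4.wP D.f r * xa D.f 1) * xx 14 (-e), conj14_mem D hef ((Up D).mul_mem (wP_mem_Up D r) (xa_mem_Up D 1)), ?_⟩
  rw [map_mul, map_mul, phi_lD, phi_Mb, phi_E12, e0]
  have h1 : xx 23 e * nu2 = nu2 * xx 14 (-e) := by
    have := wiM (K := K) (L := [0, 2, 3, 1, 0, 2, 3]) (r := 14) (r' := 23) (by decide +kernel) e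
    rw [← this]
    group
  have h2 : xa D.f (-(s : K)) * na = ya D.f r * hc D.f s * xa D.f ((s : K)⁻¹) := gauss D.f s
  have h3 := gauss1 D.f
  have h4 : xa D.f ((s : K)⁻¹) * nb = nb * TwD4.wP D.f r := by
    have := nb_inv_xa D.f ((s : K)⁻¹)
    rw [← hr] at this
    rw [← this]
    group
  have h5 := central_ya D.f r
  have h6 : xx 14 (D.ι v) * xx 14 e = xx 14 (-T) := by
    rw [xx_add, he]
    congr 1
    ring
  rw [nu2_eq] at h1 ⊢
  calc xa D.f (-(s : K)) * (wW * xa D.f (-1) * wW⁻¹) * xx 23 e * (wW * na)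
      = xa D.f (-(s : K)) * (wW * xa D.f (-1) * wW⁻¹) * (xx 23 e * (wW * na)) := by group
    _ = xa D.f (-(s : K)) * na * nb * (xa D.f (-1) * na) * xx 14 (-e) := by
        rw [h1, wW_eq]
        group
    _ = (ya D.f r * hc D.f s) * (xa D.f ((s : K)⁻¹) * nb) * (ya D.f (-1) * xa D.f 1) * xx 14 (-e) := by
        rw [h2, h3]
        group
    _ = ya D.f r * hc D.f s * nb * (TwD4.wP D.f r * ya D.f (-1)) * xa D.f 1 * xx 14 (-e) := by
        rw [h4]
        group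
    _ = ya D.f r * hc D.f s * nb * ya D.f (-1) * xx 14 (-T) * TwD4.wP D.f r * xa D.f 1 * xx 14 (-e) := by
        rw [h5, ← hT]
        group
    _ = ya D.f r * hc D.f s * nb * ya D.f (-1) * (xx 14 (D.ι v) * xx 14 e) * TwD4.wP D.f r * xa D.f 1 * xx 14 (-e) := by
        rw [h6]
    _ = _ := by
        group

end Cfsg.Agent.Lib.Th3D4
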