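import Cfsg.Agent.Lib.Th3D4.Levi

/-!
# Elements of the nonsplit torus act without fixed points on the unipotent radicals
-/

set_option autoImplicit false
set_option linter.unusedSectionVars false
set_option linter.unusedVariables false
set_option linter.unusedSimpArgs false
set_option maxRecDepth 100000

namespace Cfsg.Agent.Lib.Th3D4

open Cfsg Cfsg.Lie Cfsg.Agent.Lib.Chev Cfsg.Agent.Lib.Chev.SL2 Matrix
open Cfsg.Agent.Lib.Chev.Tri
open Cfsg.Agent.Lib.Chev.TwD4 (hF τ sc cU)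

variable {K : Type*} [Field K] [Fintype K]

/-! ### The action on a pair of roots -/

theorem inv_a (g : SpecialLinearGroup (Fin 2) K) : (g⁻¹).1 0 0 = g.1 1 1 := by
  have e : (g⁻¹).1 = Matrix.adjugate g.1 := rfl
  rw [e, Matrix.adjugate_fin_two]
  simp
theorem inv_b (g : SpecialLinearGroup (Fin 2) K) : (g⁻¹).1 0 1 = -g.1 0 1 := by
  have e : (g⁻¹).1 = Matrix.adjugate g.1 := rfl
  rw [e, Matrix.adjugate_fin_two]
  simp
theorem inv_c (g : SpecialLinearGroup (Fin 2) K) : (g⁻¹).1 1 0 = -g.1 1 0 := by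
  have e : (g⁻¹).1 = Matrix.adjugate g.1 := rfl
  rw [e, Matrix.adjugate_fin_two]
  simp
theorem inv_d (g : SpecialLinearGroup (Fin 2) K) : (g⁻¹).1 1 1 = g.1 0 0 := by
  have e : (g⁻¹).1 = Matrix.adjugate g.1 := rfl
  rw [e, Matrix.adjugate_fin_two]
  simp

/-- The data of a pair of roots permuted by the `SL₂`. -/
structure PairD (β β' : ℕ) (ε : K) : Prop where
  hε : ε * ε = 1
  h1 : ∀ t u : K, xx 14 t * xx β u * xx 14 (-t) = xx β u * xx β' (ε * t * u)
  h2 : ∀ t u : K, Commute (xx 14 t) (xx β' u)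
  h3 : ∀ t u : K, xx 9 t * xx β' u * xx 9 (-t) = xx β' u * xx β (ε * t * u)
  h4 : ∀ t u : K, Commute (xx 9 t) (xx β u)
  h5 : ∀ a b : K, Commute (xx β a) (xx β' b)

theorem PairD.act {β β' : ℕ} {ε : K} (P : PairD β β' ε) (S : SpecialLinearGroup (Fin 2) K) (v₀ v₁ : K) :
    psiB S * (xx β v₀ * xx β' v₁) * (psiB S)⁻¹ =
      xx β (S.1 1 1 * v₀ + ε * S.1 1 0 * v₁) * xx β' (ε * S.1 0 1 * v₀ + S.1 0 0 * v₁) := by
  have hε := P.hε
  have hS := mem_closure_elementary S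
  induction hS using Subgroup.closure_induction generalizing v₀ v₁ with
  | mem g hg =>
    rcases hg with ⟨t, rfl⟩ | ⟨t, rfl⟩
    · rw [psiB_x0, xx_inv]
      have e : xx 14 t * (xx β v₀ * xx β' v₁) * xx 14 (-t) =
          (xx 14 t * xx β v₀ * xx 14 (-t)) * (xx 14 t * xx β' v₁ * xx 14 (-t)) := by
        rw [← xx_inv]
        group
      rw [e, P.h1, (P.h2 t v₁).eq, mul_assoc (xx β' v₁), xx_add, add_neg_cancel, xx_zero, mul_one, mul_assoc, xx_add]
      simp only [x0_a, x0_b, x0_c, x0_d]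
      congr 2
      · ring
      · ring
    · rw [psiB_y0, xx_inv]
      have e : xx 9 t * (xx β v₀ * xx β' v₁) * xx 9 (-t) =
          (xx 9 t * xx β v₀ * xx 9 (-t)) * (xx 9 t * xx β' v₁ * xx 9 (-t)) := by
        rw [← xx_inv]
        group
      rw [e, P.h3, (P.h4 t v₀).eq, mul_assoc (xx β v₀), xx_add, add_neg_cancel, xx_zero, mul_one, ← mul_assoc,
        mul_assoc (xx β v₀), ← (P.h5 (ε * t * v₁) v₁).eq, ← mul_assoc, xx_add]
      simp only [y0_a, y0_b, y0_c, y0_d]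
      congr 2
      · ring
      · ring
  | one =>
    simp
  | mul a b _ _ h1 h2 =>
    have e : psiB (a * b) * (xx β v₀ * xx β' v₁) * (psiB (a * b))⁻¹ =
        psiB a * (psiB b * (xx β v₀ * xx β' v₁) * (psiB b)⁻¹) * (psiB a)⁻¹ := by
      rw [map_mul]
      group
    rw [e, h2, h1, mul_a, mul_b, mul_c, mul_d]
    congr 2
    · linear_combination (a.1 1 0 * b.1 0 1 * v₀) * hε
    · linear_combination (a.1 0 1 * b.1 1 0 * v₁) * hε
  | inv a _ h1 =>
    have hdet := det_eq a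
    have h2 := h1 (a.1 0 0 * v₀ - ε * a.1 1 0 * v₁) (- ε * a.1 0 1 * v₀ + a.1 1 1 * v₁)
    have e1 : a.1 1 1 * (a.1 0 0 * v₀ - ε * a.1 1 0 * v₁) + ε * a.1 1 0 * (- ε * a.1 0 1 * v₀ + a.1 1 1 * v₁) = v₀ := by
      linear_combination v₀ * hdet - (a.1 1 0 * a.1 0 1 * v₀) * hε
    have e2 : ε * a.1 0 1 * (a.1 0 0 * v₀ - ε * a.1 1 0 * v₁) + a.1 0 0 * (- ε * a.1 0 1 * v₀ + a.1 1 1 * v₁) = v₁ := by
      linear_combination v₁ * hdet - (a.1 0 1 * a.1 1 0 * v₁) * hε
    rw [e1, e2] at h2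
    rw [inv_a, inv_b, inv_c, inv_d, map_inv, inv_inv]
    have e3 : a.1 0 0 * v₀ + ε * -a.1 1 0 * v₁ = a.1 0 0 * v₀ - ε * a.1 1 0 * v₁ := by ring
    have e4 : ε * -a.1 0 1 * v₀ + a.1 1 1 * v₁ = - ε * a.1 0 1 * v₀ + a.1 1 1 * v₁ := by ring
    rw [e3, e4, ← h2]
    group

/-- The algebra of a fixed vector. -/
theorem eigen2 {p q r s μ χ ε t₁ t₂ : K} (hdet : p * s - q * r = 1) (hε : ε * ε = 1) (hχ : χ ≠ 0) (hμ : μ ≠ 0)
    (hP : ∀ y : K, y ^ 2 - (p + s * μ) * y + μ ≠ 0)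
    (h1 : t₁ = s * (χ * t₁) + ε * r * (χ / μ * t₂)) (h2 : t₂ = ε * q * (χ * t₁) + p * (χ / μ * t₂)) :
    t₁ = 0 ∧ t₂ = 0 := by
  set l := μ / χ with hl
  have e1 : l * t₁ = s * μ * t₁ + ε * r * t₂ := by
    calc l * t₁ = l * (s * (χ * t₁) + ε * r * (χ / μ * t₂)) := by rw [← h1]
      _ = _ := by
        rw [hl]
        field_simp
  have e2 : l * t₂ = ε * q * μ * t₁ + p * t₂ := by
    calc l * t₂ = l * (ε * q * (χ * t₁) + p * (χ / μ * t₂)) := by rw [← h2]
      _ = _ := by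
        rw [hl]
        field_simp
  have hne := hP l
  constructor
  · apply (mul_eq_zero.1 _).resolve_left hne
    linear_combination (l - p) * e1 + ε * r * e2 + (r * q * μ * t₁) * hε - (μ * t₁) * hdet
  · apply (mul_eq_zero.1 _).resolve_left hne
    linear_combination (l - s * μ) * e2 + ε * q * μ * e1 + (q * r * μ * t₂) * hε - (μ * t₂) * hdet

/-! ### Coordinates -/

/-- The coordinates of the root part. -/
abbrev ee (r : Fin 24) : chevD4.Idx := Sum.inr r

/-- A matrix entry. -/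
noncomputable def cd (row col : Fin 24) (g : GL chevD4.Idx K) : K := (g : Matrix chevD4.Idx chevD4.Idx K) (ee row) (ee col)

/-- The induction principle for the groups generated by root elements. -/
theorem rc_ind {Q : ℕ → Prop} {P : GL chevD4.Idx K → Prop} (h1 : P 1)
    (h2 : ∀ c ∈ Full.rootClosure chevD4 K Q, ∀ r, Q r → ∀ a : K, P c → P (c * xx r a))
    {c : GL chevD4.Idx K} (hc : c ∈ Full.rootClosure chevD4 K Q) : P c := by
  unfold Full.rootClosure at hc h2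
  induction hc using Subgroup.closure_induction_right with
  | one => exact h1
  | mul_right x hx y hy ih =>
    obtain ⟨r, e, hr, hy⟩ := hy
    rw [hF.c.eq_xG hy]
    exact h2 _ hx r hr e ih
  | mul_inv_cancel x hx y hy ih =>
    obtain ⟨r, e, hr, hy⟩ := hy
    rw [hF.c.eq_xG hy, hF.c.xG_inv]
    exact h2 _ hx r hr (-e) ih

/-- Entries at level one are additive. -/
theorem cd_add_gen (a : ℕ → ℤ) (Q : ℕ → Prop) (hQ : ∀ s, Q s → s < chevD4.nroots ∧ 1 ≤ RootD4T.R.lin chevD4.rank a s)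
    {row col : Fin 24} (h : RootD4T.R.lin chevD4.rank a row = RootD4T.R.lin chevD4.rank a col + 1)
    {g g' : GL chevD4.Idx K} (hg : g ∈ Full.rootClosure chevD4 K Q) (hg' : g' ∈ Full.rootClosure chevD4 K Q) :
    cd row col (g * g') = cd row col g + cd row col g' := by
  obtain ⟨ℓ, d, M, hd, hℓ⟩ := Full.exists_lev RootD4T.R chevD4 a
  have hle : Full.rootClosure chevD4 K Q ≤ UT (F := K) ℓ 0 d hd := by
    unfold Full.rootClosure
    rw [Subgroup.closure_le]
    rintro x ⟨s, t, hs, hx⟩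
    rw [SetLike.mem_coe, hF.c.eq_xG hx, mem_UT, Checks.coe_xG]
    obtain ⟨hs1, hs2⟩ := hQ s hs
    intro i j hij
    by_cases hne : i = j
    · subst hne
      simp [Matrix.sub_apply, hF.x_entry_self hs1 t i]
    · rw [Matrix.sub_apply, Matrix.one_apply_ne hne, sub_zero]
      by_contra h0
      obtain ⟨c, hc, h1⟩ := hF.x_entry_ne hs1 hne h0
      have h2 := hF.gr_add a h1
      have h5 : (1 : ℤ) ≤ c := by exact_mod_cast hc
      have h6 : RootD4T.R.lin chevD4.rank a s ≤ (c : ℤ) * RootD4T.R.lin chevD4.rank a s := by nlinarith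
      have h7 := hℓ i
      have h8 := hℓ j
      omega
  have h1 := hle hg
  have h2 := hle hg'
  rw [mem_UT] at h1 h2
  have h3 := J_mul h1 h2
  have hne : ee row ≠ ee col := by
    intro he
    have : row = col := Sum.inr.inj he
    rw [this] at h
    omega
  have hlev : ℓ (ee row) = ℓ (ee col) + 1 := by
    have h7 := hℓ (ee row)
    have h8 := hℓ (ee col)
    have g1 : gr RootD4T.R chevD4 a (ee row) = RootD4T.R.lin chevD4.rank a row := gr_inr _ _ _ _
    have g2 : gr RootD4T.R chevD4 a (ee col) = RootD4T.R.lin chevD4.rank a col := gr_inr _ _ _ _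
    rw [g1] at h7
    rw [g2] at h8
    omega
  have h4 := h3 (ee row) (ee col) (by omega)
  have e : ((g * g' : GL chevD4.Idx K) : Matrix chevD4.Idx chevD4.Idx K) =
      ((g : Matrix chevD4.Idx chevD4.Idx K) - 1) * ((g' : Matrix chevD4.Idx chevD4.Idx K) - 1) + (g : Matrix chevD4.Idx chevD4.Idx K) + (g' : Matrix chevD4.Idx chevD4.Idx K) - 1 := by
    rw [Units.val_mul]
    noncomm_ring
  unfold cd
  rw [e]
  simp only [Matrix.sub_apply, Matrix.add_apply, Matrix.one_apply_ne hne, sub_zero]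
  rw [show ((g : Matrix chevD4.Idx chevD4.Idx K) - 1) * ((g' : Matrix chevD4.Idx chevD4.Idx K) - 1) = _ from rfl] at *
  have h5 : (((g : Matrix chevD4.Idx chevD4.Idx K) - 1) * ((g' : Matrix chevD4.Idx chevD4.Idx K) - 1)) (ee row) (ee col) = 0 := h4
  rw [h5, zero_add]

theorem cd_one {row col : Fin 24} (h : row ≠ col) : cd row col (1 : GL chevD4.Idx K) = 0 := by
  unfold cd
  rw [Units.val_one, Matrix.one_apply_ne]
  intro he
  exact h (Sum.inr.inj he)

/-- The coefficient in an entry of a root element. -/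
noncomputable def eE (row col : Fin 24) (s : ℕ) : ℤ :=
  ((rawEx chevD4 s (ee col)).map fun e => if chevD4.rank + (row : ℕ) = e.1 then e.2.1 else 0).sum

theorem sumEx_lin (L : List (ℕ × ℤ × ℕ)) (hL : ∀ e ∈ L, e.2.2 = 1) (t : K) (row : Fin 24) :
    sumEx chevD4 L t (ee row) = (((L.map fun e => if chevD4.rank + (row : ℕ) = e.1 then e.2.1 else 0).sum : ℤ) : K) * t := by
  induction L with
  | nil => simp [sumEx]
  | cons e L ih =>
    rw [sumEx_cons, ih (fun x hx => hL x (by simp [hx]))]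
    have h1 := hL e (by simp)
    simp only [List.map_cons, List.sum_cons]
    push_cast
    have e1 : flat chevD4 (ee row) = chevD4.rank + (row : ℕ) := rfl
    rw [e1, h1]
    by_cases h : chevD4.rank + (row : ℕ) = e.1
    · simp [h]
      ring
    · simp [h]

theorem cd_xx {row col : Fin 24} {s : ℕ} (hs : s < chevD4.nroots) (hne : row ≠ col)
    (hlin : ∀ e ∈ rawEx chevD4 s (ee col), e.2.2 = 1) (t : K) :
    cd row col (xx s t) = ((eE row col s : ℤ) : K) * t := by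
  unfold cd eE
  rw [Checks.coe_xG]
  have hx : chevD4.x K s t = chevD4.xMat K ⟨s, hs⟩ t := by simp [ChevalleyDatum.x, hs]
  rw [hx, xMat_apply, if_neg (by intro he; exact hne (Sum.inr.inj he)), zero_add]
  exact sumEx_lin _ hlin t row

/-- The grading by the coefficients outside the central node. -/
def aL : ℕ → ℤ := fun j => if j = 1 then 0 else 1
/-- The height. -/
def aH : ℕ → ℤ := fun _ => 1

theorem Qp_lin : ∀ s, Qp s → s < chevD4.nroots ∧ 1 ≤ RootD4T.R.lin chevD4.rank aL s := by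
  intro s hs
  have : ∀ s ∈ qpL, s < chevD4.nroots ∧ 1 ≤ RootD4T.R.lin chevD4.rank aL s := by decide +kernel
  exact this s hs

/-- The conditions on a coordinate of the radical. -/
structure Crd (row col : Fin 24) : Prop where
  hne : row ≠ col
  hl : RootD4T.R.lin chevD4.rank aL row = RootD4T.R.lin chevD4.rank aL col + 1
  hlin : ∀ s ∈ qpL, ∀ e ∈ rawEx chevD4 s (ee col), e.2.2 = 1

theorem crd1914 : Crd 19 14 := ⟨by decide +kernel, by decide +kernel, by decide +kernel⟩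
theorem crd1614 : Crd 16 14 := ⟨by decide +kernel, by decide +kernel, by decide +kernel⟩
theorem crd1514 : Crd 15 14 := ⟨by decide +kernel, by decide +kernel, by decide +kernel⟩
theorem crd189 : Crd 18 9 := ⟨by decide +kernel, by decide +kernel, by decide +kernel⟩
theorem crd139 : Crd 13 9 := ⟨by decide +kernel, by decide +kernel, by decide +kernel⟩
theorem crd129 : Crd 12 9 := ⟨by decide +kernel, by decide +kernel, by decide +kernel⟩

theorem Crd.add {row col : Fin 24} (h : Crd row col) {g g' : GL chevD4.Idx K} (hg : g ∈ QU K) (hg' : g' ∈ QU K) :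
    cd row col (g * g') = cd row col g + cd row col g' :=
  cd_add_gen aL Qp Qp_lin h.hl hg hg'

theorem Crd.x {row col : Fin 24} (h : Crd row col) {s : ℕ} (hs : s ∈ qpL) (t : K) :
    cd row col (xx s t) = ((eE row col s : ℤ) : K) * t :=
  cd_xx (Qp_lt s hs) h.hne (h.hlin s hs) t

theorem Crd.two {row col : Fin 24} (h : Crd row col) {u v : ℕ} (hu : u ∈ qpL) (hv : v ∈ qpL) (A B : K) :
    cd row col (xx u A * xx v B) = ((eE row col u : ℤ) : K) * A + ((eE row col v : ℤ) : K) * B := by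
  rw [h.add (xx_mem_QU hu A) (xx_mem_QU hv B), h.x hu, h.x hv]

/-- The element acting. -/
noncomputable def XX (f : K ≃+* K) (S : SpecialLinearGroup (Fin 2) K) (c : Kˣ) : GL chevD4.Idx K := psiB S * hc f c

/-- The values of the characters. -/
noncomputable def chiV (f : K ≃+* K) (c : Kˣ) (s : ℕ) : K :=
  ((c ^ chevD4.cartan 0 s * (unitsF f c) ^ chevD4.cartan 2 s * (unitsF f (unitsF f c)) ^ chevD4.cartan 3 s : Kˣ) : K)

theorem chiV_ne (f : K ≃+* K) (c : Kˣ) (s : ℕ) : chiV f c s ≠ 0 := Units.ne_zero _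

theorem hc_conj' (f : K ≃+* K) (c : Kˣ) {s : ℕ} (hs : s < chevD4.nroots) (t : K) :
    hc f c * xx s t * (hc f c)⁻¹ = xx s (chiV f c s * t) := hc_conj f c hs t

theorem chiV_pair (f : K ≃+* K) (c : Kˣ) {s s' : ℕ} (h : chevD4.cartan 0 s' = chevD4.cartan 0 s - 1 ∧
    chevD4.cartan 2 s' = chevD4.cartan 2 s - 1 ∧ chevD4.cartan 3 s' = chevD4.cartan 3 s - 1) :
    chiV f c s' = chiV f c s / (nmU f c : Kˣ) := by
  obtain ⟨h0, h2, h3⟩ := h
  have e : (c ^ chevD4.cartan 0 s' * (unitsF f c) ^ chevD4.cartan 2 s' * (unitsF f (unitsF f c)) ^ chevD4.cartan 3 s' : Kˣ) =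
      (c ^ chevD4.cartan 0 s * (unitsF f c) ^ chevD4.cartan 2 s * (unitsF f (unitsF f c)) ^ chevD4.cartan 3 s) / nmU f c := by
    rw [h0, h2, h3, _root_.zpow_sub_one, _root_.zpow_sub_one, _root_.zpow_sub_one, nmU, div_eq_mul_inv, mul_inv, mul_inv]
    simp only [mul_assoc, mul_left_comm, mul_comm]
  unfold chiV
  rw [e, Units.val_div_eq_div_val]

theorem XX_pair (f : K ≃+* K) (S : SpecialLinearGroup (Fin 2) K) (c : Kˣ) {β β' : ℕ} {ε : K} (P : PairD β β' ε)
    (hβ : β < chevD4.nroots) (hβ' : β' < chevD4.nroots) (v₀ v₁ : K) :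
    XX f S c * (xx β v₀ * xx β' v₁) * (XX f S c)⁻¹ =
      xx β (S.1 1 1 * (chiV f c β * v₀) + ε * S.1 1 0 * (chiV f c β' * v₁)) *
      xx β' (ε * S.1 0 1 * (chiV f c β * v₀) + S.1 0 0 * (chiV f c β' * v₁)) := by
  have e : XX f S c * (xx β v₀ * xx β' v₁) * (XX f S c)⁻¹ =
      psiB S * ((hc f c * xx β v₀ * (hc f c)⁻¹) * (hc f c * xx β' v₁ * (hc f c)⁻¹)) * (psiB S)⁻¹ := by
    unfold XX
    group
  rw [e, hc_conj' f c hβ, hc_conj' f c hβ', P.act]

theorem psiB_comm {r : ℕ} (h1 : ∀ t u : K, Commute (xx 14 t) (xx r u)) (h2 : ∀ t u : K, Commute (xx 9 t) (xx r u))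
    (S : SpecialLinearGroup (Fin 2) K) (u : K) : Commute (psiB S) (xx r u) := by
  have hS := mem_closure_elementary S
  induction hS using Subgroup.closure_induction with
  | mem g hg =>
    rcases hg with ⟨t, rfl⟩ | ⟨t, rfl⟩
    · rw [psiB_x0]; exact h1 t u
    · rw [psiB_y0]; exact h2 t u
  | one => simp
  | mul a b _ _ h3 h4 =>
    rw [map_mul]
    exact h3.mul_left h4
  | inv a _ h3 =>
    rw [map_inv]
    exact h3.inv_left

theorem XX_single (f : K ≃+* K) (S : SpecialLinearGroup (Fin 2) K) (c : Kˣ) {r : ℕ} (hr : r < chevD4.nroots)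
    (h1 : ∀ t u : K, Commute (xx 14 t) (xx r u)) (h2 : ∀ t u : K, Commute (xx 9 t) (xx r u)) (v : K) :
    XX f S c * xx r v * (XX f S c)⁻¹ = xx r (chiV f c r * v) := by
  have e : XX f S c * xx r v * (XX f S c)⁻¹ = psiB S * (hc f c * xx r v * (hc f c)⁻¹) * (psiB S)⁻¹ := by
    unfold XX
    group
  rw [e, hc_conj' f c hr, (psiB_comm h1 h2 S _).eq]
  group

/-- From the tables to a pair. -/
theorem pairD_of {β β' : ℕ} {C : ℤ}
    (h : (14 < chevD4.nroots ∧ β < chevD4.nroots ∧ β ≠ 14 ∧ β ≠ chevD4.neg 14 ∧ chevD4.commTerms 14 β = [(β', C, 1, 1)]) ∧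
      (9 < chevD4.nroots ∧ β' < chevD4.nroots ∧ β' ≠ 9 ∧ β' ≠ chevD4.neg 9 ∧ chevD4.commTerms 9 β' = [(β, C, 1, 1)]) ∧
      (14 < chevD4.nroots ∧ β' < chevD4.nroots ∧ β' ≠ 14 ∧ β' ≠ chevD4.neg 14 ∧ chevD4.commTerms 14 β' = []) ∧
      (9 < chevD4.nroots ∧ β < chevD4.nroots ∧ β ≠ 9 ∧ β ≠ chevD4.neg 9 ∧ chevD4.commTerms 9 β = []) ∧
      (β < chevD4.nroots ∧ β' < chevD4.nroots ∧ β' ≠ β ∧ β' ≠ chevD4.neg β ∧ chevD4.commTerms β β' = []) ∧
      (C = 1 ∨ C = -1)) : PairD (K := K) β β' (C : K) := by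
  obtain ⟨t1, t2, t3, t4, t5, hC⟩ := h
  refine ⟨?_, ?_, fun t u => tC t3 u t, ?_, fun t u => tC t4 u t, fun a b => tC t5 b a⟩
  · rcases hC with rfl | rfl <;> simp
  · intro t u
    have h1 := cO t1 u (-t)
    have h2 : xx 14 t * (xx β u * xx 14 (-t)) = xx β u * xx β' ((C : K) * t * u) := by
      rw [h1, ← mul_assoc, ← mul_assoc, xx_add, add_neg_cancel, xx_zero, one_mul]
      congr 2
      ring
    rw [← h2]
    group
  · intro t u
    have h1 := cO t2 u (-t)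
    have h2 : xx 9 t * (xx β' u * xx 9 (-t)) = xx β' u * xx β ((C : K) * t * u) := by
      rw [h1, ← mul_assoc, ← mul_assoc, xx_add, add_neg_cancel, xx_zero, one_mul]
      congr 2
      ring
    rw [← h2]
    group

theorem P18 : PairD (K := K) 18 19 ((1 : ℤ) : K) := pairD_of (by decide +kernel)
theorem P13 : PairD (K := K) 13 16 ((-1 : ℤ) : K) := pairD_of (by decide +kernel)
theorem P12 : PairD (K := K) 12 15 ((-1 : ℤ) : K) := pairD_of (by decide +kernel)
theorem P22 : PairD (K := K) 22 23 ((1 : ℤ) : K) := pairD_of (by decide +kernel)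

theorem sing17 : (∀ t u : K, Commute (xx 14 t) (xx 17 u)) ∧ (∀ t u : K, Commute (xx 9 t) (xx 17 u)) :=
  ⟨fun t u => tC (by decide +kernel) u t, fun t u => tC (by decide +kernel) u t⟩
theorem sing20 : (∀ t u : K, Commute (xx 14 t) (xx 20 u)) ∧ (∀ t u : K, Commute (xx 9 t) (xx 20 u)) :=
  ⟨fun t u => tC (by decide +kernel) u t, fun t u => tC (by decide +kernel) u t⟩
theorem sing21 : (∀ t u : K, Commute (xx 14 t) (xx 21 u)) ∧ (∀ t u : K, Commute (xx 9 t) (xx 21 u)) :=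
  ⟨fun t u => tC (by decide +kernel) u t, fun t u => tC (by decide +kernel) u t⟩

/-- The pairs and singletons of roots in the radical. -/
def pL : List (ℕ × ℕ) := [(18, 19), (13, 16), (12, 15), (22, 23), (17, 17), (20, 20), (21, 21)]

theorem pL_mem : ∀ p ∈ pL, p.1 ∈ qpL ∧ p.2 ∈ qpL := by decide +kernel

/-- The action on a root element of the radical. -/
theorem conj_all (f : K ≃+* K) (S : SpecialLinearGroup (Fin 2) K) (c : Kˣ) {r : ℕ} (hr : r ∈ qpL) (a : K) :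
    ∃ p ∈ pL, ∃ A B : K, (r = p.1 ∨ r = p.2) ∧ XX f S c * xx r a * (XX f S c)⁻¹ = xx p.1 A * xx p.2 B := by
  have hpair : ∀ {β β' : ℕ} {ε : K}, PairD β β' ε → β < chevD4.nroots → β' < chevD4.nroots →
      (∃ A B : K, XX f S c * xx β a * (XX f S c)⁻¹ = xx β A * xx β' B) ∧
      (∃ A B : K, XX f S c * xx β' a * (XX f S c)⁻¹ = xx β A * xx β' B) := by
    intro β β' ε P h1 h2
    have t1 := XX_pair f S c P h1 h2 a 0
    rw [xx_zero, mul_one] at t1
    have t2 := XX_pair f S c P h1 h2 0 a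
    rw [xx_zero, one_mul] at t2
    exact ⟨⟨_, _, t1⟩, ⟨_, _, t2⟩⟩
  have hsing : ∀ {r : ℕ}, r < chevD4.nroots → (∀ t u : K, Commute (xx 14 t) (xx r u)) → (∀ t u : K, Commute (xx 9 t) (xx r u)) →
      ∃ A B : K, XX f S c * xx r a * (XX f S c)⁻¹ = xx r A * xx r B := by
    intro r h0 h1 h2
    exact ⟨chiV f c r * a, 0, by rw [XX_single f S c h0 h1 h2, xx_zero, mul_one]⟩
  have lt : ∀ r ∈ qpL, r < chevD4.nroots := fun r hr => Qp_lt r hr
  simp only [qpL, List.mem_cons, List.not_mem_nil, or_false] at hr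
  have m1 : ((18 : ℕ), (19 : ℕ)) ∈ pL := by decide
  have m2 : ((13 : ℕ), (16 : ℕ)) ∈ pL := by decide
  have m3 : ((12 : ℕ), (15 : ℕ)) ∈ pL := by decide
  have m4 : ((22 : ℕ), (23 : ℕ)) ∈ pL := by decide
  have m5 : ((17 : ℕ), (17 : ℕ)) ∈ pL := by decide
  have m6 : ((20 : ℕ), (20 : ℕ)) ∈ pL := by decide
  have m7 : ((21 : ℕ), (21 : ℕ)) ∈ pL := by decide
  have l1 : 18 < chevD4.nroots := by decide +kernel
  have l2 : 19 < chevD4.nroots := by decide +kernel
  have l3 : 13 < chevD4.nroots := by decide +kernel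
  have l4 : 16 < chevD4.nroots := by decide +kernel
  have l5 : 12 < chevD4.nroots := by decide +kernel
  have l6 : 15 < chevD4.nroots := by decide +kernel
  have l7 : 22 < chevD4.nroots := by decide +kernel
  have l8 : 23 < chevD4.nroots := by decide +kernel
  have l9 : 17 < chevD4.nroots := by decide +kernel
  have l10 : 20 < chevD4.nroots := by decide +kernel
  have l11 : 21 < chevD4.nroots := by decide +kernel
  rcases hr with rfl | rfl | rfl | rfl | rfl | rfl | rfl | rfl | rfl | rfl | rfl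
  · obtain ⟨A, B, h⟩ := (hpair P12 l5 l6).1
    exact ⟨_, m3, A, B, Or.inl rfl, h⟩
  · obtain ⟨A, B, h⟩ := (hpair P13 l3 l4).1
    exact ⟨_, m2, A, B, Or.inl rfl, h⟩
  · obtain ⟨A, B, h⟩ := (hpair P12 l5 l6).2
    exact ⟨_, m3, A, B, Or.inr rfl, h⟩
  · obtain ⟨A, B, h⟩ := (hpair P13 l3 l4).2
    exact ⟨_, m2, A, B, Or.inr rfl, h⟩
  · obtain ⟨A, B, h⟩ := hsing l9 sing17.1 sing17.2
    exact ⟨_, m5, A, B, Or.inl rfl, h⟩
  · obtain ⟨A, B, h⟩ := (hpair P18 l1 l2).1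
    exact ⟨_, m1, A, B, Or.inl rfl, h⟩
  · obtain ⟨A, B, h⟩ := (hpair P18 l1 l2).2
    exact ⟨_, m1, A, B, Or.inr rfl, h⟩
  · obtain ⟨A, B, h⟩ := hsing l10 sing20.1 sing20.2
    exact ⟨_, m6, A, B, Or.inl rfl, h⟩
  · obtain ⟨A, B, h⟩ := hsing l11 sing21.1 sing21.2
    exact ⟨_, m7, A, B, Or.inl rfl, h⟩
  · obtain ⟨A, B, h⟩ := (hpair P22 l7 l8).1
    exact ⟨_, m4, A, B, Or.inl rfl, h⟩
  · obtain ⟨A, B, h⟩ := (hpair P22 l7 l8).2
    exact ⟨_, m4, A, B, Or.inr rfl, h⟩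

theorem psiB_norm_p (S : SpecialLinearGroup (Fin 2) K) : psiB S ∈ Subgroup.normalizer (QU K : Set (GL chevD4.Idx K)) := by
  have hS := mem_closure_elementary S
  induction hS using Subgroup.closure_induction with
  | mem g hg =>
    rcases hg with ⟨t, rfl⟩ | ⟨t, rfl⟩
    · rw [psiB_x0]; exact x14_norm_p t
    · rw [psiB_y0]; exact x9_norm_p t
  | one => rw [map_one]; exact Subgroup.one_mem _
  | mul a b _ _ h3 h4 =>
    rw [map_mul]
    exact Subgroup.mul_mem _ h3 h4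
  | inv a _ h3 =>
    rw [map_inv]
    exact Subgroup.inv_mem _ h3

theorem XX_norm_p (f : K ≃+* K) (S : SpecialLinearGroup (Fin 2) K) (c : Kˣ) :
    XX f S c ∈ Subgroup.normalizer (QU K : Set (GL chevD4.Idx K)) :=
  Subgroup.mul_mem _ (psiB_norm_p S) (hc_norm_p f c)

theorem XX_conj_mem (f : K ≃+* K) (S : SpecialLinearGroup (Fin 2) K) (c : Kˣ) {g : GL chevD4.Idx K} (hg : g ∈ QU K) :
    XX f S c * g * (XX f S c)⁻¹ ∈ QU K :=
  (Subgroup.mem_normalizer_iff.1 (XX_norm_p f S c) g).1 hg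

/-- A coordinate pair is equivariant. -/
theorem pair_equiv (f : K ≃+* K) (S : SpecialLinearGroup (Fin 2) K) (c : Kˣ) {β β' : ℕ} {ε : K} (P : PairD β β' ε)
    (hβ : β ∈ qpL) (hβ' : β' ∈ qpL) (hp : (β, β') ∈ pL) {row₁ col₁ row₂ col₂ : Fin 24} (C₁ : Crd row₁ col₁) (C₂ : Crd row₂ col₂)
    {e₁ e₂ : ℤ} (he₁ : e₁ = 1 ∨ e₁ = -1) (he₂ : e₂ = 1 ∨ e₂ = -1)
    (h₁ : eE row₁ col₁ β = e₁) (h₂ : eE row₁ col₁ β' = 0) (h₃ : eE row₂ col₂ β = 0) (h₄ : eE row₂ col₂ β' = e₂)
    (hoth : ∀ p ∈ pL, p ≠ (β, β') → eE row₁ col₁ p.1 = 0 ∧ eE row₁ col₁ p.2 = 0 ∧ eE row₂ col₂ p.1 = 0 ∧ eE row₂ col₂ p.2 = 0)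
    {g : GL chevD4.Idx K} (hg : g ∈ QU K) :
    ((e₁ : K) * cd row₁ col₁ (XX f S c * g * (XX f S c)⁻¹) = S.1 1 1 * (chiV f c β * ((e₁ : K) * cd row₁ col₁ g)) +
        ε * S.1 1 0 * (chiV f c β' * ((e₂ : K) * cd row₂ col₂ g))) ∧
    ((e₂ : K) * cd row₂ col₂ (XX f S c * g * (XX f S c)⁻¹) = ε * S.1 0 1 * (chiV f c β * ((e₁ : K) * cd row₁ col₁ g)) +
        S.1 0 0 * (chiV f c β' * ((e₂ : K) * cd row₂ col₂ g))) := by
  have hl₁ : β < chevD4.nroots := Qp_lt _ hβ
  have hl₂ : β' < chevD4.nroots := Qp_lt _ hβ'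
  have h11 : ((e₁ : K)) * (e₁ : K) = 1 := by rcases he₁ with rfl | rfl <;> simp
  have h22 : ((e₂ : K)) * (e₂ : K) = 1 := by rcases he₂ with rfl | rfl <;> simp
  refine rc_ind (Q := Qp) (P := fun g => ((e₁ : K) * cd row₁ col₁ (XX f S c * g * (XX f S c)⁻¹) = S.1 1 1 * (chiV f c β * ((e₁ : K) * cd row₁ col₁ g)) +
        ε * S.1 1 0 * (chiV f c β' * ((e₂ : K) * cd row₂ col₂ g))) ∧
    ((e₂ : K) * cd row₂ col₂ (XX f S c * g * (XX f S c)⁻¹) = ε * S.1 0 1 * (chiV f c β * ((e₁ : K) * cd row₁ col₁ g)) +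
        S.1 0 0 * (chiV f c β' * ((e₂ : K) * cd row₂ col₂ g)))) ?_ ?_ hg
  · simp [cd_one C₁.hne, cd_one C₂.hne]
  · intro x hx r hr a ih
    have e : XX f S c * (x * xx r a) * (XX f S c)⁻¹ =
        (XX f S c * x * (XX f S c)⁻¹) * (XX f S c * xx r a * (XX f S c)⁻¹) := by
      group
    have hm1 := XX_conj_mem f S c hx
    have hm2 := XX_conj_mem f S c (xx_mem_QU hr a)
    have hrm := xx_mem_QU (K := K) hr a
    rw [e, C₁.add hm1 hm2, C₂.add hm1 hm2, C₁.add hx hrm, C₂.add hx hrm]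
    obtain ⟨ih1, ih2⟩ := ih
    by_cases hrβ : r = β
    · subst hrβ
      have h5 := XX_pair f S c P hl₁ hl₂ a 0
      rw [xx_zero, mul_one] at h5
      rw [h5, C₁.two hβ hβ', C₂.two hβ hβ', C₁.x hβ, C₂.x hβ, h₁, h₂, h₃, h₄]
      constructor
      · push_cast
        linear_combination ih1
      · push_cast
        linear_combination ih2 + (ε * S.1 0 1 * (chiV f c r * a)) * (h22 - h11)
    · by_cases hrβ' : r = β'
      · subst hrβ'
        have h5 := XX_pair f S c P hl₁ hl₂ 0 a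
        rw [xx_zero, one_mul] at h5
        rw [h5, C₁.two hβ hβ', C₂.two hβ hβ', C₁.x hβ', C₂.x hβ', h₁, h₂, h₃, h₄]
        constructor
        · push_cast
          linear_combination ih1 + (ε * S.1 1 0 * (chiV f c r * a)) * (h11 - h22)
        · push_cast
          linear_combination ih2
      · obtain ⟨p, hp', A, B, hrp, h5⟩ := conj_all f S c hr a
        have hpne : p ≠ (β, β') := by
          rintro rfl
          rcases hrp with h6 | h6
          · exact hrβ h6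
          · exact hrβ' h6
        obtain ⟨o1, o2, o3, o4⟩ := hoth p hp' hpne
        obtain ⟨hm3, hm4⟩ := pL_mem p hp'
        have o5 : eE row₁ col₁ r = 0 := by rcases hrp with h6 | h6 <;> rw [h6] <;> assumption
        have o6 : eE row₂ col₂ r = 0 := by rcases hrp with h6 | h6 <;> rw [h6] <;> assumption
        rw [h5, C₁.two hm3 hm4, C₂.two hm3 hm4, C₁.x hr, C₂.x hr, o1, o2, o3, o4, o5, o6]
        constructor
        · push_cast
          linear_combination ih1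
        · push_cast
          linear_combination ih2


/-- The fixed coordinates of a pair vanish. -/
theorem pair_zero (f : K ≃+* K) (S : SpecialLinearGroup (Fin 2) K) (c : Kˣ)
    (hP : ∀ y : K, y ^ 2 - (S.1 0 0 + S.1 1 1 * ((nmU f c : Kˣ) : K)) * y + ((nmU f c : Kˣ) : K) ≠ 0)
    {β β' : ℕ} {ε : K} (P : PairD β β' ε)
    (hβ : β ∈ qpL) (hβ' : β' ∈ qpL) (hp : (β, β') ∈ pL) {row₁ col₁ row₂ col₂ : Fin 24} (C₁ : Crd row₁ col₁) (C₂ : Crd row₂ col₂)
    {e₁ e₂ : ℤ} (he₁ : e₁ = 1 ∨ e₁ = -1) (he₂ : e₂ = 1 ∨ e₂ = -1)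
    (h₁ : eE row₁ col₁ β = e₁) (h₂ : eE row₁ col₁ β' = 0) (h₃ : eE row₂ col₂ β = 0) (h₄ : eE row₂ col₂ β' = e₂)
    (hoth : ∀ p ∈ pL, p ≠ (β, β') → eE row₁ col₁ p.1 = 0 ∧ eE row₁ col₁ p.2 = 0 ∧ eE row₂ col₂ p.1 = 0 ∧ eE row₂ col₂ p.2 = 0)
    (hχ : chevD4.cartan 0 β' = chevD4.cartan 0 β - 1 ∧
      chevD4.cartan 2 β' = chevD4.cartan 2 β - 1 ∧ chevD4.cartan 3 β' = chevD4.cartan 3 β - 1)
    {g : GL chevD4.Idx K} (hg : g ∈ QU K) (hfix : XX f S c * g * (XX f S c)⁻¹ = g) :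
    cd row₁ col₁ g = 0 ∧ cd row₂ col₂ g = 0 := by
  obtain ⟨a1, a2⟩ := pair_equiv f S c P hβ hβ' hp C₁ C₂ he₁ he₂ h₁ h₂ h₃ h₄ hoth hg
  rw [hfix, chiV_pair f c hχ] at a1 a2
  obtain ⟨z1, z2⟩ := eigen2 (p := S.1 0 0) (q := S.1 0 1) (r := S.1 1 0) (s := S.1 1 1) (det_eq S) P.hε
    (chiV_ne f c β) (Units.ne_zero (nmU f c)) hP a1 a2
  have e1 : (e₁ : K) ≠ 0 := by rcases he₁ with rfl | rfl <;> simp
  have e2 : (e₂ : K) ≠ 0 := by rcases he₂ with rfl | rfl <;> simp
  exact ⟨(mul_eq_zero.1 z1).resolve_left e1, (mul_eq_zero.1 z2).resolve_left e2⟩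

theorem wL_mem_rc {Q : ℕ → Prop} {L : List ℕ} (hL : ∀ s ∈ L, Q s) (t : ℕ → K) :
    hF.wL L t ∈ Full.rootClosure chevD4 K Q := by
  induction L with
  | nil => simp [Full.wL, Checks.wordG_nil, Subgroup.one_mem]
  | cons a L ih =>
    have e : hF.wL (a :: L) t = xx a (t a) * hF.wL L t := by simp [Full.wL, Checks.wordG_cons]
    rw [e]
    exact Subgroup.mul_mem _ (hF.xG_mem_rootClosure (hL a (by simp)) _) (ih fun s hs => hL s (by simp [hs]))

theorem cd_wordL (w : ℕ → ℤ) (Q : ℕ → Prop) (hQ : ∀ s, Q s → s < chevD4.nroots ∧ 1 ≤ RootD4T.R.lin chevD4.rank w s)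
    {row col : Fin 24} (hne : row ≠ col) (h : RootD4T.R.lin chevD4.rank w row = RootD4T.R.lin chevD4.rank w col + 1)
    (hlin : ∀ s, Q s → ∀ e ∈ rawEx chevD4 s (ee col), e.2.2 = 1) (t : ℕ → K) {L : List ℕ} (hL : ∀ s ∈ L, Q s) :
    cd row col (hF.wL L t) = (L.map fun s => ((eE row col s : ℤ) : K) * t s).sum := by
  induction L with
  | nil => simp [Full.wL, Checks.wordG_nil, cd_one hne]
  | cons a L ih =>
    have e : hF.wL (a :: L) t = xx a (t a) * hF.wL L t := by simp [Full.wL, Checks.wordG_cons]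
    have ha : Q a := hL a (by simp)
    have hL' : ∀ s ∈ L, Q s := fun s hs => hL s (by simp [hs])
    rw [e, cd_add_gen w Q hQ h (hF.xG_mem_rootClosure ha _) (wL_mem_rc hL' t), cd_xx (hQ a ha).1 hne (hlin a ha),
      ih hL']
    simp

theorem list_sum_single (w : ℕ → K) {L : List ℕ} (hnd : L.Nodup) {b : ℕ} (hb : b ∈ L)
    (h0 : ∀ s ∈ L, s ≠ b → w s = 0) : (L.map w).sum = w b := by
  induction L with
  | nil => simp at hb
  | cons a L ih =>
    simp only [List.map_cons, List.sum_cons]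
    rw [List.nodup_cons] at hnd
    by_cases hab : a = b
    · subst hab
      have : (L.map w).sum = 0 := List.sum_eq_zero (by
        intro x hx
        obtain ⟨s, hs, rfl⟩ := List.mem_map.1 hx
        exact h0 s (by simp [hs]) (fun h => hnd.1 (h ▸ hs)))
      rw [this, add_zero]
    · have hb' : b ∈ L := (List.mem_cons.1 hb).resolve_left (Ne.symm hab)
      rw [h0 a (by simp) hab, zero_add]
      exact ih hnd.2 hb' (fun s hs hne => h0 s (by simp [hs]) hne)

/-- Reading a parameter off a coordinate. -/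
theorem cd_single (w : ℕ → ℤ) (Q : ℕ → Prop) (hQ : ∀ s, Q s → s < chevD4.nroots ∧ 1 ≤ RootD4T.R.lin chevD4.rank w s)
    {row col : Fin 24} (hne : row ≠ col) (h : RootD4T.R.lin chevD4.rank w row = RootD4T.R.lin chevD4.rank w col + 1)
    (hlin : ∀ s, Q s → ∀ e ∈ rawEx chevD4 s (ee col), e.2.2 = 1) (t : ℕ → K) {L : List ℕ} (hL : ∀ s ∈ L, Q s)
    (hnd : L.Nodup) {b : ℕ} (hb : b ∈ L) (h0 : ∀ s ∈ L, s ≠ b → eE row col s = 0)
    (he : eE row col b = 1 ∨ eE row col b = -1) (hz : cd row col (hF.wL L t) = 0) : t b = 0 := by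
  rw [cd_wordL w Q hQ hne h hlin t hL, list_sum_single (fun s => ((eE row col s : ℤ) : K) * t s) hnd hb
    (fun s hs hsb => by simp [h0 s hs hsb])] at hz
  have h1 : ((eE row col b : ℤ) : K) ≠ 0 := by rcases he with e | e <;> rw [e] <;> simp
  exact (mul_eq_zero.1 hz).resolve_left h1

theorem Crd.single {row col : Fin 24} (C : Crd row col) (t : ℕ → K) {b : ℕ} (hb : b ∈ qpL)
    (h0 : ∀ s ∈ qpL, s ≠ b → eE row col s = 0) (he : eE row col b = 1 ∨ eE row col b = -1)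
    (hz : cd row col (hF.wL qpL t) = 0) : t b = 0 :=
  cd_single aL Qp Qp_lin C.hne C.hl (fun s hs => C.hlin s hs) t (fun s hs => hs) (by decide) hb h0 he hz

/-- All positive roots from the start of the radical. -/
def bigL : List ℕ := [12, 13, 14, 15, 16, 17, 18, 19, 20, 21, 22, 23]

theorem QU_le_Uk : QU K ≤ Full.Uk chevD4 K 12 := by
  unfold QU Full.Uk Full.rootClosure
  apply Subgroup.closure_mono
  rintro g ⟨s, t, hs, hg⟩
  refine ⟨s, t, ⟨?_, Qp_lt s hs⟩, hg⟩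
  have : ∀ s ∈ qpL, 12 ≤ s := by decide
  exact this s hs

theorem exists_wL {g : GL chevD4.Idx K} (hg : g ∈ QU K) : ∃ t : ℕ → K, g = hF.wL bigL t := by
  obtain ⟨t, ht⟩ := hF.exists_ordW 12 12 (by decide +kernel) (by decide +kernel) g (QU_le_Uk hg)
  refine ⟨t, ?_⟩
  rw [ht]
  unfold Full.ordW Full.wL
  have : List.range' 12 (chevD4.nroots - 12) = bigL := by decide +kernel
  rw [this]

/-- The positive roots of the list. -/
def Qh (s : ℕ) : Prop := s ∈ bigL

theorem Qh_lin : ∀ s, Qh s → s < chevD4.nroots ∧ 1 ≤ RootD4T.R.lin chevD4.rank aH s := by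
  intro s hs
  have : ∀ s ∈ bigL, s < chevD4.nroots ∧ 1 ≤ RootD4T.R.lin chevD4.rank aH s := by decide +kernel
  exact this s hs

theorem QU_le_Qh : QU K ≤ Full.rootClosure chevD4 K Qh := by
  unfold QU Full.rootClosure
  apply Subgroup.closure_mono
  rintro g ⟨s, t, hs, hg⟩
  refine ⟨s, t, ?_, hg⟩
  have : ∀ s ∈ qpL, s ∈ bigL := by decide
  exact this s hs

theorem lin1918 : RootD4T.R.lin chevD4.rank aH (19 : Fin 24) = RootD4T.R.lin chevD4.rank aH (18 : Fin 24) + 1 := by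
  decide +kernel

theorem hlin18 : ∀ s, Qh s → ∀ e ∈ rawEx chevD4 s (ee 18), e.2.2 = 1 := by
  intro s hs
  have : ∀ s ∈ bigL, ∀ e ∈ rawEx chevD4 s (ee 18), e.2.2 = 1 := by decide +kernel
  exact this s hs

theorem coord14 {g : GL chevD4.Idx K} (hg : g ∈ QU K) : cd 19 18 g = 0 := by
  refine rc_ind (Q := Qp) (P := fun g => cd 19 18 g = 0) (cd_one (by decide)) ?_ hg
  intro x hx r hr a ih
  have h1 : ∀ s ∈ qpL, eE 19 18 s = 0 := by decide +kernel
  have hrr : Qh r := by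
    have : ∀ s ∈ qpL, s ∈ bigL := by decide
    exact this r hr
  rw [cd_add_gen aH Qh Qh_lin lin1918 (QU_le_Qh hx) (QU_le_Qh (xx_mem_QU hr a)), ih, zero_add,
    cd_xx (Qp_lt r hr) (by decide) (hlin18 r hrr) a, h1 r hr]
  simp

theorem five_inj {a b c d e a' b' c' d' e' : K}
    (h : xx 17 a * (xx 20 b * (xx 21 c * (xx 22 d * xx 23 e))) =
      xx 17 a' * (xx 20 b' * (xx 21 c' * (xx 22 d' * xx 23 e')))) :
    a = a' ∧ b = b' ∧ c = c' ∧ d = d' ∧ e = e' := by
  have hc : hF.CommL K [17, 20, 21, 22, 23] := by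
    apply Full.commL_of_nil
    · decide +kernel
    · decide +kernel
  have hL : ∀ r ∈ [17, 20, 21, 22, 23], RootD4T.R.N ≤ r ∧ r < chevD4.nroots := by decide +kernel
  have h1 := hF.wL_inj hc (by decide) hL
    (t := fun r => if r = 17 then a else if r = 20 then b else if r = 21 then c else if r = 22 then d else e)
    (t' := fun r => if r = 17 then a' else if r = 20 then b' else if r = 21 then c' else if r = 22 then d' else e')
    (by simpa [Full.wL, Checks.wordG_cons, Checks.wordG_nil] using h)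
  have h17 := h1 17 (by simp)
  have h20 := h1 20 (by simp)
  have h21 := h1 21 (by simp)
  have h22 := h1 22 (by simp)
  have h23 := h1 23 (by simp)
  simp at h17 h20 h21 h22 h23
  exact ⟨h17, h20, h21, h22, h23⟩

/-- The algebra behind the characters of level two. -/
theorem norm_alg (f : K ≃+* K) (hf3 : ∀ x, f (f (f x)) = x) {a : K} (ha : a ≠ 0) (h : f a * f (f a) = a) : a = 1 := by
  set b := f a with hb
  set d := f b with hd
  have hfd : f d = a := hf3 a
  have h2 : d * a = b := by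
    have := congrArg f h
    rwa [map_mul, ← hd, hfd] at this
  have hb0 : b ≠ 0 := (map_ne_zero f).2 ha
  have h3 : (d - 1) * (d + 1) = 0 := by
    apply (mul_eq_zero.1 _).resolve_left hb0
    linear_combination d * h + h2
  rcases mul_eq_zero.1 h3 with h4 | h4
  · have : d = 1 := by linear_combination h4
    rw [← hfd, this, map_one]
  · have h5 : d = -1 := by linear_combination h4
    have h6 : a = -1 := by rw [← hfd, h5, map_neg, map_one]
    have h7 : b = -1 := by rw [hb, h6, map_neg, map_one]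
    rw [h5, h6, h7] at h
    linear_combination (-1 : K) * h + h6

theorem chi_ne1 (f : K ≃+* K) (hf3 : ∀ x, f (f (f x)) = x) {a : Kˣ} (ha : a ≠ 1) :
    ((a⁻¹ * unitsF f a * unitsF f (unitsF f a) : Kˣ) : K) ≠ 1 := by
  intro h
  apply ha
  apply Units.ext
  rw [Units.val_one]
  apply norm_alg f hf3 a.ne_zero
  have h1 : ((a⁻¹ * unitsF f a * unitsF f (unitsF f a) : Kˣ) : K) = (a : K)⁻¹ * f a * f (f a) := by
    simp [unitsF]
  rw [h1] at h
  field_simp at h
  linear_combination h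

theorem unitsF_ne_one (f : K ≃+* K) {a : Kˣ} (ha : a ≠ 1) : unitsF f a ≠ 1 := by
  intro h
  apply ha
  apply Units.ext
  have h1 : f (a : K) = 1 := by
    have := congrArg (fun u : Kˣ => (u : K)) h
    simpa [unitsF] using this
  rw [Units.val_one]
  exact (map_eq_one_iff f f.injective).1 h1

theorem unitsF3' (f : K ≃+* K) (hf3 : ∀ x, f (f (f x)) = x) (a : Kˣ) : unitsF f (unitsF f (unitsF f a)) = a := by
  apply Units.ext
  simp [unitsF, hf3]

theorem chi17_ne (f : K ≃+* K) (hf3 : ∀ x, f (f (f x)) = x) {c : Kˣ} (hc : c ≠ 1) : chiV f c 17 ≠ 1 := by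
  have t : chevD4.cartan 0 17 = -1 ∧ chevD4.cartan 2 17 = 1 ∧ chevD4.cartan 3 17 = 1 := by decide +kernel
  unfold chiV
  rw [t.1, t.2.1, t.2.2]
  simpa using chi_ne1 f hf3 hc

theorem chi20_ne (f : K ≃+* K) (hf3 : ∀ x, f (f (f x)) = x) {c : Kˣ} (hc : c ≠ 1) : chiV f c 20 ≠ 1 := by
  have t : chevD4.cartan 0 20 = 1 ∧ chevD4.cartan 2 20 = -1 ∧ chevD4.cartan 3 20 = 1 := by decide +kernel
  unfold chiV
  rw [t.1, t.2.1, t.2.2]
  have h := chi_ne1 f hf3 (unitsF_ne_one f hc)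
  rw [unitsF3' f hf3] at h
  have e : (c ^ (1 : ℤ) * (unitsF f c) ^ (-1 : ℤ) * (unitsF f (unitsF f c)) ^ (1 : ℤ) : Kˣ) =
      (unitsF f c)⁻¹ * unitsF f (unitsF f c) * c := by
    simp only [zpow_one, _root_.zpow_neg_one]
    simp only [mul_comm, mul_left_comm, mul_assoc]
  rwa [e]

theorem chi21_ne (f : K ≃+* K) (hf3 : ∀ x, f (f (f x)) = x) {c : Kˣ} (hc : c ≠ 1) : chiV f c 21 ≠ 1 := by
  have t : chevD4.cartan 0 21 = 1 ∧ chevD4.cartan 2 21 = 1 ∧ chevD4.cartan 3 21 = -1 := by decide +kernel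
  unfold chiV
  rw [t.1, t.2.1, t.2.2]
  have h := chi_ne1 f hf3 (unitsF_ne_one f (unitsF_ne_one f hc))
  rw [unitsF3' f hf3] at h
  have e : (c ^ (1 : ℤ) * (unitsF f c) ^ (1 : ℤ) * (unitsF f (unitsF f c)) ^ (-1 : ℤ) : Kˣ) =
      (unitsF f (unitsF f c))⁻¹ * c * unitsF f c := by
    simp only [zpow_one, _root_.zpow_neg_one]
    simp only [mul_comm, mul_left_comm, mul_assoc]
  rwa [e]

/-- The elements with a nontrivial character act without fixed points on the upper radical. -/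
theorem fix_p (f : K ≃+* K) (hf3 : ∀ x, f (f (f x)) = x) (S : SpecialLinearGroup (Fin 2) K) (c : Kˣ) (hc : c ≠ 1)
    (hP : ∀ y : K, y ^ 2 - (S.1 0 0 + S.1 1 1 * ((nmU f c : Kˣ) : K)) * y + ((nmU f c : Kˣ) : K) ≠ 0)
    {g : GL chevD4.Idx K} (hg : g ∈ QU K) (hfix : XX f S c * g * (XX f S c)⁻¹ = g) : g = 1 := by
  obtain ⟨z1, z2⟩ := pair_zero f S c hP P18 (by decide) (by decide) (by decide) crd1914 crd189
    (e₁ := eE 19 14 18) (e₂ := eE 18 9 19)
    (by decide +kernel) (by decide +kernel) rfl (by decide +kernel) (by decide +kernel) rfl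
    (by decide +kernel) (by decide +kernel) hg hfix
  obtain ⟨z3, z4⟩ := pair_zero f S c hP P13 (by decide) (by decide) (by decide) crd1614 crd139
    (e₁ := eE 16 14 13) (e₂ := eE 13 9 16)
    (by decide +kernel) (by decide +kernel) rfl (by decide +kernel) (by decide +kernel) rfl
    (by decide +kernel) (by decide +kernel) hg hfix
  obtain ⟨z5, z6⟩ := pair_zero f S c hP P12 (by decide) (by decide) (by decide) crd1514 crd129
    (e₁ := eE 15 14 12) (e₂ := eE 12 9 15)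
    (by decide +kernel) (by decide +kernel) rfl (by decide +kernel) (by decide +kernel) rfl
    (by decide +kernel) (by decide +kernel) hg hfix
  have z0 := coord14 hg
  obtain ⟨t, rfl⟩ := exists_wL hg
  have h14 : t 14 = 0 := by
    refine cd_single aH Qh Qh_lin (by decide) lin1918 hlin18 t (fun s hs => hs) (by decide) (b := 14) (by decide)
      (by decide +kernel) (by decide +kernel) z0
  have e : hF.wL bigL t = hF.wL qpL t := by
    simp [Full.wL, bigL, qpL, Checks.wordG_cons, Checks.wordG_nil, h14, xx_zero]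
  rw [e] at z1 z2 z3 z4 z5 z6 hfix ⊢
  have t18 : t 18 = 0 := crd1914.single t (by decide) (by decide +kernel) (by decide +kernel) z1
  have t19 : t 19 = 0 := crd189.single t (by decide) (by decide +kernel) (by decide +kernel) z2
  have t13 : t 13 = 0 := crd1614.single t (by decide) (by decide +kernel) (by decide +kernel) z3
  have t16 : t 16 = 0 := crd139.single t (by decide) (by decide +kernel) (by decide +kernel) z4
  have t12 : t 12 = 0 := crd1514.single t (by decide) (by decide +kernel) (by decide +kernel) z5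
  have t15 : t 15 = 0 := crd129.single t (by decide) (by decide +kernel) (by decide +kernel) z6
  have e2 : hF.wL qpL t = xx 17 (t 17) * (xx 20 (t 20) * (xx 21 (t 21) * (xx 22 (t 22) * xx 23 (t 23)))) := by
    simp [Full.wL, qpL, Checks.wordG_cons, Checks.wordG_nil, t18, t19, t13, t16, t12, t15, xx_zero]
  rw [e2] at hfix ⊢
  have e3 : XX f S c * (xx 17 (t 17) * (xx 20 (t 20) * (xx 21 (t 21) * (xx 22 (t 22) * xx 23 (t 23))))) * (XX f S c)⁻¹ =
      (XX f S c * xx 17 (t 17) * (XX f S c)⁻¹) * ((XX f S c * xx 20 (t 20) * (XX f S c)⁻¹) *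
        ((XX f S c * xx 21 (t 21) * (XX f S c)⁻¹) * (XX f S c * (xx 22 (t 22) * xx 23 (t 23)) * (XX f S c)⁻¹))) := by
    group
  rw [e3, XX_single f S c (by decide +kernel) sing17.1 sing17.2, XX_single f S c (by decide +kernel) sing20.1 sing20.2,
    XX_single f S c (by decide +kernel) sing21.1 sing21.2, XX_pair f S c P22 (by decide +kernel) (by decide +kernel)] at hfix
  obtain ⟨a1, a2, a3, a4, a5⟩ := five_inj hfix
  have hc1 : (chevD4.cartan 0 23 = chevD4.cartan 0 22 - 1 ∧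
      chevD4.cartan 2 23 = chevD4.cartan 2 22 - 1 ∧ chevD4.cartan 3 23 = chevD4.cartan 3 22 - 1) := by decide +kernel
  rw [chiV_pair f c hc1] at a4 a5
  obtain ⟨z7, z8⟩ := eigen2 (p := S.1 0 0) (q := S.1 0 1) (r := S.1 1 0) (s := S.1 1 1) (det_eq S) (P22 (K := K)).hε
    (chiV_ne f c 22) (Units.ne_zero (nmU f c)) hP a4.symm a5.symm
  have c17 : t 17 = 0 := by
    have h1 := chi17_ne f hf3 hc
    have h2 : (chiV f c 17 - 1) * t 17 = 0 := by linear_combination a1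
    exact (mul_eq_zero.1 h2).resolve_left (sub_ne_zero.2 h1)
  have c20 : t 20 = 0 := by
    have h1 := chi20_ne f hf3 hc
    have h2 : (chiV f c 20 - 1) * t 20 = 0 := by linear_combination a2
    exact (mul_eq_zero.1 h2).resolve_left (sub_ne_zero.2 h1)
  have c21 : t 21 = 0 := by
    have h1 := chi21_ne f hf3 hc
    have h2 : (chiV f c 21 - 1) * t 21 = 0 := by linear_combination a3
    exact (mul_eq_zero.1 h2).resolve_left (sub_ne_zero.2 h1)
  rw [c17, c20, c21, z7, z8]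
  simp [xx_zero]


/-! ### The opposite radical -/

/-- The longest element of the Weyl group. -/
noncomputable def w0 : GL chevD4.Idx K := wn [0, 2, 3, 1, 0, 2, 3, 1, 0, 2, 3, 1]

/-- The table of the longest element. -/
theorem w0_tab : ∀ r, r < 24 → (∀ i ∈ [0, 2, 3, 1, 0, 2, 3, 1, 0, 2, 3, 1], i < chevD4.rank) ∧ r < chevD4.nroots ∧
    wAct TabD4.X [0, 2, 3, 1, 0, 2, 3, 1, 0, 2, 3, 1] r = 23 - r ∧ etaW [0, 2, 3, 1, 0, 2, 3, 1, 0, 2, 3, 1] r = -1 := by
  decide +kernel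

theorem w0_x {r : ℕ} (hr : r < 24) (t : K) : w0 * xx r t * w0⁻¹ = xx (23 - r) (-t) := wcM (w0_tab r hr) t

theorem w0_inv_x {r : ℕ} (hr : r < 24) (t : K) : w0⁻¹ * xx (23 - r) t * w0 = xx r (-t) := wiM (w0_tab r hr) t

theorem w0_conj_mem {g : GL chevD4.Idx K} (hg : g ∈ QV K) : w0 * g * w0⁻¹ ∈ QU K := by
  refine rc_ind (Q := Qn) (P := fun g => w0 * g * w0⁻¹ ∈ QU K) ?_ ?_ hg
  · simp [Subgroup.one_mem]
  · intro x _ r hr a ih
    have e : w0 * (x * xx r a) * w0⁻¹ = (w0 * x * w0⁻¹) * (w0 * xx r a * w0⁻¹) := by group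
    have h1 : ∀ s ∈ qnL, s < 24 ∧ 23 - s ∈ qpL := by decide +kernel
    rw [e, w0_x (h1 r hr).1]
    exact Subgroup.mul_mem _ ih (xx_mem_QU (h1 r hr).2 _)

/-- Conjugation by the longest element agrees with that by `n_β` on the Levi `SL₂`. -/
theorem w0_psiB (S : SpecialLinearGroup (Fin 2) K) : w0 * psiB S * w0⁻¹ = psiB (n0 * S * n0⁻¹) := by
  have hS := mem_closure_elementary S
  rw [map_mul, map_mul, map_inv, psiB_n0]
  have t1 : ∀ t : K, w0 * xx 14 t * w0⁻¹ = wn [1] * xx 14 t * (wn [1])⁻¹ := by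
    intro t
    rw [w0_x (by decide), wcM (L := [1]) (r := 14) (r' := 9) (by decide +kernel)]
  have t2 : ∀ t : K, w0 * xx 9 t * w0⁻¹ = wn [1] * xx 9 t * (wn [1])⁻¹ := by
    intro t
    rw [w0_x (by decide), wcM (L := [1]) (r := 9) (r' := 14) (by decide +kernel)]
  induction hS using Subgroup.closure_induction with
  | mem g hg =>
    rcases hg with ⟨t, rfl⟩ | ⟨t, rfl⟩
    · rw [psiB_x0]; exact t1 t
    · rw [psiB_y0]; exact t2 t
  | one => simp
  | mul a b _ _ h3 h4 =>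
    have e1 : w0 * (psiB a * psiB b) * w0⁻¹ = (w0 * psiB a * w0⁻¹) * (w0 * psiB b * w0⁻¹) := by group
    have e2 : wn [1] * (psiB a * psiB b) * (wn [1])⁻¹ = (wn [1] * psiB a * (wn [1])⁻¹) * (wn [1] * psiB b * (wn [1])⁻¹) := by group
    rw [map_mul, e1, e2, h3, h4]
  | inv a _ h3 =>
    have e1 : w0 * (psiB a)⁻¹ * w0⁻¹ = (w0 * psiB a * w0⁻¹)⁻¹ := by group
    have e2 : wn [1] * (psiB a)⁻¹ * (wn [1])⁻¹ = (wn [1] * psiB a * (wn [1])⁻¹)⁻¹ := by group
    rw [map_inv, e1, e2, h3]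

theorem w0_mem_mono : (w0 : GL chevD4.Idx K) ∈ chevD4.monomialSubgroup K :=
  hF.wordN_mem_monomial _ (by decide +kernel)

theorem chiV_neg (f : K ≃+* K) (c : Kˣ) {s : ℕ} (hs : s < 24) : chiV f c (23 - s) = chiV f c⁻¹ s := by
  have h1 : ∀ s, s < 24 → chevD4.cartan 0 (23 - s) = - chevD4.cartan 0 s ∧ chevD4.cartan 2 (23 - s) = - chevD4.cartan 2 s ∧
      chevD4.cartan 3 (23 - s) = - chevD4.cartan 3 s := by decide +kernel
  obtain ⟨a, b, d⟩ := h1 s hs
  unfold chiV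
  rw [a, b, d, _root_.zpow_neg, _root_.zpow_neg, _root_.zpow_neg, map_inv, map_inv, _root_.inv_zpow, _root_.inv_zpow,
    _root_.inv_zpow]

/-- The longest element inverts the torus. -/
theorem w0_hc (f : K ≃+* K) (c : Kˣ) : w0 * hc f c * w0⁻¹ = hc f c⁻¹ := by
  have hN : (w0 : GL chevD4.Idx K) ∈ chevD4.monomialSubgroup K := w0_mem_mono
  have hH : w0 * hc f c * w0⁻¹ ∈ chevD4.diagonalSubgroup K := by
    have := hF.diagonal_normal (F := K)
    have hd := hc_mem_diagonal f c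
    have h3 := this.conj_mem ⟨hc f c, hF.c.diagonal_le_monomial hd⟩ (Subgroup.mem_subgroupOf.2 hd) ⟨_, hN⟩
    exact Subgroup.mem_subgroupOf.1 h3
  obtain ⟨c', hc'⟩ := (hF.mem_diagonal_iff).1 hH
  rw [hc', hc, hF.tor_eq, hF.tor_eq]
  apply diagG_congr
  intro s hs
  have hs24 : s < 24 := by
    have : chevD4.nroots = 24 := by decide +kernel
    omega
  have h1 := hF.tor_conj_xG c' hs (1 : K)
  rw [← hc'] at h1
  have h2 : (w0 * hc f c * w0⁻¹) * xx s (1 : K) * (w0 * hc f c * w0⁻¹)⁻¹ = xx s (chiV f c (23 - s)) := by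
    have e : (w0 * hc f c * w0⁻¹) * xx s (1 : K) * (w0 * hc f c * w0⁻¹)⁻¹ =
        w0 * (hc f c * (w0⁻¹ * xx s (1 : K) * w0) * (hc f c)⁻¹) * w0⁻¹ := by group
    have hs' : 23 - (23 - s) = s := by omega
    have h3 : w0⁻¹ * xx s (1 : K) * w0 = xx (23 - s) (-1) := by
      have := w0_inv_x (K := K) (r := 23 - s) (by omega) 1
      rwa [hs'] at this
    rw [e, h3, hc_conj' f c (by have : chevD4.nroots = 24 := by decide +kernel
                                omega), w0_x (by omega), hs']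
    congr 1
    ring
  have h4 := hF.xG_param_inj hs (h1.symm.trans h2)
  rw [mul_one] at h4
  apply Units.ext
  rw [h4, chiV_neg f c hs24, chiT_expand]
  simp [cU, chiV]

/-- The elements with a nontrivial character act without fixed points on the lower radical. -/
theorem fix_n (f : K ≃+* K) (hf3 : ∀ x, f (f (f x)) = x) (S : SpecialLinearGroup (Fin 2) K) (c : Kˣ) (hc : c ≠ 1)
    (hP : ∀ y : K, y ^ 2 - (S.1 0 0 + S.1 1 1 * ((nmU f c : Kˣ) : K)) * y + ((nmU f c : Kˣ) : K) ≠ 0)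
    {g : GL chevD4.Idx K} (hg : g ∈ QV K) (hfix : XX f S c * g * (XX f S c)⁻¹ = g) : g = 1 := by
  have hX : w0 * XX f S c * w0⁻¹ = XX f (n0 * S * n0⁻¹) c⁻¹ := by
    have e : w0 * XX f S c * w0⁻¹ = (w0 * psiB S * w0⁻¹) * (w0 * Th3D4.hc f c * w0⁻¹) := by
      unfold XX
      group
    rw [e, w0_psiB, w0_hc]
    rfl
  have hc' : c⁻¹ ≠ 1 := by
    intro h
    exact hc (inv_eq_one.1 h)
  have n00 : (n0 : SpecialLinearGroup (Fin 2) K).1 0 0 = 0 := by simp [n0]
  have n01 : (n0 : SpecialLinearGroup (Fin 2) K).1 0 1 = 1 := by simp [n0]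
  have n10 : (n0 : SpecialLinearGroup (Fin 2) K).1 1 0 = -1 := by simp [n0]
  have n11 : (n0 : SpecialLinearGroup (Fin 2) K).1 1 1 = 0 := by simp [n0]
  have e00 : (n0 * S * n0⁻¹ : SpecialLinearGroup (Fin 2) K).1 0 0 = S.1 1 1 := by
    rw [mul_a, inv_a, inv_c, n0_mul_a, n0_mul_b, n11, n10]
    ring
  have e11 : (n0 * S * n0⁻¹ : SpecialLinearGroup (Fin 2) K).1 1 1 = S.1 0 0 := by
    rw [mul_d, inv_b, inv_d, n0_mul_c, n0_mul_d, n00, n01]
    ring
  have hμ : ((nmU f c : Kˣ) : K) ≠ 0 := Units.ne_zero _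
  have hP' : ∀ y : K, y ^ 2 - ((n0 * S * n0⁻¹ : SpecialLinearGroup (Fin 2) K).1 0 0 +
      (n0 * S * n0⁻¹ : SpecialLinearGroup (Fin 2) K).1 1 1 * ((nmU f c⁻¹ : Kˣ) : K)) * y + ((nmU f c⁻¹ : Kˣ) : K) ≠ 0 := by
    intro y h
    rw [e00, e11, nmU_inv, Units.val_inv_eq_inv_val] at h
    apply hP (((nmU f c : Kˣ) : K) * y)
    field_simp at h
    linear_combination ((nmU f c : Kˣ) : K) * h
  have h1 := fix_p f hf3 (n0 * S * n0⁻¹) c⁻¹ hc' hP' (w0_conj_mem hg) (by
    rw [← hX]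
    have e : w0 * XX f S c * w0⁻¹ * (w0 * g * w0⁻¹) * (w0 * XX f S c * w0⁻¹)⁻¹ =
        w0 * (XX f S c * g * (XX f S c)⁻¹) * w0⁻¹ := by group
    rw [e, hfix])
  have h2 : g = w0⁻¹ * (w0 * g * w0⁻¹) * w0 := by group
  rw [h2, h1]
  group

end Cfsg.Agent.Lib.Th3D4
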