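import Cfsg.Agent.Lib.Th3D4.Base

/-!
# The Levi subgroup and the unipotent radicals of the long root parabolic of `³D₄`
-/

set_option autoImplicit false
set_option linter.unusedSectionVars false
set_option linter.unusedVariables false
set_option linter.unusedSimpArgs false
set_option maxRecDepth 100000

namespace Cfsg.Agent.Lib.Th3D4

open Cfsg Cfsg.Lie Cfsg.Agent.Lib.Chev Cfsg.Agent.Lib.Chev.SL2 Matrix
open Cfsg.Agent.Lib.Chev.TwD4 (hF τ sc cU)
open Cfsg.Agent.Lib.ThG2 (toS toS_mul detU detU_mul detU_val E12 E21 dG E12_val E21_val dG_val detU_E12 detU_E21 detU_dG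
  toS_E12 toS_E21 toS_dG_one toS_dG_inv)

/-- A field with an automorphism of order dividing three and its fixed field. -/
structure Fr (K F : Type*) [Field K] [Field F] where
  /-- the automorphism -/
  f : K ≃+* K
  /-- the inclusion of the fixed field -/
  ι : F →+* K
  f3 : ∀ t, f (f (f t)) = t
  fix : ∀ a : F, f (ι a) = ι a
  surj : ∀ t : K, f t = t → ∃ a : F, ι a = t

variable {K F : Type*} [Field K] [Field F] [Fintype K] (D : Fr K F)

theorem Fr.f3' : ∀ t, (D.f)^[3] t = t := fun t => D.f3 t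

/-- The norm. -/
noncomputable def nmU (f : K ≃+* K) (c : Kˣ) : Kˣ := c * unitsF f c * unitsF f (unitsF f c)

theorem nmU_val (f : K ≃+* K) (c : Kˣ) : ((nmU f c : Kˣ) : K) = c * f c * f (f c) := rfl

theorem nmU_mul (f : K ≃+* K) (c d : Kˣ) : nmU f (c * d) = nmU f c * nmU f d := by
  apply Units.ext
  simp only [nmU_val, Units.val_mul, map_mul]
  ring

theorem nmU_one (f : K ≃+* K) : nmU f 1 = 1 := by
  apply Units.ext
  simp [nmU_val]

theorem nmU_inv (f : K ≃+* K) (c : Kˣ) : nmU f c⁻¹ = (nmU f c)⁻¹ := by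
  rw [eq_inv_iff_mul_eq_one, ← nmU_mul, inv_mul_cancel, nmU_one]

/-- The inclusion on units. -/
noncomputable def Fr.ιU : Fˣ →* Kˣ := Units.map (D.ι : F →* K)

@[simp] theorem Fr.ιU_val (a : Fˣ) : ((D.ιU a : Kˣ) : K) = D.ι a := rfl

/-- The Levi subgroup, as a group of pairs. -/
def LL : Subgroup (GL (Fin 2) F × Kˣ) where
  carrier := {p | D.ιU (detU p.1) = nmU D.f p.2}
  mul_mem' := by
    rintro ⟨a, c⟩ ⟨b, d⟩ h1 h2
    show D.ιU (detU (a * b)) = nmU D.f (c * d)
    have h1' : D.ιU (detU a) = nmU D.f c := h1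
    have h2' : D.ιU (detU b) = nmU D.f d := h2
    rw [detU_mul, map_mul, h1', h2', nmU_mul]
  one_mem' := by
    show D.ιU (detU 1) = nmU D.f 1
    rw [nmU_one]
    have : detU (1 : GL (Fin 2) F) = 1 := map_one _
    rw [this, map_one]
  inv_mem' := by
    rintro ⟨a, c⟩ h1
    show D.ιU (detU a⁻¹) = nmU D.f c⁻¹
    have h1' : D.ιU (detU a) = nmU D.f c := h1
    have : detU a⁻¹ = (detU a)⁻¹ := map_inv (Matrix.GeneralLinearGroup.det (n := Fin 2) (R := F)) a
    rw [this, map_inv, h1', nmU_inv]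

theorem LL_det (p : LL D) : D.ιU (detU p.1.1) = nmU D.f p.1.2 := p.2

/-- The `SL₂` of the fixed field. -/
noncomputable def psiF : SpecialLinearGroup (Fin 2) F →* GL chevD4.Idx K :=
  (psiB (K := K)).comp (SpecialLinearGroup.map D.ι)

theorem psiF_x0 (a : F) : psiF D (x0 a) = xx 14 (D.ι a) := by
  show psiB (SpecialLinearGroup.map D.ι (x0 a)) = _
  rw [map_x0, psiB_x0]

theorem psiF_y0 (a : F) : psiF D (y0 a) = xx 9 (D.ι a) := by
  show psiB (SpecialLinearGroup.map D.ι (y0 a)) = _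
  rw [map_y0, psiB_y0]

/-- The values of the characters. -/
theorem hc_conj14 (f : K ≃+* K) (c : Kˣ) (t : K) : hc f c * xx 14 t * (hc f c)⁻¹ = xx 14 ((((nmU f c)⁻¹ : Kˣ) : K) * t) := by
  rw [hc_conj f c (by decide +kernel)]
  have h0 : chevD4.cartan 0 14 = -1 ∧ chevD4.cartan 2 14 = -1 ∧ chevD4.cartan 3 14 = -1 := by decide +kernel
  rw [h0.1, h0.2.1, h0.2.2]
  congr 3
  simp only [_root_.zpow_neg_one, nmU, mul_inv]

theorem hc_conj9 (f : K ≃+* K) (c : Kˣ) (t : K) : hc f c * xx 9 t * (hc f c)⁻¹ = xx 9 (((nmU f c : Kˣ) : K) * t) := by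
  rw [hc_conj f c (by decide +kernel)]
  have h0 : chevD4.cartan 0 9 = 1 ∧ chevD4.cartan 2 9 = 1 ∧ chevD4.cartan 3 9 = 1 := by decide +kernel
  rw [h0.1, h0.2.1, h0.2.2]
  simp [nmU]

theorem hc_conj_psiF {d : Fˣ} {c : Kˣ} (h : D.ιU d = nmU D.f c) (S : SpecialLinearGroup (Fin 2) F) :
    hc D.f c * psiF D S * (hc D.f c)⁻¹ = psiF D (alpha d S) := by
  have hS := mem_closure_elementary S
  induction hS using Subgroup.closure_induction with
  | mem g hg =>
    rcases hg with ⟨t, rfl⟩ | ⟨t, rfl⟩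
    · rw [psiF_x0, hc_conj14, alpha_x0, psiF_x0, ← h, ← map_inv]
      congr 1
      simp [mul_comm]
    · rw [psiF_y0, hc_conj9, alpha_y0, psiF_y0, ← h]
      congr 1
      simp [mul_comm]
  | one => simp
  | mul a b _ _ h1 h2 =>
    rw [map_mul, map_mul, map_mul, ← h1, ← h2]
    group
  | inv a _ h1 =>
    rw [map_inv, map_inv, map_inv, ← h1]
    group

/-- The homomorphism from the Levi pairs. -/
noncomputable def phi : LL D →* GL chevD4.Idx K :=
  MonoidHom.mk' (fun p => psiF D (toS p.1.1) * hc D.f p.1.2) (by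
    intro p q
    show psiF D (toS (p.1.1 * q.1.1)) * hc D.f (p.1.2 * q.1.2) = _
    rw [toS_mul, map_mul, hc_mul, ← hc_conj_psiF D (LL_det D p)]
    group)

theorem phi_apply (p : LL D) : phi D p = psiF D (toS p.1.1) * hc D.f p.1.2 := rfl

/-- Elements of determinant one. -/
def lS (S : GL (Fin 2) F) (h : detU S = 1) : LL D :=
  ⟨(S, 1), by
    show D.ιU (detU S) = nmU D.f 1
    rw [h, nmU_one, map_one]⟩

/-- Diagonal elements. -/
noncomputable def lD (μ : Fˣ) (s : Kˣ) (h : D.ιU μ = nmU D.f s) : LL D :=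
  ⟨(dG 1 μ, s), by
    show D.ιU (detU (dG 1 μ)) = nmU D.f s
    rw [detU_dG, one_mul, h]⟩

/-- Elements over a given pair. -/
def lP (A : GL (Fin 2) F) (c : Kˣ) (h : D.ιU (detU A) = nmU D.f c) : LL D := ⟨(A, c), h⟩

theorem lS_mul (S S' : GL (Fin 2) F) (h : detU S = 1) (h' : detU S' = 1) (h'' : detU (S * S') = 1) :
    lS D S h * lS D S' h' = lS D (S * S') h'' := by
  apply Subtype.ext
  show (S * S', (1 : Kˣ) * 1) = (S * S', 1)
  rw [one_mul]

theorem lS_inv (S : GL (Fin 2) F) (h : detU S = 1) (h' : detU S⁻¹ = 1) : (lS D S h)⁻¹ = lS D S⁻¹ h' := by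
  apply Subtype.ext
  show (S⁻¹, (1 : Kˣ)⁻¹) = (S⁻¹, 1)
  rw [inv_one]

theorem phi_E12 (a : F) : phi D (lS D (E12 a) (detU_E12 a)) = xx 14 (D.ι a) := by
  rw [phi_apply]
  show psiF D (toS (E12 a)) * hc D.f 1 = _
  rw [toS_E12, psiF_x0, hc_one, mul_one]

theorem phi_E21 (a : F) : phi D (lS D (E21 a) (detU_E21 a)) = xx 9 (D.ι a) := by
  rw [phi_apply]
  show psiF D (toS (E21 a)) * hc D.f 1 = _
  rw [toS_E21, psiF_y0, hc_one, mul_one]

theorem phi_lD (μ : Fˣ) (s : Kˣ) (h : D.ιU μ = nmU D.f s) : phi D (lD D μ s h) = hc D.f s := by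
  rw [phi_apply]
  show psiF D (toS (dG 1 μ)) * hc D.f s = _
  rw [toS_dG_one, map_one, one_mul]

theorem phi_Mb : phi D (lS D Mb detU_Mb) = wn [1] := by
  have e : lS D (Mb : GL (Fin 2) F) detU_Mb = lS D (E12 1) (detU_E12 1) * lS D (E21 (-1)) (detU_E21 (-1)) * lS D (E12 1) (detU_E12 1) := by
    apply Subtype.ext
    show ((Mb : GL (Fin 2) F), (1 : Kˣ)) = (E12 1 * E21 (-1) * E12 1, (1 : Kˣ) * 1 * 1)
    simp [Mb]
  rw [e, map_mul, map_mul, phi_E12, phi_E21, map_one, map_neg, map_one, nb_eq]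
  show _ = hF.c.nG (chevD4.simple 1) 1
  rw [sim1, Checks.nG, neg14, inv_one]

/-! ### The radicals -/

/-- The roots of the unipotent radical. -/
def qpL : List ℕ := [12, 13, 15, 16, 17, 18, 19, 20, 21, 22, 23]
/-- The roots of the opposite unipotent radical. -/
def qnL : List ℕ := [11, 10, 8, 7, 6, 5, 4, 3, 2, 1, 0]

/-- The predicate of the unipotent radical. -/
def Qp (s : ℕ) : Prop := s ∈ qpL
/-- The predicate of the opposite unipotent radical. -/
def Qn (s : ℕ) : Prop := s ∈ qnL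

/-- The full unipotent radical. -/
abbrev QU (K : Type*) [Field K] := Full.rootClosure chevD4 K Qp
/-- The full opposite unipotent radical. -/
abbrev QV (K : Type*) [Field K] := Full.rootClosure chevD4 K Qn

theorem xx_mem_QU {s : ℕ} (hs : Qp s) (t : K) : xx s t ∈ QU K := hF.xG_mem_rootClosure hs t
theorem xx_mem_QV {s : ℕ} (hs : Qn s) (t : K) : xx s t ∈ QV K := hF.xG_mem_rootClosure hs t

theorem Qp_lt : ∀ s, Qp s → s < chevD4.nroots := by
  intro s hs
  have : ∀ s ∈ qpL, s < chevD4.nroots := by decide +kernel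
  exact this s hs
theorem Qn_lt : ∀ s, Qn s → s < chevD4.nroots := by
  intro s hs
  have : ∀ s ∈ qnL, s < chevD4.nroots := by decide +kernel
  exact this s hs

theorem term_p : ∀ r ∈ [14, 9], ∀ s ∈ qpL, s ≠ chevD4.neg r ∧ (s ≠ r → ∀ c ∈ chevD4.commTerms r s, c.1 ∈ qpL) := by
  decide +kernel
theorem term_n : ∀ r ∈ [14, 9], ∀ s ∈ qnL, s ≠ chevD4.neg r ∧ (s ≠ r → ∀ c ∈ chevD4.commTerms r s, c.1 ∈ qnL) := by
  decide +kernel

theorem x14_norm_p (t : K) : xx 14 t ∈ Subgroup.normalizer (QU K : Set (GL chevD4.Idx K)) :=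
  hF.xG_mem_normalizer (by decide +kernel) Qp (fun s hs => ⟨Qp_lt s hs, (term_p 14 (by simp) s hs).1⟩)
    (fun s hs => (term_p 14 (by simp) s hs).2) t
theorem x9_norm_p (t : K) : xx 9 t ∈ Subgroup.normalizer (QU K : Set (GL chevD4.Idx K)) :=
  hF.xG_mem_normalizer (by decide +kernel) Qp (fun s hs => ⟨Qp_lt s hs, (term_p 9 (by simp) s hs).1⟩)
    (fun s hs => (term_p 9 (by simp) s hs).2) t
theorem x14_norm_n (t : K) : xx 14 t ∈ Subgroup.normalizer (QV K : Set (GL chevD4.Idx K)) :=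
  hF.xG_mem_normalizer (by decide +kernel) Qn (fun s hs => ⟨Qn_lt s hs, (term_n 14 (by simp) s hs).1⟩)
    (fun s hs => (term_n 14 (by simp) s hs).2) t
theorem x9_norm_n (t : K) : xx 9 t ∈ Subgroup.normalizer (QV K : Set (GL chevD4.Idx K)) :=
  hF.xG_mem_normalizer (by decide +kernel) Qn (fun s hs => ⟨Qn_lt s hs, (term_n 9 (by simp) s hs).1⟩)
    (fun s hs => (term_n 9 (by simp) s hs).2) t

theorem hc_mem_diagonal (f : K ≃+* K) (c : Kˣ) : hc f c ∈ chevD4.diagonalSubgroup K := hF.tor_mem_diagonal _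

theorem hc_norm_p (f : K ≃+* K) (c : Kˣ) : hc f c ∈ Subgroup.normalizer (QU K : Set (GL chevD4.Idx K)) :=
  hF.diagonal_le_normalizer_closure Qp Qp_lt (hc_mem_diagonal f c)
theorem hc_norm_n (f : K ≃+* K) (c : Kˣ) : hc f c ∈ Subgroup.normalizer (QV K : Set (GL chevD4.Idx K)) :=
  hF.diagonal_le_normalizer_closure Qn Qn_lt (hc_mem_diagonal f c)

/-- Any subgroup containing the generators contains the image of the Levi. -/
theorem phi_mem_of {M : Subgroup (GL chevD4.Idx K)} (h14 : ∀ a : F, xx 14 (D.ι a) ∈ M) (h9 : ∀ a : F, xx 9 (D.ι a) ∈ M)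
    (hd : ∀ c : Kˣ, hc D.f c ∈ M) (p : LL D) : phi D p ∈ M := by
  rw [phi_apply]
  refine M.mul_mem ?_ (hd _)
  have key : ∀ S : SpecialLinearGroup (Fin 2) F, psiF D S ∈ M := by
    intro S
    have hS := mem_closure_elementary S
    induction hS using Subgroup.closure_induction with
    | mem g hg =>
      rcases hg with ⟨t, rfl⟩ | ⟨t, rfl⟩
      · rw [psiF_x0]; exact h14 t
      · rw [psiF_y0]; exact h9 t
    | one => rw [map_one]; exact M.one_mem
    | mul a b _ _ h1 h2 => rw [map_mul]; exact M.mul_mem h1 h2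
    | inv a _ h1 => rw [map_inv]; exact M.inv_mem h1
  exact key _

theorem phi_norm_p (p : LL D) : phi D p ∈ Subgroup.normalizer (QU K : Set (GL chevD4.Idx K)) :=
  phi_mem_of D (fun _ => x14_norm_p _) (fun _ => x9_norm_p _) (fun c => hc_norm_p _ c) p
theorem phi_norm_n (p : LL D) : phi D p ∈ Subgroup.normalizer (QV K : Set (GL chevD4.Idx K)) :=
  phi_mem_of D (fun _ => x14_norm_n _) (fun _ => x9_norm_n _) (fun c => hc_norm_n _ c) p

/-! ### The twisted group -/

/-- The twisted group. -/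
noncomputable abbrev GG : Subgroup (GL chevD4.Idx K) := (sc D.f).G1

theorem x14_mem {t : K} (ht : D.f t = t) : xx 14 t ∈ GG D := by
  have h1 : (D.f)^[1] t = t := ht
  have h2 : hF.c.wordG (cw TwTabD4.S.r D.f (chevD4.simple 1) 1 t) ∈ GG D :=
    Subgroup.subset_closure ⟨1, r1, t, h1, Or.inl rfl⟩
  have e : cw TwTabD4.S.r D.f (chevD4.simple 1) 1 t = [(14, t)] := by
    show [(chevD4.simple 1, t)] = _
    rw [sim1]
  rw [e] at h2
  simpa [Checks.wordG] using h2

theorem x9_mem {t : K} (ht : D.f t = t) : xx 9 t ∈ GG D := by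
  have h1 : (D.f)^[1] t = t := ht
  have h2 : hF.c.wordG (cw TwTabD4.S.r D.f (chevD4.neg (chevD4.simple 1)) 1 t) ∈ GG D :=
    Subgroup.subset_closure ⟨1, r1, t, h1, Or.inr rfl⟩
  have e : cw TwTabD4.S.r D.f (chevD4.neg (chevD4.simple 1)) 1 t = [(9, t)] := by
    show [(chevD4.neg (chevD4.simple 1), t)] = _
    rw [sim1, neg14]
  rw [e] at h2
  simpa [Checks.wordG] using h2

theorem xa_mem (t : K) : xa D.f t ∈ GG D := by
  have h1 : (D.f)^[3] t = t := D.f3' t
  have h2 : hF.c.wordG (cw TwTabD4.S.r D.f (chevD4.simple 0) 3 t) ∈ GG D :=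
    Subgroup.subset_closure ⟨0, r0, t, h1, Or.inl rfl⟩
  have e : cw TwTabD4.S.r D.f (chevD4.simple 0) 3 t = [(18, t), (13, D.f t), (12, D.f (D.f t))] := by
    have t1 : TwTabD4.S.r 18 = 13 ∧ TwTabD4.S.r 13 = 12 := by decide +kernel
    show [(chevD4.simple 0, t), (TwTabD4.S.r (chevD4.simple 0), D.f t), (TwTabD4.S.r (TwTabD4.S.r (chevD4.simple 0)), D.f (D.f t))] = _
    rw [sim0, t1.1, t1.2]
  rw [e] at h2
  simpa [Checks.wordG, xa, mul_assoc] using h2

theorem ya_mem (t : K) : ya D.f t ∈ GG D := by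
  have h1 : (D.f)^[3] t = t := D.f3' t
  have h2 : hF.c.wordG (cw TwTabD4.S.r D.f (chevD4.neg (chevD4.simple 0)) 3 t) ∈ GG D :=
    Subgroup.subset_closure ⟨0, r0, t, h1, Or.inr rfl⟩
  have e : cw TwTabD4.S.r D.f (chevD4.neg (chevD4.simple 0)) 3 t = [(5, t), (10, D.f t), (11, D.f (D.f t))] := by
    have t1 : TwTabD4.S.r 5 = 10 ∧ TwTabD4.S.r 10 = 11 := by decide +kernel
    show [(chevD4.neg (chevD4.simple 0), t), (TwTabD4.S.r (chevD4.neg (chevD4.simple 0)), D.f t), (TwTabD4.S.r (TwTabD4.S.r (chevD4.neg (chevD4.simple 0))), D.f (D.f t))] = _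
    rw [sim0, neg18, t1.1, t1.2]
  rw [e] at h2
  simpa [Checks.wordG, ya, mul_assoc] using h2

theorem hc_mem (c : Kˣ) : hc D.f c ∈ GG D := TwD4.hmem D.f _ (TwD4.cU_fixed D.f3' c)

theorem phi_mem (p : LL D) : phi D p ∈ GG D :=
  phi_mem_of D (fun a => x14_mem D (D.fix a)) (fun a => x9_mem D (D.fix a)) (hc_mem D) p

/-- The unipotent radical in the twisted group. -/
noncomputable def Up : Subgroup (GL chevD4.Idx K) := QU K ⊓ GG D
/-- The opposite unipotent radical in the twisted group. -/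
noncomputable def Un : Subgroup (GL chevD4.Idx K) := QV K ⊓ GG D

theorem Up_le_G : Up D ≤ GG D := inf_le_right
theorem Un_le_G : Un D ≤ GG D := inf_le_right
theorem Up_le_QU : Up D ≤ QU K := inf_le_left
theorem Un_le_QV : Un D ≤ QV K := inf_le_left

theorem phi_norm_Up (p : LL D) : phi D p ∈ Subgroup.normalizer (Up D : Set (GL chevD4.Idx K)) := by
  apply Subgroup.mem_normalizer_iff.2
  intro u
  have h1 := Subgroup.mem_normalizer_iff.1 (phi_norm_p D p) u
  have h2 : u ∈ GG D ↔ phi D p * u * (phi D p)⁻¹ ∈ GG D := by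
    constructor
    · intro hu
      exact (GG D).mul_mem ((GG D).mul_mem (phi_mem D p) hu) ((GG D).inv_mem (phi_mem D p))
    · intro hu
      have := (GG D).mul_mem ((GG D).mul_mem ((GG D).inv_mem (phi_mem D p)) hu) (phi_mem D p)
      simpa [mul_assoc] using this
  exact and_congr h1 h2

theorem phi_norm_Un (p : LL D) : phi D p ∈ Subgroup.normalizer (Un D : Set (GL chevD4.Idx K)) := by
  apply Subgroup.mem_normalizer_iff.2
  intro u
  have h1 := Subgroup.mem_normalizer_iff.1 (phi_norm_n D p) u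
  have h2 : u ∈ GG D ↔ phi D p * u * (phi D p)⁻¹ ∈ GG D := by
    constructor
    · intro hu
      exact (GG D).mul_mem ((GG D).mul_mem (phi_mem D p) hu) ((GG D).inv_mem (phi_mem D p))
    · intro hu
      have := (GG D).mul_mem ((GG D).mul_mem ((GG D).inv_mem (phi_mem D p)) hu) (phi_mem D p)
      simpa [mul_assoc] using this
  exact and_congr h1 h2

theorem conj_mem_p (p : LL D) {u : GL chevD4.Idx K} (hu : u ∈ Up D) : phi D p * u * (phi D p)⁻¹ ∈ Up D :=
  (Subgroup.mem_normalizer_iff.1 (phi_norm_Up D p) u).1 hu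

theorem conj_inv_mem_p (p : LL D) {u : GL chevD4.Idx K} (hu : u ∈ Up D) : (phi D p)⁻¹ * u * phi D p ∈ Up D := by
  have := conj_mem_p D p⁻¹ hu
  rwa [map_inv, inv_inv] at this

theorem conj_mem_n (p : LL D) {u : GL chevD4.Idx K} (hu : u ∈ Un D) : phi D p * u * (phi D p)⁻¹ ∈ Un D :=
  (Subgroup.mem_normalizer_iff.1 (phi_norm_Un D p) u).1 hu

theorem conj_inv_mem_n (p : LL D) {u : GL chevD4.Idx K} (hu : u ∈ Un D) : (phi D p)⁻¹ * u * phi D p ∈ Un D := by
  have := conj_mem_n D p⁻¹ hu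
  rwa [map_inv, inv_inv] at this

end Cfsg.Agent.Lib.Th3D4
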