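import Cfsg.Agent.Lib.Th3D4.Reach

/-!
# Every nontrivial element of `³D₄(q)` is a product of two conjugates of a semisimple element
-/

set_option autoImplicit false
set_option linter.unusedSectionVars false
set_option linter.unusedVariables false
set_option linter.unusedSimpArgs false
set_option maxRecDepth 100000

namespace Cfsg.Agent.Lib.Th3D4

open Cfsg Cfsg.Lie Cfsg.Agent.Lib.Chev Cfsg.Agent.Lib.Chev.SL2 Matrix Equiv
open Cfsg.Agent.Lib.Chev.TwD4 (hF τ sc cU)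
open Cfsg.Agent.Lib.ThG2 (toS toS_mul detU detU_mul detU_val E12 E21 dG E12_val E21_val dG_val detU_E12 detU_E21 detU_dG
  toS_E12 toS_E21 toS_dG_one toS_dG_inv X0 X0_val detU_X0 conj_of_fix)
open Cfsg.Agent.Lib.ThSp4 (Good comp comp_det comp_trace exists_factor exists_conj_comp)

variable {K F : Type*} [Field K] [Field F] [Fintype K] (D : Fr K F)

/-- The element of the Levi subgroup. -/
noncomputable def x0L {δ : Fˣ} {c₀ : Kˣ} (t : F) (hc₀ : D.ιU δ = nmU D.f c₀) : LL D :=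
  lP D (X0 t δ) c₀ (by rw [detU_X0]; exact hc₀)

theorem phi_x0L {δ : Fˣ} {c₀ : Kˣ} (t : F) (hc₀ : D.ιU δ = nmU D.f c₀) :
    phi D (x0L D t hc₀) = XX D.f (SpecialLinearGroup.map D.ι (toS (X0 t δ))) c₀ := rfl

/-- The hypothesis of the fixed point theorems for the semisimple element. -/
theorem x0L_hP {δ : Fˣ} {c₀ : Kˣ} {t : F} (hc₀ : D.ιU δ = nmU D.f c₀)
    (hPK : ∀ y : K, y ^ 2 - D.ι t * y + D.ι δ ≠ 0) (y : K) :
    y ^ 2 - ((SpecialLinearGroup.map D.ι (toS (X0 t δ))).1 0 0 +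
      (SpecialLinearGroup.map D.ι (toS (X0 t δ))).1 1 1 * ((nmU D.f c₀ : Kˣ) : K)) * y + ((nmU D.f c₀ : Kˣ) : K) ≠ 0 := by
  have hδ : ((nmU D.f c₀ : Kˣ) : K) = D.ι δ := by rw [← hc₀, Fr.ιU_val]
  have e0 : (SpecialLinearGroup.map D.ι (toS (X0 t δ))).1 0 0 = 0 := by
    show D.ι ((X0 t δ).1 0 0) = 0
    rw [X0_val]
    simp [Cfsg.Agent.Lib.ThSp4.comp]
  have e1 : (SpecialLinearGroup.map D.ι (toS (X0 t δ))).1 1 1 = D.ι (t * ((δ⁻¹ : Fˣ) : F)) := by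
    show D.ι ((X0 t δ).1 1 1 * (((detU (X0 t δ))⁻¹ : Fˣ) : F)) = _
    rw [X0_val, detU_X0]
    simp [Cfsg.Agent.Lib.ThSp4.comp]
  rw [e0, e1, hδ, ← map_mul, mul_assoc]
  have e2 : ((δ⁻¹ : Fˣ) : F) * (δ : F) = 1 := by simp
  rw [e2, mul_one, zero_add]
  exact hPK y

theorem norm_of_comm {G : Type*} [Group G] {x c : G} (h : x * c = c * x) : x * c * x⁻¹ = c := by
  rw [h]
  group

/-- The main theorem: products of two conjugates. -/
theorem two_conj [Fintype F] (hS : IsSimpleGroup ↥(GG D)) {t : F} {δ : Fˣ} {c₀ : Kˣ} (hc₀ : D.ιU δ = nmU D.f c₀)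
    (hc1 : c₀ ≠ 1) (ht : t ≠ 0) (hP : ∀ y : F, y ^ 2 - t * y + (δ : F) ≠ 0)
    (hPK : ∀ y : K, y ^ 2 - D.ι t * y + D.ι δ ≠ 0) (hnorm : ∀ d : Fˣ, ∃ e : Kˣ, nmU D.f e = D.ιU d)
    {g : GL chevD4.Idx K} (hg : g ∈ GG D) (hg1 : g ≠ 1) :
    ∃ u ∈ GG D, ∃ v ∈ GG D, g = (u * phi D (x0L D t hc₀) * u⁻¹) * (v * phi D (x0L D t hc₀) * v⁻¹) := by
  obtain ⟨h₀, hh₀, hP₀⟩ := exists_conj_not_mem D hS hg hg1
  have hg₀ : h₀ * g * h₀⁻¹ ∈ GG D := (GG D).mul_mem ((GG D).mul_mem hh₀ hg) ((GG D).inv_mem hh₀)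
  obtain ⟨h₁, hh₁, k, hk, A, u, hu, e₁⟩ := exists_conj_nu D hg₀ hP₀
  obtain ⟨h₂, hh₂, y', hy', B, w, hw, e₂, hB2, hB⟩ := reach D δ hc₀ hk A hu
  obtain ⟨Y₁, Y₂, hY, hY1t, hY1d, hY2t, hY2d⟩ := exists_factor δ.ne_zero ht hB
  obtain ⟨k₁, hk₁, hk₁'⟩ := exists_conj_comp hP hY1t hY1d
  obtain ⟨k₂, hk₂, hk₂'⟩ := exists_conj_comp hP hY2t hY2d
  let K₁ : GL (Fin 2) F := GeneralLinearGroup.mkOfDetNeZero k₁ hk₁
  let K₂ : GL (Fin 2) F := GeneralLinearGroup.mkOfDetNeZero k₂ hk₂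
  have hZ₁v : (K₁ * X0 t δ * K₁⁻¹).1 = Y₁ := by
    have h3 : (K₁ * X0 t δ).1 = Y₁ * K₁.1 := by
      rw [Units.val_mul, X0_val]
      exact hk₁'.symm
    rw [Units.val_mul, h3, Matrix.mul_assoc, ← Units.val_mul, mul_inv_cancel, Units.val_one, Matrix.mul_one]
  have hZ₂v : (K₂ * X0 t δ * K₂⁻¹).1 = Y₂ := by
    have h3 : (K₂ * X0 t δ).1 = Y₂ * K₂.1 := by
      rw [Units.val_mul, X0_val]
      exact hk₂'.symm
    rw [Units.val_mul, h3, Matrix.mul_assoc, ← Units.val_mul, mul_inv_cancel, Units.val_one, Matrix.mul_one]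
  obtain ⟨e₁', he₁⟩ := hnorm (detU K₁)
  obtain ⟨e₂', he₂⟩ := hnorm (detU K₂)
  set L₁ : LL D := lP D K₁ e₁' he₁.symm with hL₁
  set L₂ : LL D := lP D K₂ e₂' he₂.symm with hL₂
  set x₀ := x0L D t hc₀ with hx₀
  have hB' : B = (L₁ * x₀ * L₁⁻¹) * (L₂ * x₀ * L₂⁻¹) := by
    apply Subtype.ext
    apply Prod.ext
    · show B.1.1 = (K₁ * X0 t δ * K₁⁻¹) * (K₂ * X0 t δ * K₂⁻¹)
      apply Units.ext
      rw [Units.val_mul, hZ₁v, hZ₂v, hY]
    · show B.1.2 = (e₁' * c₀ * e₁'⁻¹) * (e₂' * c₀ * e₂'⁻¹)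
      rw [hB2, mul_inv_cancel_comm, mul_inv_cancel_comm]
  set x := phi D x₀ with hx
  have hfp : ∀ c ∈ Up D, x * c = c * x → c = 1 := fun c hc h =>
    fix_p D.f D.f3 _ c₀ hc1 (x0L_hP D hc₀ hPK) (Up_le_QU D hc) (norm_of_comm h)
  have hfn : ∀ c ∈ Un D, x * c = c * x → c = 1 := fun c hc h =>
    fix_n D.f D.f3 _ c₀ hc1 (x0L_hP D hc₀ hPK) (Un_le_QV D hc) (norm_of_comm h)
  haveI : Finite (GL chevD4.Idx K) := inferInstance
  -- the first factor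
  have hy'' : x⁻¹ * ((phi D L₁)⁻¹ * y' * phi D L₁) * x ∈ Un D := conj_inv_mem_n D _ (conj_inv_mem_n D L₁ hy')
  obtain ⟨c₁, hc₁, ec₁⟩ := conj_of_fix (Un D) (phi_norm_Un D x₀) hfn hy''
  -- the second factor
  have hw' : (phi D L₂)⁻¹ * w * phi D L₂ ∈ Up D := conj_inv_mem_p D L₂ hw
  obtain ⟨c₂, hc₂, ec₂⟩ := conj_of_fix (Up D) (phi_norm_Up D x₀) hfp hw'
  set H := h₂ * h₁ * h₀ with hH
  have hHm : H ∈ GG D := (GG D).mul_mem ((GG D).mul_mem hh₂ hh₁) hh₀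
  have hgH : H * g * H⁻¹ = y' * phi D B * w := by
    rw [← e₂, ← e₁, hH]
    group
  have ef₁ : y' * phi D (L₁ * x₀ * L₁⁻¹) = (phi D L₁ * c₁) * x * (phi D L₁ * c₁)⁻¹ := by
    have : (phi D L₁ * c₁) * x * (phi D L₁ * c₁)⁻¹ = phi D L₁ * (c₁ * x * c₁⁻¹) * (phi D L₁)⁻¹ := by group
    rw [this, ec₁, map_mul, map_mul, map_inv, ← hx]
    group
  have ef₂ : phi D (L₂ * x₀ * L₂⁻¹) * w = (phi D L₂ * c₂) * x * (phi D L₂ * c₂)⁻¹ := by
    have : (phi D L₂ * c₂) * x * (phi D L₂ * c₂)⁻¹ = phi D L₂ * (c₂ * x * c₂⁻¹) * (phi D L₂)⁻¹ := by group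
    rw [this, ec₂, map_mul, map_mul, map_inv, ← hx]
    group
  refine ⟨H⁻¹ * (phi D L₁ * c₁), (GG D).mul_mem ((GG D).inv_mem hHm)
      ((GG D).mul_mem (phi_mem D _) (Un_le_G D hc₁)),
    H⁻¹ * (phi D L₂ * c₂), (GG D).mul_mem ((GG D).inv_mem hHm)
      ((GG D).mul_mem (phi_mem D _) (Up_le_G D hc₂)), ?_⟩
  have e3 : g = H⁻¹ * (H * g * H⁻¹) * H := by group
  have e5 : y' * phi D B * w = (y' * phi D (L₁ * x₀ * L₁⁻¹)) * (phi D (L₂ * x₀ * L₂⁻¹) * w) := by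
    rw [hB', map_mul]
    group
  rw [e3, hgH, e5, ef₁, ef₂]
  group

/-! ### The data -/

/-- The quadratic has no roots in the larger field. -/
theorem hPK_of {t δ : F} (hP : ∀ y : F, y ^ 2 - t * y + δ ≠ 0) (y : K) : y ^ 2 - D.ι t * y + D.ι δ ≠ 0 := by
  intro hy
  have hf1 : D.f y ^ 2 - D.ι t * D.f y + D.ι δ = 0 := by
    have := congrArg D.f hy
    simpa [D.fix] using this
  have h1 : (D.f y - y) * (D.f y + y - D.ι t) = 0 := by linear_combination hf1 - hy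
  have hfix : D.f y = y := by
    rcases mul_eq_zero.1 h1 with h | h
    · linear_combination h
    · have h2 : D.f y = D.ι t - y := by linear_combination h
      have h3 : D.f (D.f y) = y := by
        rw [h2, map_sub, D.fix, h2]
        ring
      have h4 := D.f3 y
      rw [h3] at h4
      exact h4
  obtain ⟨a, rfl⟩ := D.surj y hfix
  apply hP a
  apply D.ι.injective
  simpa using hy

/-- The norm map is surjective. -/
theorem norm_surj {q : ℕ} (hq : 2 ≤ q) (hK : Fintype.card K = q ^ 3) (hf : ∀ t, D.f t = t ^ q) (d : Fˣ) :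
    ∃ e : Kˣ, nmU D.f e = D.ιU d := by
  classical
  obtain ⟨g, hg⟩ := IsCyclic.exists_generator (α := Kˣ)
  have hnm : ∀ e : Kˣ, nmU D.f e = e ^ (1 + q + q ^ 2) := by
    intro e
    apply Units.ext
    rw [nmU_val, hf, hf, Units.val_pow_eq_pow_val]
    ring
  have hord : orderOf g = q ^ 3 - 1 := by
    rw [orderOf_eq_card_of_forall_mem_zpowers hg, Nat.card_eq_fintype_card, Fintype.card_units, hK]
  have hq1 : 1 ≤ q := by omega
  have hfac : q ^ 3 - 1 = (1 + q + q ^ 2) * (q - 1) := by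
    zify [hq1, Nat.one_le_pow 3 q hq1]
    ring
  -- the element of the fixed field
  have hd : (D.ιU d) ^ (q - 1) = 1 := by
    have h1 : (D.ιU d) ^ q = D.ιU d := by
      apply Units.ext
      rw [Units.val_pow_eq_pow_val, ← hf, Fr.ιU_val, D.fix]
    have h2 : (D.ιU d) ^ (q - 1) * D.ιU d = 1 * D.ιU d := by
      rw [← pow_succ, Nat.sub_add_cancel hq1, h1, one_mul]
    exact mul_right_cancel h2
  obtain ⟨j, hj⟩ := hg (D.ιU d)
  have hjn : ∃ n : ℕ, g ^ n = D.ιU d := by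
    have hfin : IsOfFinOrder g := isOfFinOrder_of_finite g
    exact (mem_powers_iff_mem_zpowers.2 ⟨j, hj⟩ : D.ιU d ∈ Submonoid.powers g)
  obtain ⟨n, hn⟩ := hjn
  have h3 : g ^ (n * (q - 1)) = 1 := by
    rw [pow_mul, hn, hd]
  have h4 := orderOf_dvd_of_pow_eq_one h3
  rw [hord, hfac] at h4
  have hq2 : 0 < q - 1 := by omega
  have h5 : 1 + q + q ^ 2 ∣ n := Nat.dvd_of_mul_dvd_mul_right hq2 h4
  obtain ⟨m, rfl⟩ := h5
  refine ⟨g ^ m, ?_⟩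
  rw [hnm, ← hn, ← pow_mul, mul_comm]

end Cfsg.Agent.Lib.Th3D4
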