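import Cfsg.Agent.Lib.Th3D4.Cov

/-!
# The third representative, and reaching a good block
-/

set_option autoImplicit false
set_option linter.unusedSectionVars false
set_option linter.unusedVariables false
set_option linter.unusedSimpArgs false
set_option maxRecDepth 100000

namespace Cfsg.Agent.Lib.Th3D4

open Cfsg Cfsg.Lie Cfsg.Agent.Lib.Chev Cfsg.Agent.Lib.Chev.SL2 Matrix Equiv
open Cfsg.Agent.Lib.Chev.TwD4 (hF τ sc cU)
open Cfsg.Agent.Lib.ThG2 (toS toS_mul detU detU_mul detU_val E12 E21 dG E12_val E21_val dG_val detU_E12 detU_E21 detU_dG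
  toS_E12 toS_E21 toS_dG_one toS_dG_inv)
open Cfsg.Agent.Lib.ThSp4 (Good)

variable {K F : Type*} [Field K] [Field F] [Fintype K] (D : Fr K F)

/-- The third representative. -/
noncomputable abbrev nu3 : GL chevD4.Idx K := wn [0, 2, 3, 1, 0, 2, 3, 1, 0, 2, 3, 1, 1]

theorem nu3_eq_w0 : nu3 (K := K) = w0 * nb := wn_append [0, 2, 3, 1, 0, 2, 3, 1, 0, 2, 3, 1] [1]

theorem nb_expand : nb (K := K) = xx 14 1 * xx 9 (-1) * xx 14 1 := by
  show wn (K := K) [1] = _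
  rw [nb_eq]
  show hF.c.nG (chevD4.simple 1) 1 = _
  rw [sim1, Checks.nG, neg14, inv_one]

theorem wWp_nb : wn [1, 0, 2, 3] * nb * (wn [1, 0, 2, 3])⁻¹ = xx 23 (-1) * xx 0 1 * xx 23 (-1 : K) := by
  rw [nb_expand]
  have e : wn [1, 0, 2, 3] * (xx 14 1 * xx 9 (-1) * xx 14 1) * (wn [1, 0, 2, 3])⁻¹ =
      (wn [1, 0, 2, 3] * xx 14 (1 : K) * (wn [1, 0, 2, 3])⁻¹) * (wn [1, 0, 2, 3] * xx 9 (-1 : K) * (wn [1, 0, 2, 3])⁻¹) *
        (wn [1, 0, 2, 3] * xx 14 (1 : K) * (wn [1, 0, 2, 3])⁻¹) := by group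
  rw [e, wcM (L := [1, 0, 2, 3]) (r := 14) (r' := 23) (by decide +kernel),
    wcM (L := [1, 0, 2, 3]) (r := 9) (r' := 0) (by decide +kernel), neg_neg]

/-- The Weyl element of the highest root. -/
noncomputable def n23 : GL chevD4.Idx K := xx 23 1 * xx 0 (-1) * xx 23 1

theorem n23_eq : n23 (K := K) = wn [1, 0, 2, 3] * nb⁻¹ * (wn [1, 0, 2, 3])⁻¹ := by
  have h : (xx 23 (-1) * xx 0 1 * xx 23 (-1 : K))⁻¹ = n23 := by
    rw [n23, _root_.mul_inv_rev, _root_.mul_inv_rev, xx_inv, xx_inv, neg_neg, mul_assoc]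
  rw [← h, ← wWp_nb]
  group

theorem na_wWp : na * wn (K := K) [1, 0, 2, 3] = w0 * wn [1, 0, 2, 3] * nb := by
  have h := wn_eq (K := K) (L₁ := [0, 2, 3] ++ [1, 0, 2, 3]) (L₂ := [0, 2, 3, 1, 0, 2, 3, 1, 0, 2, 3, 1] ++ ([1, 0, 2, 3] ++ [1]))
    (by decide +kernel) (by decide +kernel) (by decide +kernel)
  rw [wn_append, wn_append, wn_append] at h
  rw [h, w0]
  group

theorem w0_eq : (w0 : GL chevD4.Idx K) = na * n23 := by
  rw [n23_eq]
  have e : na * (wn [1, 0, 2, 3] * nb⁻¹ * (wn [1, 0, 2, 3])⁻¹) = (na * wn (K := K) [1, 0, 2, 3]) * nb⁻¹ * (wn [1, 0, 2, 3])⁻¹ := by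
    group
  rw [e, na_wWp]
  group

theorem x23_na (t : K) : xx 23 t * na = na * xx 23 t := by
  have := wcP (K := K) (L := [0, 2, 3]) (r := 23) (r' := 23) (by decide +kernel) t
  have h : na * xx 23 t = (na * xx 23 t * na⁻¹) * na := by group
  rw [h, this]

theorem xa_x0 (f : K ≃+* K) (s t : K) : xa f s * xx 0 t = xx 0 t * xa f s := by
  have c1 : Commute (xx 18 s) (xx 0 t) := tC (by decide +kernel) t s
  have c2 : Commute (xx 13 (f s)) (xx 0 t) := tC (by decide +kernel) t (f s)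
  have c3 : Commute (xx 12 (f (f s))) (xx 0 t) := tC (by decide +kernel) t (f (f s))
  exact ((c1.mul_left c2).mul_left c3).eq

theorem hc_x0 (f : K ≃+* K) (s : Kˣ) (t : K) : hc f s * xx 0 t = xx 0 t * hc f s := by
  have h := hc_conj' f s (s := 0) (by decide +kernel) t
  have e : chiV f s 0 = 1 := by
    have t1 : chevD4.cartan 0 0 = 0 ∧ chevD4.cartan 2 0 = 0 ∧ chevD4.cartan 3 0 = 0 := by decide +kernel
    unfold chiV
    rw [t1.1, t1.2.1, t1.2.2]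
    simp
  rw [e, one_mul] at h
  calc hc f s * xx 0 t = (hc f s * xx 0 t * (hc f s)⁻¹) * hc f s := by group
    _ = _ := by rw [h]

theorem cov3i (s : Kˣ) (μ : Fˣ) (hμ : D.ιU μ = nmU D.f s) :
    Cov D (nuK 3) (lD D μ s hμ * lS D Mb detU_Mb) := by
  have e0 : nuK (K := K) 3 = nu3 := rfl
  have h1f : D.f (-1) = -1 := by rw [map_neg, map_one]
  refine ⟨xa D.f (-(s : K)) * xx 23 (-1), (Up D).mul_mem (xa_mem_Up D _) ⟨xx_mem_QU (by decide) _, xx23_mem D h1f⟩,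
    ya D.f (-(s : K)⁻¹) * xx 0 (-1), (Un D).mul_mem (ya_mem_Un D _) ⟨xx_mem_QV (by decide) _, xx0_mem D h1f⟩,
    nb⁻¹ * (xa D.f ((s : K)⁻¹) * xx 23 1) * nb,
    nb_inv_conj_p D ((Up D).mul_mem (xa_mem_Up D _) ⟨xx_mem_QU (by decide) _, xx23_mem D (map_one D.f)⟩), ?_⟩
  rw [map_mul, phi_lD, phi_Mb, e0, nu3_eq_w0, w0_eq, n23]
  have h2 : xa D.f (-(s : K)) * na = ya D.f (-(s : K)⁻¹) * hc D.f s * xa D.f ((s : K)⁻¹) := gauss D.f s
  have h3 : xx 23 (-1) * xx 23 (1 : K) = 1 := by rw [xx_add, neg_add_cancel, xx_zero]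
  calc xa D.f (-(s : K)) * xx 23 (-1) * (na * (xx 23 1 * xx 0 (-1) * xx 23 1) * nb)
      = xa D.f (-(s : K)) * (xx 23 (-1) * na) * (xx 23 1 * xx 0 (-1) * xx 23 1) * nb := by group
    _ = xa D.f (-(s : K)) * na * (xx 23 (-1) * xx 23 1) * xx 0 (-1) * xx 23 1 * nb := by
        rw [x23_na]
        group
    _ = ya D.f (-(s : K)⁻¹) * hc D.f s * (xa D.f ((s : K)⁻¹) * xx 0 (-1)) * xx 23 1 * nb := by
        rw [h3, h2]
        group
    _ = ya D.f (-(s : K)⁻¹) * (hc D.f s * xx 0 (-1)) * xa D.f ((s : K)⁻¹) * xx 23 1 * nb := by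
        rw [xa_x0]
        group
    _ = _ := by
        rw [hc_x0]
        group

/-! ### The torus and the element `W` -/

/-- Conjugation of the torus by a word. -/
theorem wn_conj_tor {L : List ℕ} (hL : ∀ i ∈ L, i < chevD4.rank) (z z' : Fin chevD4.rank → Kˣ)
    (hsurj : ∀ s, s < 24 → ∃ r, r < 24 ∧ wAct TabD4.X L r = s)
    (hη : ∀ r, r < 24 → etaW L r = 1 ∨ etaW L r = -1)
    (h : ∀ r, r < 24 → chiT chevD4 z' (wAct TabD4.X L r) = chiT chevD4 z r) :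
    wn L * tor RootD4T.R chevD4 z * (wn L)⁻¹ = tor RootD4T.R chevD4 z' := by
  have hn : chevD4.nroots = 24 := by decide +kernel
  have hN : wn (K := K) L ∈ chevD4.monomialSubgroup K := hF.wordN_mem_monomial L hL
  have hH : wn L * tor RootD4T.R chevD4 z * (wn L)⁻¹ ∈ chevD4.diagonalSubgroup K := by
    have := hF.diagonal_normal (F := K)
    have hd : tor RootD4T.R chevD4 z ∈ chevD4.diagonalSubgroup K := hF.tor_mem_diagonal _
    have h3 := this.conj_mem ⟨tor RootD4T.R chevD4 z, hF.c.diagonal_le_monomial hd⟩ (Subgroup.mem_subgroupOf.2 hd) ⟨_, hN⟩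
    exact Subgroup.mem_subgroupOf.1 h3
  obtain ⟨c', hc'⟩ := (hF.mem_diagonal_iff).1 hH
  rw [hc', hF.tor_eq, hF.tor_eq]
  apply diagG_congr
  intro s hs
  have hs24 : s < 24 := by omega
  obtain ⟨r, hr, rfl⟩ := hsurj s hs24
  have hrl : r < chevD4.nroots := by omega
  have hηη : (((etaW L r : ℤ) : K)) * ((etaW L r : ℤ) : K) = 1 := by
    rcases hη r hr with e | e <;> rw [e] <;> simp
  have h1 := hF.tor_conj_xG c' hs (1 : K)
  rw [← hc'] at h1
  have e1 : wn L * xx r ((etaW L r : ℤ) : K) * (wn L)⁻¹ = xx (wAct TabD4.X L r) (1 : K) := by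
    rw [wn_conj L hL hrl, hηη]
  have h2 : (wn L * tor RootD4T.R chevD4 z * (wn L)⁻¹) * xx (wAct TabD4.X L r) (1 : K) * (wn L * tor RootD4T.R chevD4 z * (wn L)⁻¹)⁻¹ =
      xx (wAct TabD4.X L r) ((chiT chevD4 z r : Kˣ) : K) := by
    rw [← e1]
    have e : (wn L * tor RootD4T.R chevD4 z * (wn L)⁻¹) * (wn L * xx r ((etaW L r : ℤ) : K) * (wn L)⁻¹) * (wn L * tor RootD4T.R chevD4 z * (wn L)⁻¹)⁻¹ =
        wn L * (tor RootD4T.R chevD4 z * xx r ((etaW L r : ℤ) : K) * (tor RootD4T.R chevD4 z)⁻¹) * (wn L)⁻¹ := by group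
    rw [e, hF.tor_conj_xG z hrl, wn_conj L hL hrl]
    congr 1
    linear_combination ((chiT chevD4 z r : Kˣ) : K) * hηη
  have h4 := hF.xG_param_inj hs (h1.symm.trans h2)
  rw [mul_one] at h4
  apply Units.ext
  rw [h4, h r hr]

theorem unitsF3_of (f : K ≃+* K) (hf3 : ∀ x, f (f (f x)) = x) (a : Kˣ) : unitsF f (unitsF f (unitsF f a)) = a :=
  unitsF3' f hf3 a

/-- The conjugate of the torus element of the short root under `W`. -/
theorem wW_hc (u : Kˣ) : wW * hc D.f u * wW⁻¹ =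
    hF.hS K r1 (nmU D.f u) * hc D.f (nmU D.f u * u⁻¹) := by
  rw [hc, Full.hS_apply, hc, tor_mul]
  apply wn_conj_tor (by decide +kernel) _ _ (by decide +kernel) (by decide +kernel)
  intro r hr
  have t : ∀ r, r < 24 → chevD4.cartan 0 r = chevD4.cartan 1 (wAct TabD4.X [0, 2, 3, 1] r) + chevD4.cartan 2 (wAct TabD4.X [0, 2, 3, 1] r) +
        chevD4.cartan 3 (wAct TabD4.X [0, 2, 3, 1] r) ∧
      chevD4.cartan 2 r = chevD4.cartan 0 (wAct TabD4.X [0, 2, 3, 1] r) + chevD4.cartan 1 (wAct TabD4.X [0, 2, 3, 1] r) +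
        chevD4.cartan 3 (wAct TabD4.X [0, 2, 3, 1] r) ∧
      chevD4.cartan 3 r = chevD4.cartan 0 (wAct TabD4.X [0, 2, 3, 1] r) + chevD4.cartan 1 (wAct TabD4.X [0, 2, 3, 1] r) +
        chevD4.cartan 2 (wAct TabD4.X [0, 2, 3, 1] r) := by decide +kernel
  obtain ⟨t0, t2, t3⟩ := t r hr
  set a := u with ha
  set b := unitsF D.f a with hb
  set c := unitsF D.f b with hc'
  have hfc : unitsF D.f c = a := unitsF3' D.f D.f3 a
  have hN : nmU D.f a = a * b * c := rfl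
  have z0 : a * b * c * a⁻¹ = b * c := by
    rw [mul_inv_eq_iff_eq_mul]
    ac_rfl
  have z2 : unitsF D.f (a * b * c * a⁻¹) = a * c := by
    rw [z0, map_mul, ← hc', hfc]
    ac_rfl
  have z3 : unitsF D.f (unitsF D.f (a * b * c * a⁻¹)) = a * b := by
    rw [z2, map_mul, hfc, ← hb]
    ac_rfl
  rw [chiT_expand, chiT_expand, hN]
  simp only [Pi.mul_apply, Pi.mulSingle_apply, cU]
  simp [z0, z2, z3]
  have fa : unitsF D.f a = b := rfl
  have fb : unitsF D.f b = c := rfl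
  simp only [fa, fb, hfc]
  rw [t0, t2, t3]
  simp only [mul_zpow, _root_.zpow_add]
  ac_rfl

/-! ### The scalar Levi elements -/

/-- Scalar matrices in the Levi subgroup. -/
noncomputable def lC (ρ : Fˣ) (s : Kˣ) (h : D.ιU (ρ * ρ) = nmU D.f s) : LL D :=
  ⟨(dG ρ ρ, s), by
    show D.ιU (detU (dG ρ ρ)) = nmU D.f s
    rw [detU_dG, h]⟩

theorem phi_lC (ρ : Fˣ) (s : Kˣ) (h : D.ιU (ρ * ρ) = nmU D.f s) :
    phi D (lC D ρ s h) = hF.hS K r1 (D.ιU ρ) * hc D.f s := by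
  rw [phi_apply]
  show psiF D (toS (dG ρ ρ)) * hc D.f s = _
  rw [toS_dG, psiF_D0]

theorem nmU_fixed_unit (a : Fˣ) : nmU D.f (D.ιU a) = D.ιU a * D.ιU a * D.ιU a := by
  apply Units.ext
  rw [nmU_val, Units.val_mul, Units.val_mul, Fr.ιU_val, D.fix, D.fix]

theorem nu3_eq2 : nu3 (K := K) = wW * na * wW⁻¹ := by
  have h := wn_eq (K := K) (L₁ := [0, 2, 3, 1] ++ [0, 2, 3]) (L₂ := [0, 2, 3, 1, 0, 2, 3, 1, 0, 2, 3, 1, 1] ++ [0, 2, 3, 1])
    (by decide +kernel) (by decide +kernel) (by decide +kernel)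
  rw [wn_append, wn_append] at h
  rw [h]
  group

theorem cov3ii (ρ : Fˣ) (s : Kˣ) (h : D.ιU (ρ * ρ) = nmU D.f s) : Cov D (nuK 3) (lC D ρ s h) := by
  have e0 : nuK (K := K) 3 = nu3 := rfl
  set u : Kˣ := D.ιU ρ * s⁻¹ with hu
  have hN : nmU D.f u = D.ιU ρ := by
    rw [hu, nmU_mul, nmU_inv, ← h, nmU_fixed_unit, map_mul]
    group
  have hN2 : nmU D.f u * u⁻¹ = s := by
    rw [hN, hu, mul_inv, inv_inv, mul_inv_cancel_left]
  refine ⟨wW * xa D.f (-(u : K)) * wW⁻¹, wW_xa_mem D _, wW * ya D.f (-(u : K)⁻¹) * wW⁻¹, wW_ya_mem D _,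
    wW * xa D.f ((u : K)⁻¹) * wW⁻¹, wW_xa_mem D _, ?_⟩
  rw [phi_lC, e0, nu3_eq2]
  have h2 : xa D.f (-(u : K)) * na = ya D.f (-(u : K)⁻¹) * hc D.f u * xa D.f ((u : K)⁻¹) := gauss D.f u
  have h3 := wW_hc D u
  rw [hN2, hN] at h3
  rw [← h3]
  calc wW * xa D.f (-(u : K)) * wW⁻¹ * (wW * na * wW⁻¹) = wW * (xa D.f (-(u : K)) * na) * wW⁻¹ := by group
    _ = _ := by
      rw [h2]
      group

/-! ### The commutation with the third representative -/

theorem nu3_psiF (S : SpecialLinearGroup (Fin 2) F) : nu3 * psiF D S * nu3⁻¹ = psiF D S := by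
  have hS := mem_closure_elementary S
  induction hS using Subgroup.closure_induction with
  | mem g hg =>
    rcases hg with ⟨t, rfl⟩ | ⟨t, rfl⟩
    · rw [psiF_x0]
      exact wcP (L := [0, 2, 3, 1, 0, 2, 3, 1, 0, 2, 3, 1, 1]) (r := 14) (r' := 14) (by decide +kernel) _
    · rw [psiF_y0]
      exact wcP (L := [0, 2, 3, 1, 0, 2, 3, 1, 0, 2, 3, 1, 1]) (r := 9) (r' := 9) (by decide +kernel) _
  | one => simp
  | mul a b _ _ h1 h2 =>
    have e : nu3 * (psiF D a * psiF D b) * nu3⁻¹ = (nu3 * psiF D a * nu3⁻¹) * (nu3 * psiF D b * nu3⁻¹) := by group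
    rw [map_mul, e, h1, h2]
  | inv a _ h1 =>
    have e : nu3 * (psiF D a)⁻¹ * nu3⁻¹ = (nu3 * psiF D a * nu3⁻¹)⁻¹ := by group
    rw [map_inv, e, h1]

theorem phi_lS (S : GL (Fin 2) F) (h : detU S = 1) : phi D (lS D S h) = psiF D (toS S) := by
  rw [phi_apply]
  show psiF D (toS S) * hc D.f 1 = _
  rw [hc_one, mul_one]

theorem nu3_lS (S : GL (Fin 2) F) (h : detU S = 1) : phi D (lS D S h) * nu3 = nu3 * phi D (lS D S h) := by
  rw [phi_lS]
  have h1 := nu3_psiF D (toS S)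
  calc psiF D (toS S) * nu3 = (nu3 * psiF D (toS S) * nu3⁻¹) * nu3 := by rw [h1]
    _ = _ := by group

/-! ### Reaching a good block -/

theorem detU_inv' (A : GL (Fin 2) F) : detU A⁻¹ = (detU A)⁻¹ :=
  map_inv (Matrix.GeneralLinearGroup.det (n := Fin 2) (R := F)) A

/-- The determinant condition of a good block. -/
theorem good_units {δ c₂ : Fˣ} {M A : GL (Fin 2) F} (hM : detU M = c₂) (hg : Good (δ : F) (M * A).1) :
    c₂ * detU A = δ * δ := by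
  apply Units.ext
  have h1 := Good_det hg
  rw [← detU_val, detU_mul, hM] at h1
  rw [Units.val_mul, Units.val_mul, ← Units.val_mul, h1]
  ring

theorem level_unit {δ : Fˣ} {c₀ : Kˣ} (hc₀ : D.ιU δ = nmU D.f c₀) (p : LL D) {c₂ : Fˣ} (h : c₂ * detU p.1.1 = δ * δ) :
    D.ιU c₂ = nmU D.f (c₀ * c₀ * p.1.2⁻¹) := by
  rw [nmU_mul, nmU_mul, nmU_inv, ← hc₀, ← LL_det D p, ← map_inv, ← map_mul, ← map_mul]
  congr 1
  rw [← h]
  group

/-- The pair part of the first two cases. -/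
theorem pair_part {c₀ c : Kˣ} : c₀ * c₀ * c⁻¹ * 1 * c = c₀ * c₀ := by group

theorem reach1 (δ : Fˣ) {c₀ : Kˣ} (hc₀ : D.ιU δ = nmU D.f c₀) (p : LL D) {u : GL chevD4.Idx K} (hu : u ∈ Up D) :
    ∃ h ∈ GG D, ∃ y' ∈ Un D, ∃ B : LL D, ∃ w ∈ Up D,
      h * (nuK 1 * phi D p * u) * h⁻¹ = y' * phi D B * w ∧ B.1.2 = c₀ * c₀ ∧ Good (δ : F) B.1.1.1 := by
  obtain ⟨c₂, v, hg⟩ := Cfsg.Agent.Lib.ThG2.good_one δ p.1.1
  have hM : detU ((dG 1 c₂ : GL (Fin 2) F) * E12 v) = c₂ := by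
    rw [detU_mul, detU_dG, detU_E12]
    simp
  have hμ := level_unit D hc₀ p (good_units hM hg)
  obtain ⟨y, hy, y', hy', w, hw, e1⟩ := cov_conj D (cov1 D _ c₂ hμ v) p hu
  exact ⟨y, Up_le_G D hy, y', hy', _, w, hw, e1, pair_part, hg⟩

theorem reach2 (δ : Fˣ) {c₀ : Kˣ} (hc₀ : D.ιU δ = nmU D.f c₀) (p : LL D) {u : GL chevD4.Idx K} (hu : u ∈ Up D) :
    ∃ h ∈ GG D, ∃ y' ∈ Un D, ∃ B : LL D, ∃ w ∈ Up D,
      h * (nuK 2 * phi D p * u) * h⁻¹ = y' * phi D B * w ∧ B.1.2 = c₀ * c₀ ∧ Good (δ : F) B.1.1.1 := by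
  obtain ⟨c₂, v, hg⟩ := good_two δ p.1.1
  have hM : detU ((dG 1 c₂ : GL (Fin 2) F) * Mb * E12 v) = c₂ := by
    rw [detU_mul, detU_mul, detU_dG, detU_E12, detU_Mb]
    simp
  have hμ := level_unit D hc₀ p (good_units hM hg)
  obtain ⟨y, hy, y', hy', w, hw, e1⟩ := cov_conj D (cov2 D _ c₂ hμ v) p hu
  refine ⟨y, Up_le_G D hy, y', hy', _, w, hw, e1, ?_, hg⟩
  show c₀ * c₀ * p.1.2⁻¹ * 1 * 1 * p.1.2 = c₀ * c₀
  group

/-- The third case, with a nontrivial Weyl part. -/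
theorem reach3i (δ : Fˣ) {c₀ : Kˣ} (hc₀ : D.ιU δ = nmU D.f c₀) (p : LL D) {u : GL chevD4.Idx K} (hu : u ∈ Up D)
    {μ : Fˣ} (hdet : μ * detU p.1.1 = δ * δ) (S : GL (Fin 2) F) (hS : detU S = 1)
    (hg : Good (δ : F) ((dG 1 μ : GL (Fin 2) F) * Mb * (S * p.1.1 * S⁻¹)).1) :
    ∃ h ∈ GG D, ∃ y' ∈ Un D, ∃ B : LL D, ∃ w ∈ Up D,
      h * (nuK 3 * phi D p * u) * h⁻¹ = y' * phi D B * w ∧ B.1.2 = c₀ * c₀ ∧ Good (δ : F) B.1.1.1 := by
  have hμ := level_unit D hc₀ p hdet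
  set L := lS D S hS with hL
  have hu' : phi D L * u * (phi D L)⁻¹ ∈ Up D := conj_mem_p D L hu
  obtain ⟨y, hy, y', hy', w, hw, e1⟩ := cov_conj D (cov3i D _ μ hμ) (L * p * L⁻¹) hu'
  refine ⟨y * phi D L, (GG D).mul_mem (Up_le_G D hy) (phi_mem D L), y', hy',
    (lD D μ _ hμ * lS D Mb detU_Mb) * (L * p * L⁻¹), w, hw, ?_, ?_, ?_⟩
  · rw [← e1]
    have e0 : nuK (K := K) 3 = nu3 := rfl
    have h1 := nu3_lS D S hS
    rw [← hL] at h1
    rw [e0, map_mul, map_mul, map_inv]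
    have e2 : phi D L * (nu3 * phi D p * u) * (phi D L)⁻¹ = nu3 * (phi D L * phi D p * (phi D L)⁻¹) * (phi D L * u * (phi D L)⁻¹) := by
      calc phi D L * (nu3 * phi D p * u) * (phi D L)⁻¹ = (phi D L * nu3) * phi D p * u * (phi D L)⁻¹ := by group
        _ = _ := by
          rw [h1]
          group
    calc y * phi D L * (nu3 * phi D p * u) * (y * phi D L)⁻¹ = y * (phi D L * (nu3 * phi D p * u) * (phi D L)⁻¹) * y⁻¹ := by group
      _ = _ := by rw [e2]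
  · show c₀ * c₀ * p.1.2⁻¹ * 1 * (1 * p.1.2 * 1⁻¹) = c₀ * c₀
    group
  · exact hg

theorem dG_smul (ρ : Fˣ) (X : GL (Fin 2) F) : ((dG ρ ρ : GL (Fin 2) F) * X).1 = (ρ : F) • X.1 := by
  rw [Units.val_mul, dG_val]
  ext i j
  fin_cases i <;> fin_cases j <;> simp [Matrix.mul_apply, Fin.sum_univ_two]

/-- The third case, with a scalar Levi factor. -/
theorem reach3ii (δ : Fˣ) {c₀ : Kˣ} (hc₀ : D.ιU δ = nmU D.f c₀) (p : LL D) {u : GL chevD4.Idx K} (hu : u ∈ Up D)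
    (ρ : Fˣ) (hdet : ρ * ρ * detU p.1.1 = δ * δ) (hg : Good (δ : F) ((ρ : F) • p.1.1.1)) :
    ∃ h ∈ GG D, ∃ y' ∈ Un D, ∃ B : LL D, ∃ w ∈ Up D,
      h * (nuK 3 * phi D p * u) * h⁻¹ = y' * phi D B * w ∧ B.1.2 = c₀ * c₀ ∧ Good (δ : F) B.1.1.1 := by
  have hμ := level_unit D hc₀ p hdet
  obtain ⟨y, hy, y', hy', w, hw, e1⟩ := cov_conj D (cov3ii D ρ _ hμ) p hu
  refine ⟨y, Up_le_G D hy, y', hy', _, w, hw, e1, ?_, ?_⟩
  · show c₀ * c₀ * p.1.2⁻¹ * p.1.2 = c₀ * c₀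
    group
  · show Good (δ : F) ((dG ρ ρ : GL (Fin 2) F) * p.1.1).1
    rw [dG_smul]
    exact hg

/-- The third case. -/
theorem reach3 [Fintype F] (δ : Fˣ) {c₀ : Kˣ} (hc₀ : D.ιU δ = nmU D.f c₀) (p : LL D) {u : GL chevD4.Idx K} (hu : u ∈ Up D) :
    ∃ h ∈ GG D, ∃ y' ∈ Un D, ∃ B : LL D, ∃ w ∈ Up D,
      h * (nuK 3 * phi D p * u) * h⁻¹ = y' * phi D B * w ∧ B.1.2 = c₀ * c₀ ∧ Good (δ : F) B.1.1.1 := by
  set X := p.1.1 with hXd
  have hδ : (δ : F) ≠ 0 := δ.ne_zero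
  set μ : Fˣ := δ * δ * (detU X)⁻¹ with hμd
  have hμdet : μ * detU X = δ * δ := by
    rw [hμd]
    group
  have hμdet' : (μ : F) * X.1.det = (δ : F) ^ 2 := by
    rw [← detU_val, ← Units.val_mul, hμdet, Units.val_mul]
    ring
  have hi : ∀ hX : ¬ ∃ s : F, X.1 = s • 1, ((2 : F) = 0 ∧ X.1.trace = 0) ∨ ((2 : F) ≠ 0 ∧ X.1.det ≠ (δ : F) ^ 2) →
      ∃ h ∈ GG D, ∃ y' ∈ Un D, ∃ B : LL D, ∃ w ∈ Up D,
        h * (nuK 3 * phi D p * u) * h⁻¹ = y' * phi D B * w ∧ B.1.2 = c₀ * c₀ ∧ Good (δ : F) B.1.1.1 := by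
    intro hX hcase
    obtain ⟨S, hS, hg⟩ := good_three hδ μ X hX hμdet' hcase
    exact reach3i D δ hc₀ p hu hμdet S hS hg
  by_cases hsq : ∃ ρ : Fˣ, ρ * ρ = μ
  · obtain ⟨ρ, hρ⟩ := hsq
    have hρ' : (ρ : F) ^ 2 = μ := by
      rw [sq, ← Units.val_mul, hρ]
    have hρdet : ρ * ρ * detU X = δ * δ := by rw [hρ, hμdet]
    have hρdet' : (ρ : F) ^ 2 * X.1.det = (δ : F) ^ 2 := by rw [hρ', hμdet']
    by_cases hX : ∃ s : F, X.1 = s • 1
    · obtain ⟨x, hx⟩ := hX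
      have hdetx : X.1.det = x ^ 2 := by
        rw [hx, Matrix.det_fin_two]
        simp [Matrix.one_apply, sq]
      have hx0 : x ≠ 0 := by
        intro h0
        have := (detU X).ne_zero
        rw [detU_val, hdetx, h0] at this
        simp at this
      set ρ₁ : Fˣ := δ * (Units.mk0 x hx0)⁻¹ with hρ₁
      have hρ₁v : (ρ₁ : F) = (δ : F) / x := by
        rw [hρ₁]
        simp [div_eq_mul_inv]
      have hρ₁d : ρ₁ * ρ₁ * detU X = δ * δ := by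
        apply Units.ext
        show (ρ₁ : F) * (ρ₁ : F) * ((detU X : Fˣ) : F) = (δ : F) * (δ : F)
        rw [detU_val, hdetx, hρ₁v]
        field_simp
      refine reach3ii D δ hc₀ p hu ρ₁ hρ₁d (Or.inl ?_)
      rw [hρ₁v, hx, smul_smul]
      field_simp
    · by_cases h1 : (ρ : F) * X.1.trace = 2 * δ
      · by_cases h2 : ((-ρ : Fˣ) : F) * X.1.trace = 2 * δ
        · have h3 : (2 : F) * (2 * δ) = 0 := by
            have e : ((-ρ : Fˣ) : F) = -(ρ : F) := by simp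
            rw [e] at h2
            linear_combination -h1 - h2
          have h4 : (2 : F) = 0 := by
            by_contra h5
            exact mul_ne_zero h5 (mul_ne_zero h5 hδ) h3
          have h5 : X.1.trace = 0 := by
            have : (ρ : F) * X.1.trace = 0 := by rw [h1, h4, zero_mul]
            exact (mul_eq_zero.1 this).resolve_left ρ.ne_zero
          exact hi hX (Or.inl ⟨h4, h5⟩)
        · refine reach3ii D δ hc₀ p hu (-ρ) (by rw [neg_mul_neg]; exact hρdet) ?_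
          refine good_scalar hδ X ?_ (Or.inr ⟨hX, h2⟩)
          have e : ((-ρ : Fˣ) : F) = -(ρ : F) := by simp
          rw [e, neg_sq]
          exact hρdet'
      · exact reach3ii D δ hc₀ p hu ρ hρdet (good_scalar hδ X hρdet' (Or.inr ⟨hX, h1⟩))
  · have hX : ¬ ∃ s : F, X.1 = s • 1 := by
      rintro ⟨x, hx⟩
      have hdetx : X.1.det = x ^ 2 := by
        rw [hx, Matrix.det_fin_two]
        simp [Matrix.one_apply, sq]
      have hx0 : x ≠ 0 := by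
        intro h0
        have := (detU X).ne_zero
        rw [detU_val, hdetx, h0] at this
        simp at this
      apply hsq
      refine ⟨δ * (Units.mk0 x hx0)⁻¹, ?_⟩
      apply Units.ext
      rw [hμd]
      simp only [Units.val_mul, Units.val_inv_eq_inv_val, detU_val, hdetx, Units.val_mk0]
      field_simp
    have h2 : (2 : F) ≠ 0 := by
      intro h20
      have hch : ringChar F = 2 := CharP.ringChar_of_prime_eq_zero Nat.prime_two (by exact_mod_cast h20)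
      obtain ⟨r, hr⟩ := FiniteField.isSquare_of_char_two hch (μ : F)
      have hr0 : r ≠ 0 := by
        rintro rfl
        rw [mul_zero] at hr
        exact μ.ne_zero hr
      apply hsq
      refine ⟨Units.mk0 r hr0, Units.ext ?_⟩
      simp [hr]
    have hne : X.1.det ≠ (δ : F) ^ 2 := by
      intro h3
      apply hsq
      refine ⟨1, ?_⟩
      apply Units.ext
      rw [hμd]
      simp only [Units.val_mul, Units.val_inv_eq_inv_val, detU_val, h3, Units.val_one]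
      field_simp
    exact hi hX (Or.inr ⟨h2, hne⟩)

/-- All the double cosets lead to a good block. -/
theorem reach [Fintype F] (δ : Fˣ) {c₀ : Kˣ} (hc₀ : D.ιU δ = nmU D.f c₀) {k : Fin 4} (hk : k ≠ 0) (p : LL D)
    {u : GL chevD4.Idx K} (hu : u ∈ Up D) :
    ∃ h ∈ GG D, ∃ y' ∈ Un D, ∃ B : LL D, ∃ w ∈ Up D,
      h * (nuK k * phi D p * u) * h⁻¹ = y' * phi D B * w ∧ B.1.2 = c₀ * c₀ ∧ Good (δ : F) B.1.1.1 := by
  fin_cases k
  · exact absurd rfl hk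
  · exact reach1 D δ hc₀ p hu
  · exact reach2 D δ hc₀ p hu
  · exact reach3 D δ hc₀ p hu

end Cfsg.Agent.Lib.Th3D4
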